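import Mathlib
import Cfsg.Agent.H27.SympSimple
import Cfsg.Agent.H11.PermChar
import Cfsg.Agent.H74.CksDefs

/-!
Rank three actions of the symplectic groups over fields of odd order: definitions and the
statements of the steps.  The paper proof is in `stubs/notes/h71_s2195.md`.
-/

set_option autoImplicit false

namespace Cfsg.Agent.H71.P3

open Cfsg Module Cfsg.Agent.H27
open scoped Pointwise MatrixGroups

section geo
variable {F V : Type} [Field F] [AddCommGroup V] [Module F V]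

/-- Dimension of a subspace. -/
noncomputable abbrev dm (A : Submodule F V) : ℕ := finrank F A

theorem smul_def (g : V ≃ₗ[F] V) (A : Submodule F V) : g • A = A.map (g : V →ₗ[F] V) := rfl

theorem mem_smul {g : V ≃ₗ[F] V} {A : Submodule F V} {v : V} : v ∈ g • A ↔ g.symm v ∈ A := by
  rw [smul_def, Submodule.mem_map_equiv]

theorem smul_mem_smul {g : V ≃ₗ[F] V} {A : Submodule F V} {v : V} : g v ∈ g • A ↔ v ∈ A := by
  rw [mem_smul, LinearEquiv.symm_apply_apply]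

theorem dm_smul (g : V ≃ₗ[F] V) (A : Submodule F V) : dm (g • A) = dm A :=
  LinearEquiv.finrank_map_eq g A

theorem smul_le_smul {g : V ≃ₗ[F] V} {A B : Submodule F V} : g • A ≤ g • B ↔ A ≤ B :=
  Submodule.map_le_map_iff_of_injective g.injective A B

theorem smul_sup (g : V ≃ₗ[F] V) (A B : Submodule F V) : g • (A ⊔ B) = g • A ⊔ g • B :=
  Submodule.map_sup A B _

theorem smul_inf (g : V ≃ₗ[F] V) (A B : Submodule F V) : g • (A ⊓ B) = g • A ⊓ g • B :=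
  Submodule.map_inf _ g.injective

theorem smul_span (g : V ≃ₗ[F] V) (v : V) : g • (F ∙ v) = F ∙ (g v) := by
  rw [smul_def, Submodule.map_span, Set.image_singleton]; rfl

theorem smul_span_pair (g : V ≃ₗ[F] V) (u v : V) :
    g • Submodule.span F {u, v} = Submodule.span F {g u, g v} := by
  rw [smul_def, Submodule.map_span, Set.image_pair]; rfl

end geo

/-- A symplectic space of dimension `2 k ≥ 6` over a field of odd order. -/
structure Sp (F V : Type) [Field F] [AddCommGroup V] [Module F V] where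
  B : LinearMap.BilinForm F V
  alt : B.IsAlt
  nd : B.Nondegenerate
  k : ℕ
  hk : 3 ≤ k
  dim : finrank F V = 2 * k
  odd : Odd (Nat.card F)

namespace Sp

variable {F V : Type} [Field F] [AddCommGroup V] [Module F V] (S : Sp F V)

/-- The symplectic group. -/
abbrev G : Subgroup (V ≃ₗ[F] V) := isomGroup S.B
/-- The transvection `x ↦ x + c B(x, w) w`. -/
abbrev t (w : V) (c : F) : V ≃ₗ[F] V := altTv S.alt w c
/-- Totally isotropic subspaces. -/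
def Iso (W : Submodule F V) : Prop := ∀ u ∈ W, ∀ v ∈ W, S.B u v = 0
/-- Totally isotropic lines. -/
def IsLn (L : Submodule F V) : Prop := dm L = 2 ∧ S.Iso L
/-- Point-line flags. -/
def IsFl (x L : Submodule F V) : Prop := dm x = 1 ∧ S.IsLn L ∧ x ≤ L
/-- Hyperbolic lines. -/
def Hyp (l : Submodule F V) : Prop := ∃ u w, S.B u w = 1 ∧ l = Submodule.span F {u, w}
/-- `g` fixes every vector perpendicular to `T`. -/
def Supp (T : Submodule F V) (g : V ≃ₗ[F] V) : Prop := ∀ v, (∀ s ∈ T, S.B v s = 0) → g v = v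
/-- `g` is `-1` on `l` and `1` on the perpendicular space. -/
def IsJ (l : Submodule F V) (g : V ≃ₗ[F] V) : Prop := S.Supp l g ∧ ∀ v ∈ l, g v = -v
/-- `g` has no eigenvector in `l` and is `1` on the perpendicular space. -/
def Irr (l : Submodule F V) (g : V ≃ₗ[F] V) : Prop :=
  S.Supp l g ∧ ∀ v ∈ l, v ≠ 0 → ∀ c : F, g v ≠ c • v
/-- `g` is an anisotropic unipotent element of rank two. -/
def An (L : Submodule F V) (g : V ≃ₗ[F] V) : Prop :=
  S.Supp L g ∧ (∀ v, g v - v ∈ L) ∧ ∀ v, S.B (g v) v = 0 → ∀ s ∈ L, S.B v s = 0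
/-- The shape of the elements of the unipotent radical of a point stabiliser. -/
def Ei (r u : V) (c : F) (g : V ≃ₗ[F] V) : Prop :=
  S.B r u = 0 ∧ ∀ v, g v = v + S.B v u • r + S.B v r • u + (c * S.B v r) • r

/-- The unipotent radical of the stabiliser of the point `r`. -/
def Q (r : V) : Subgroup (V ≃ₗ[F] V) where
  carrier := {g | g ∈ S.G ∧ g r = r ∧ ∀ v, S.B v r = 0 → g v - v ∈ F ∙ r}
  one_mem' := ⟨one_mem _, rfl, fun v _ => by simp⟩
  mul_mem' := by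
    rintro g h ⟨g1, g2, g3⟩ ⟨h1, h2, h3⟩
    refine ⟨mul_mem g1 h1, by rw [LinearEquiv.mul_apply, h2, g2], fun v hv => ?_⟩
    obtain ⟨c, hc⟩ := Submodule.mem_span_singleton.1 (h3 v hv)
    have e : (g * h) v - v = c • r + (g v - v) := by
      rw [LinearEquiv.mul_apply, ← g2, ← map_smul, hc, map_sub]; abel
    rw [e]
    exact add_mem (Submodule.smul_mem _ _ (Submodule.mem_span_singleton_self r)) (g3 v hv)
  inv_mem' := by
    rintro g ⟨g1, g2, g3⟩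
    have e : g⁻¹ r = r := by
      conv_lhs => rw [← g2]
      exact g.symm_apply_apply r
    refine ⟨inv_mem g1, e, fun v hv => ?_⟩
    obtain ⟨c, hc⟩ := Submodule.mem_span_singleton.1 (g3 v hv)
    have e2 : g⁻¹ v - v = (-c) • r := by
      have := congrArg (⇑(g⁻¹)) hc
      rw [map_smul, e, map_sub, show g⁻¹ (g v) = v from g.symm_apply_apply v] at this
      rw [neg_smul, this, neg_sub]
    rw [e2]
    exact Submodule.smul_mem _ _ (Submodule.mem_span_singleton_self r)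

theorem mem_Q {r : V} {g : V ≃ₗ[F] V} :
    g ∈ S.Q r ↔ g ∈ S.G ∧ g r = r ∧ ∀ v, S.B v r = 0 → g v - v ∈ F ∙ r := Iff.rfl

/-- Transitive on points. -/
def PtT (_S : Sp F V) (K : Subgroup (V ≃ₗ[F] V)) : Prop :=
  ∀ u v : V, u ≠ 0 → v ≠ 0 → ∃ g ∈ K, ∃ c : F, g u = c • v
/-- No transvections. -/
def NoT (K : Subgroup (V ≃ₗ[F] V)) : Prop := ∀ w c, w ≠ 0 → c ≠ 0 → S.t w c ∉ K
/-- `K` meets the unipotent radicals of the point stabilisers trivially. -/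
def NoQ (K : Subgroup (V ≃ₗ[F] V)) : Prop := ∀ r, r ≠ 0 → ∀ g ∈ K, g ∈ S.Q r → g = 1
/-- No reflections in hyperbolic lines. -/
def NoJ (K : Subgroup (V ≃ₗ[F] V)) : Prop := ∀ l, S.Hyp l → ∀ g ∈ K, ¬ S.IsJ l g
/-- No irreducible elements on hyperbolic lines. -/
def NoI (K : Subgroup (V ≃ₗ[F] V)) : Prop := ∀ l, S.Hyp l → ∀ g ∈ K, ¬ S.Irr l g
/-- No anisotropic elements. -/
def NoA (K : Subgroup (V ≃ₗ[F] V)) : Prop := ∀ L, S.IsLn L → ∀ g ∈ K, ¬ S.An L g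
/-- At most `m` orbits on points. -/
def O1 (_S : Sp F V) (K : Subgroup (V ≃ₗ[F] V)) (m : ℕ) : Prop :=
  ∃ c : Submodule F V → Fin m, ∀ x x', dm x = 1 → dm x' = 1 → c x = c x' → ∃ g ∈ K, g • x = x'
/-- At most `m` orbits on totally isotropic lines. -/
def O2 (K : Subgroup (V ≃ₗ[F] V)) (m : ℕ) : Prop :=
  ∃ c : Submodule F V → Fin m, ∀ L L', S.IsLn L → S.IsLn L' → c L = c L' → ∃ g ∈ K, g • L = L'
/-- At most `m` orbits on flags. -/
def O3 (K : Subgroup (V ≃ₗ[F] V)) (m : ℕ) : Prop :=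
  ∃ c : Submodule F V → Submodule F V → Fin m, ∀ x L x' L', S.IsFl x L → S.IsFl x' L' →
    c x L = c x' L' → ∃ g ∈ K, g • x = x' ∧ g • L = L'
/-- At most three double cosets. -/
def R3 (K : Subgroup (V ≃ₗ[F] V)) : Prop :=
  ∃ a b : V ≃ₗ[F] V, ∀ g ∈ S.G, g ∈ K ∨ (∃ h ∈ K, ∃ h' ∈ K, g = h * a * h') ∨
    ∃ h ∈ K, ∃ h' ∈ K, g = h * b * h'

/-- An invariant family of totally isotropic subspaces of dimension `w`, one through each point. -/
structure WS (K : Subgroup (V ≃ₗ[F] V)) (W : V → Submodule F V) (w : ℕ) : Prop where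
  inv : ∀ g ∈ K, ∀ x, x ≠ 0 → W (g x) = g • W x
  smul : ∀ (c : F) x, c ≠ 0 → x ≠ 0 → W (c • x) = W x
  mem : ∀ x, x ≠ 0 → x ∈ W x
  iso : ∀ x, x ≠ 0 → S.Iso (W x)
  dim : ∀ x, x ≠ 0 → dm (W x) = w
  two : 2 ≤ w

theorem Iso.smul {S : Sp F V} {g : V ≃ₗ[F] V} (hg : g ∈ S.G) {W : Submodule F V} (h : S.Iso W) :
    S.Iso (g • W) := by
  rintro _ ⟨u, hu, rfl⟩ _ ⟨v, hv, rfl⟩
  exact (hg u v).trans (h u hu v hv)

theorem IsLn.smul {S : Sp F V} {g : V ≃ₗ[F] V} (hg : g ∈ S.G) {L : Submodule F V}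
    (h : S.IsLn L) : S.IsLn (g • L) := ⟨(dm_smul g L).trans h.1, h.2.smul hg⟩

theorem IsFl.smul {S : Sp F V} {g : V ≃ₗ[F] V} (hg : g ∈ S.G) {x L : Submodule F V}
    (h : S.IsFl x L) : S.IsFl (g • x) (g • L) :=
  ⟨(dm_smul g x).trans h.1, h.2.1.smul hg, smul_le_smul.2 h.2.2⟩

theorem Hyp.smul {S : Sp F V} {g : V ≃ₗ[F] V} (hg : g ∈ S.G) {l : Submodule F V}
    (h : S.Hyp l) : S.Hyp (g • l) := by
  obtain ⟨u, w, e, rfl⟩ := h
  exact ⟨g u, g w, (hg u w).trans e, smul_span_pair g u w⟩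

theorem Supp.conj {S : Sp F V} {g h : V ≃ₗ[F] V} (hg : g ∈ S.G) {T : Submodule F V}
    (hh : S.Supp T h) : S.Supp (g • T) (g * h * g⁻¹) := fun v hv => by
  have e : h (g⁻¹ v) = g⁻¹ v := hh _ fun s hs => by
    rw [← hg, show g (g⁻¹ v) = v from g.apply_symm_apply v]
    exact hv _ (smul_mem_smul.2 hs)
  rw [LinearEquiv.mul_apply, LinearEquiv.mul_apply, e]
  exact g.apply_symm_apply v

theorem two_ne_zero [Finite F] (S : Sp F V) : (2 : F) ≠ 0 := fun h => by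
  have := Fintype.ofFinite F
  have h1 := two_eq_zero_iff_even_card.1 h
  rw [← Nat.card_eq_fintype_card] at h1
  exact (Nat.not_even_iff_odd.2 S.odd) h1

/-- The points. -/
def Pt (_S : Sp F V) : Type := {x : Submodule F V // dm x = 1}
/-- The totally isotropic lines. -/
def Ln : Type := {L : Submodule F V // S.IsLn L}
/-- The flags. -/
def Fl : Type := {a : Submodule F V × Submodule F V // S.IsFl a.1 a.2}

instance : MulAction S.G S.Pt where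
  smul g x := ⟨(g : V ≃ₗ[F] V) • x.1, (dm_smul _ _).trans x.2⟩
  one_smul x := Subtype.ext (one_smul (V ≃ₗ[F] V) x.1)
  mul_smul g h x := Subtype.ext (mul_smul (g : V ≃ₗ[F] V) (h : V ≃ₗ[F] V) x.1)

instance : MulAction S.G S.Ln where
  smul g x := ⟨(g : V ≃ₗ[F] V) • x.1, x.2.smul g.2⟩
  one_smul x := Subtype.ext (one_smul (V ≃ₗ[F] V) x.1)
  mul_smul g h x := Subtype.ext (mul_smul (g : V ≃ₗ[F] V) (h : V ≃ₗ[F] V) x.1)

instance : MulAction S.G S.Fl where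
  smul g x := ⟨((g : V ≃ₗ[F] V) • x.1.1, (g : V ≃ₗ[F] V) • x.1.2), x.2.smul g.2⟩
  one_smul x := Subtype.ext (Prod.ext (one_smul (V ≃ₗ[F] V) x.1.1) (one_smul (V ≃ₗ[F] V) x.1.2))
  mul_smul g h x := Subtype.ext (Prod.ext (mul_smul (g : V ≃ₗ[F] V) (h : V ≃ₗ[F] V) x.1.1)
    (mul_smul (g : V ≃ₗ[F] V) (h : V ≃ₗ[F] V) x.1.2))

theorem Pt_smul (g : S.G) (x : S.Pt) : (g • x).1 = (g : V ≃ₗ[F] V) • x.1 := rfl
theorem Ln_smul (g : S.G) (x : S.Ln) : (g • x).1 = (g : V ≃ₗ[F] V) • x.1 := rfl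
theorem Fl_smul1 (g : S.G) (x : S.Fl) : (g • x).1.1 = (g : V ≃ₗ[F] V) • x.1.1 := rfl
theorem Fl_smul2 (g : S.G) (x : S.Fl) : (g • x).1.2 = (g : V ≃ₗ[F] V) • x.1.2 := rfl

instance [Finite V] : Finite S.Pt :=
  have : Finite (Submodule F V) := Finite.of_injective _ SetLike.coe_injective
  inferInstanceAs (Finite {x : Submodule F V // dm x = 1})
instance [Finite V] : Finite S.Ln :=
  have : Finite (Submodule F V) := Finite.of_injective _ SetLike.coe_injective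
  inferInstanceAs (Finite {L : Submodule F V // S.IsLn L})
instance [Finite V] : Finite S.Fl :=
  have : Finite (Submodule F V) := Finite.of_injective _ SetLike.coe_injective
  inferInstanceAs (Finite {a : Submodule F V × Submodule F V // S.IsFl a.1 a.2})

theorem finite_aut [Finite V] : Finite (V ≃ₗ[F] V) :=
  Finite.of_injective (fun g : V ≃ₗ[F] V => (g : V → V)) DFunLike.coe_injective

noncomputable instance [Finite V] : Fintype S.G :=
  have := finite_aut (F := F) (V := V)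
  Fintype.ofFinite _

/-- The nontrivial constituents of the flag character have degree divisible by `p`. -/
def How [Finite V] : Prop := ∀ χ : S.G → ℂ, IsIrrCharacter S.G χ → (χ ≠ fun _ => 1) →
  classInner (H11.permChar S.G S.Fl) χ ≠ 0 → ∃ m : ℕ, χ 1 = (ringChar F * m : ℕ)

end Sp

/-- At most `m` orbits on the pairs with property `R`. -/
def Col (G : Type) [Group G] {A B : Type} [MulAction G A] [MulAction G B] (R : A → B → Prop)
    (m : ℕ) : Prop :=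
  ∃ c : A → B → Fin m, ∀ a b a' b', R a b → R a' b' → c a b = c a' b' →
    ∃ g : G, g • a = a' ∧ g • b = b'

/-- The standard space. -/
noncomputable def std (k : ℕ) (F : Type) [Field F] (hk : 3 ≤ k) (odd : Odd (Nat.card F)) :
    Sp F (Fin k ⊕ Fin k → F) where
  B := jBilin (Fin k) F
  alt := jBilin_isAlt
  nd := jBilin_nondegenerate
  k := k
  hk := hk
  dim := by simp [two_mul]
  odd := odd

/-- Statements about all symplectic spaces. -/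
def AllSp (P : ∀ {F V : Type} [Field F] [Finite F] [AddCommGroup V] [Module F V] [Finite V]
    (_ : Sp F V), Prop) : Prop :=
  ∀ {F V : Type} [Field F] [Finite F] [AddCommGroup V] [Module F V] [Finite V] (S : Sp F V), P S

/-- Statements about all subgroups of symplectic groups. -/
def AllK (P : ∀ {F V : Type} [Field F] [Finite F] [AddCommGroup V] [Module F V] [Finite V]
    (_ : Sp F V) (_ : Subgroup (V ≃ₗ[F] V)), Prop) : Prop :=
  ∀ {F V : Type} [Field F] [Finite F] [AddCommGroup V] [Module F V] [Finite V] (S : Sp F V)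
    (K : Subgroup (V ≃ₗ[F] V)), K ≤ S.G → P S K

/-! ### Two-dimensional groups -/

/-- **NEG** -/
def NegStmt : Prop :=
  ∀ (F : Type) [Field F] [Finite F], Odd (Nat.card F) → ∀ H : Subgroup SL(2, F),
    (∀ g ∈ H, ∀ h ∈ H, ∀ u v : Fin 2 → F, g ≠ 1 → h ≠ 1 → u ≠ 0 → v ≠ 0 → v ∉ F ∙ u →
      (g : Matrix (Fin 2) (Fin 2) F).mulVec u = u → (h : Matrix (Fin 2) (Fin 2) F).mulVec v = v →
      -1 ∈ H) ∧
    (-1 ∈ H ∨ ¬ ringChar F ∣ Nat.card H ∨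
      ∃ v : Fin 2 → F, v ≠ 0 ∧ ∀ h ∈ H, ∃ c : F, (h : Matrix (Fin 2) (Fin 2) F).mulVec v = c • v)

/-- **RHO** -/
def RhoStmt : Prop := AllK fun {F V} _ _ _ _ _ S H => ∀ z u w : V, S.B u w = 1 → S.B z u = 0 →
  S.B z w = 0 → (∀ g ∈ H, S.Supp (Submodule.span F {z, u, w}) g) →
  ∃ ρ : H →* SL(2, F), ∀ (g : H) (a : Fin 2 → F),
    (g : V ≃ₗ[F] V) (a 0 • u + a 1 • w) -
      ((ρ g : Matrix (Fin 2) (Fin 2) F).mulVec a 0 • u +
        (ρ g : Matrix (Fin 2) (Fin 2) F).mulVec a 1 • w) ∈ F ∙ z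

/-- **MJ** -/
def MjStmt : Prop := AllK fun {F V} _ _ _ _ _ S K => S.NoQ K → ∀ z u w : V, z ≠ 0 →
  S.B u w = 1 → S.B z u = 0 → S.B z w = 0 → ∀ g ∈ K, S.Supp (Submodule.span F {z, u, w}) g →
  (g u - u ∈ F ∙ z → g w - w ∈ F ∙ z → g = 1) ∧
  (g u + u ∈ F ∙ z → g w + w ∈ F ∙ z → ∃ l, S.Hyp l ∧ S.IsJ l g)

/-- **QF** -/
def QfStmt : Prop := AllSp fun {F V} _ _ _ _ _ S => ∀ r : V, r ≠ 0 →
  (∀ g ∈ S.Q r, ∃ u c, S.Ei r u c g) ∧
  (∀ u c g u' c' h, S.Ei r u c g → S.Ei r u' c' h → g * h = S.t r (-2 * S.B u u') * (h * g)) ∧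
  (∀ c, S.t r c ∈ S.Q r) ∧
  (∀ y y', S.B y r ≠ 0 → S.B y' r = S.B y r → ∃! g, g ∈ S.Q r ∧ g y = y') ∧
  Nat.card (S.Q r) = Nat.card F ^ (2 * S.k - 1) ∧
  ∀ g ∈ S.G, ∀ h, h ∈ S.Q r ↔ g * h * g⁻¹ ∈ S.Q (g r)

/-- **TOR** -/
def TorStmt : Prop := AllSp fun {F _} _ _ _ _ _ S => ∀ l, S.Hyp l →
  ∃ c ∈ S.G, S.Supp l c ∧ orderOf c = Nat.card F + 1 ∧
    ∀ d ∈ Subgroup.zpowers c, d ≠ 1 → S.IsJ l d ∨ S.Irr l d

/-! ### The point-transitive case -/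

/-- **TV** -/
def TvStmt : Prop := AllK fun S K => S.PtT K → ¬ S.G ≤ K → S.NoT K

/-- **W1** -/
def W1Stmt : Prop := AllK fun S K => S.PtT K → S.O2 K 2 → S.O3 K 3 →
  ∀ W w, S.WS K W w → w < S.k → False

/-- **W2** -/
def W2Stmt : Prop := AllK fun {F _} _ _ _ _ _ S K => S.PtT K → ∀ W, S.WS K W S.k →
  (∀ x u c, x ≠ 0 → u ∉ F ∙ x → ∀ g ∈ K, ¬ S.Ei x u c g) ∧ S.NoA K

/-- **QQ** -/
def QqStmt : Prop := AllK fun S K => S.PtT K → S.O2 K 2 → S.O3 K 3 → S.NoT K → S.NoQ K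

/-- **FR** -/
def FrStmt : Prop :=
  ∀ (P : Type) [Finite P] (r : P → P → Prop) (p : ℕ), p.Prime → p ≠ 2 → (∀ a b, r a b → r b a) →
    (∀ a, ¬ r a a) → Nat.card P % p = 1 → (∀ a b, {c | r a c ∧ r b c}.ncard % p = 1) → False

/-- **SPR** -/
def SprStmt : Prop := AllK fun {F V} _ _ _ _ _ S K => S.PtT K → ∀ T : Submodule F V → Prop,
  (∃ l, T l) → (∀ l, T l → S.Hyp l) → (∀ g ∈ K, ∀ l, T l → T (g • l)) →
  (∀ l m, T l → T m → l ≠ m → l ⊓ m = ⊥) →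
  (∀ l, T l → ∃ g ∈ K, S.Supp l g ∧ ∀ v ∈ l, g v = v → v = 0) → False

/-- **MEET**: two different hyperbolic lines with a common point. -/
def MeetStmt : Prop := AllSp fun {F V} _ _ _ _ _ S => ∀ l m, S.Hyp l → S.Hyp m → l ≠ m →
  l ⊓ m ≠ ⊥ → ∃ z u w : V, z ≠ 0 ∧ S.B u w = 1 ∧ S.B z u = 0 ∧ S.B z w = 0 ∧
    l = Submodule.span F {u, w} ∧ m = Submodule.span F {u, w + z}

/-- **NJ** -/
def NjStmt : Prop := AllK fun S K => S.PtT K → S.NoQ K → S.NoJ K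

/-- **NI** -/
def NiStmt : Prop := AllK fun S K => S.PtT K → S.NoQ K → S.NoJ K → S.NoI K

/-- **NA** -/
def NaStmt : Prop := AllK fun S K => S.PtT K → S.O2 K 2 → S.O3 K 3 → S.NoQ K → S.NoJ K → S.NoA K

/-- **K1** -/
def K1Stmt : Prop := AllK fun {F _} _ _ _ _ _ S K => S.NoQ K → S.NoJ K → S.NoI K →
  Nat.card F ^ (2 * S.k) < K.relIndex S.G

/-- **K2** -/
def K2Stmt : Prop := AllK fun {F _} _ _ _ _ _ S K => S.NoT K → S.NoJ K → S.NoI K → S.NoA K →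
  ∀ v w (e : F), v ≠ 0 → w ≠ 0 → ¬ IsSquare e → S.t w (-e) * S.t v 1 ∉ K

/-- **K3** -/
def K3Stmt : Prop := AllK fun {F _} _ _ _ _ _ S K => S.R3 K → S.NoT K →
  (∀ v w (e : F), v ≠ 0 → w ≠ 0 → ¬ IsSquare e → S.t w (-e) * S.t v 1 ∉ K) →
  K.relIndex S.G ≤ Nat.card F ^ (2 * S.k)

/-! ### Two orbits on points -/

/-- The number of points of `L` with property `s`. -/
noncomputable def cnt {F V : Type} [Field F] [AddCommGroup V] [Module F V]
    (s : Submodule F V → Prop) (L : Submodule F V) : ℕ := {x | dm x = 1 ∧ x ≤ L ∧ s x}.ncard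

/-- **LINE** -/
def LineStmt : Prop :=
  ∀ (F V : Type) [Field F] [Finite F] [AddCommGroup V] [Module F V] [Finite V]
    (Γ : Subgroup (V ≃ₗ[F] V)) (L : Submodule F V) (s : Submodule F V → Prop),
    Odd (Nat.card F) → dm L = 2 → (∀ g ∈ Γ, g • L = L) →
    (∀ g ∈ Γ, ∀ y, dm y = 1 → y ≤ L → (s (g • y) ↔ s y)) →
    (∀ y z, dm y = 1 → y ≤ L → dm z = 1 → z ≤ L → (s y ↔ s z) → ∃ g ∈ Γ, g • y = z) →
    cnt s L ∣ Nat.card F → cnt s L = 1 ∨ cnt s L = Nat.card F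

/-- **DIV** -/
def DivStmt : Prop :=
  (∀ (F V : Type) [Field F] [Finite F] [AddCommGroup V] [Module F V] [Finite V]
    (L : Submodule F V) (s : Submodule F V → Prop), dm L = 2 →
      cnt s L + cnt (fun x => ¬ s x) L = Nat.card F + 1) ∧
  (∀ (F V : Type) [Field F] [Finite F] [AddCommGroup V] [Module F V] [Finite V]
    (E : Submodule F V) (s : Submodule F V → Prop) (b : ℕ), dm E = 3 → 1 ≤ b → b ≤ Nat.card F →
    (∀ L, L ≤ E → dm L = 2 → cnt s L = 0 ∨ cnt s L = b) → (∃ L, L ≤ E ∧ dm L = 2 ∧ cnt s L = b) →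
    b ∣ Nat.card F ∧ ∃ L, L ≤ E ∧ dm L = 2 ∧ cnt s L = 0) ∧
  AllSp fun S => ∀ L, S.IsLn L → ∃ E, L ≤ E ∧ dm E = 3 ∧ S.Iso E

/-- **B1** -/
def B1Stmt : Prop := AllSp fun {F V} _ _ _ _ _ S => ∀ (s : Submodule F V → Prop) (n : ℕ),
  (∃ x, dm x = 1 ∧ s x) → (∀ L, S.IsLn L → cnt s L ≤ 1) →
  (∀ z : V, z ≠ 0 → ¬ s (F ∙ z) → {y | dm y = 1 ∧ s y ∧ ∀ v ∈ y, S.B v z = 0}.ncard = n) → False

/-- **BQ** -/
def BqStmt : Prop := AllSp fun {F V} _ _ _ _ _ S => ∀ s : Submodule F V → Prop,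
  (∃ x, dm x = 1 ∧ ¬ s x) → (∀ L, S.IsLn L → cnt s L = 1 ∨ cnt s L = Nat.card F + 1) →
  ∃ z : V, z ≠ 0 ∧ ∀ v : V, v ≠ 0 → (s (F ∙ v) ↔ S.B v z = 0)

/-- **CA** -/
def CaStmt : Prop := AllK fun S K => S.O1 K 2 → S.O2 K 2 → S.O3 K 3 → S.PtT K

/-! ### The parabolic case -/

/-- **SYL** -/
def SylStmt : Prop := AllK fun {F _} _ _ _ _ _ S K => ¬ ringChar F ∣ K.relIndex S.G → ¬ S.G ≤ K →
  ∃ W, W ≠ ⊥ ∧ S.Iso W ∧ ∀ g ∈ K, g • W = W

/-- **PAR** -/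
def ParStmt : Prop := AllK fun S K => S.R3 K → ∀ W, W ≠ ⊥ → S.Iso W → (∀ g ∈ K, g • W = W) →
  dm W = 1

/-- **IDX** -/
def IdxStmt : Prop := AllK fun {F V} _ _ _ _ _ S K => IsCoatom (K.subgroupOf S.G) →
  ∀ W : Submodule F V, dm W = 1 → (∀ g ∈ K, g • W = W) →
  K.relIndex S.G * (Nat.card F - 1) = Nat.card F ^ (2 * S.k) - 1

/-! ### Characters -/

/-- **MONO** -/
def MonoStmt : Prop :=
  ∀ (G A B : Type) [Group G] [Finite G] [Fintype A] [Finite B] [MulAction G A] [MulAction G B]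
    (N : A → B → ℂ), (∀ (g : G) a b, N (g • a) (g • b) = N a b) →
    (∀ f : A → ℂ, (∀ b, ∑ a, N a b * f a = 0) → f = 0) →
    IsCharacter G (H11.permChar G B - H11.permChar G A)

/-- **INJ** -/
def InjStmt : Prop := AllSp fun S =>
  (∀ f : S.Pt → ℂ, (∀ L : S.Ln, ∑ᶠ (y : S.Pt) (_ : y.1 ≤ L.1), f y = 0) → f = 0) ∧
  ∀ f g : S.Pt → ℂ, ∑ᶠ y, f y = 0 →
    (∀ (x : S.Pt) (L : S.Ln), x.1 ≤ L.1 → f x + ∑ᶠ (y : S.Pt) (_ : y.1 ≤ L.1), g y = 0) →
    f = 0 ∧ g = 0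

/-- **OA** -/
def OaStmt : Prop := AllSp fun S =>
  MulAction.IsPretransitive S.G S.Pt ∧ MulAction.IsPretransitive S.G S.Ln ∧
  MulAction.IsPretransitive S.G S.Fl ∧ Nonempty S.Fl ∧
  Nat.card (MulAction.orbitRel.Quotient S.G (S.Pt × S.Pt)) = 3 ∧
  Col S.G (fun (_ : S.Pt) (_ : S.Ln) => True) 3 ∧ Col S.G (fun (_ : S.Pt) (_ : S.Fl) => True) 5

/-- **OB** -/
def ObStmt : Prop := AllSp fun S => Col S.G (fun (_ : S.Ln) (_ : S.Ln) => True) 6

/-- **OC** -/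
def OcStmt : Prop := AllSp fun S => Col S.G (fun (a : S.Fl) (b : S.Fl) => b.1.1 ≤ a.1.2) 6

/-- **OD** -/
def OdStmt : Prop := AllSp fun S => Col S.G (fun (a : S.Fl) (b : S.Fl) =>
  ¬ b.1.1 ≤ a.1.2 ∧ ∀ u ∈ a.1.2, ∀ v ∈ b.1.1, S.B u v = 0) 5

/-- **OE** -/
def OeStmt : Prop := AllSp fun S => Col S.G (fun (a : S.Fl) (b : S.Fl) =>
  ¬ ∀ u ∈ a.1.2, ∀ v ∈ b.1.1, S.B u v = 0) 6

/-- **MULT** -/
def MultStmt : Prop := AllSp fun S => ∀ χ : S.G → ℂ, IsIrrCharacter S.G χ → (χ ≠ fun _ => 1) →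
  ∃ a b c : ℕ, classInner (H11.permChar S.G S.Pt) χ = a ∧ classInner (H11.permChar S.G S.Ln) χ = b ∧
    classInner (H11.permChar S.G S.Fl) χ = c ∧ a ≤ 1 ∧ b ≤ 1 ∧ c ≤ 2 ∧ a ≤ c ∧ b ≤ c

/-- **HW0** -/
def Hw0Stmt : Prop := H74.Cks.AllS fun {G} _ _ _ {p _} _ S => S.Gen → ∀ χ : G → ℂ,
  IsIrrCharacter G χ → (χ ≠ fun _ => 1) → H74.Cks.avg S.B χ ≠ 0 → ∃ m : ℕ, χ 1 = (p * m : ℕ)

/-- **HW1** -/
def Hw1Stmt : Prop :=
  ∀ (F : Type) [Field F] [Fintype F] (p : ℕ) [Fact p.Prime] [CharP F p] (k : ℕ), 3 ≤ k → p ≠ 2 →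
    ∀ (U : Sylow p (PSp k F)) (χ : PSp k F → ℂ), IsIrrCharacter (PSp k F) χ → (χ ≠ fun _ => 1) →
      H74.Cks.avg (Subgroup.normalizer ((U : Subgroup (PSp k F)) : Set (PSp k F))) χ ≠ 0 →
      ∃ m : ℕ, χ 1 = (p * m : ℕ)

/-- **BOR** -/
def BorStmt : Prop := AllSp fun {F _} _ _ _ _ _ S => ∀ (p : ℕ) [Fact p.Prime] [CharP F p]
  (U : Sylow p S.G), ∃! a : S.Fl, ∀ g ∈ (U : Subgroup S.G), g • a = a

/-- **HOW** -/
def HowStmt : Prop :=
  ∀ (k : ℕ) (F : Type) [Field F] [Finite F] (hk : 3 ≤ k) (odd : Odd (Nat.card F)),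
    (std k F hk odd).How

/-- **DEC** -/
def DecStmt : Prop :=
  ∀ (G : Type) [Group G] [Fintype G] (K : Subgroup G),
    (∀ (Y : Type) [Finite Y] [MulAction G Y],
      classInner (H11.permChar G (G ⧸ K)) (H11.permChar G Y) =
        Nat.card (MulAction.orbitRel.Quotient K Y)) ∧
    (Nat.card (MulAction.orbitRel.Quotient K (G ⧸ K)) = 3 →
      (∃ χ ψ : G → ℂ, IsIrrCharacter G χ ∧ IsIrrCharacter G ψ ∧ (χ ≠ fun _ => 1) ∧
        (ψ ≠ fun _ => 1) ∧ H11.permChar G (G ⧸ K) = (fun _ => 1) + χ + ψ) ∧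
      ∃ a b : G, ∀ g : G, g ∈ K ∨ (∃ h ∈ K, ∃ h' ∈ K, g = h * a * h') ∨
        ∃ h ∈ K, ∃ h' ∈ K, g = h * b * h')

/-- **CH** -/
def ChStmt : Prop := AllK fun {F _} _ _ _ _ _ S K => S.How →
  Nat.card (MulAction.orbitRel.Quotient (K.subgroupOf S.G) (S.G ⧸ K.subgroupOf S.G)) = 3 →
  S.R3 K ∧ (¬ ringChar F ∣ K.relIndex S.G ∨ (S.O1 K 2 ∧ S.O2 K 2 ∧ S.O3 K 3))

/-- The theorem for the isometry group. -/
def MainStmt : Prop := AllK fun {F _} _ _ _ _ _ S K => S.How → IsCoatom (K.subgroupOf S.G) →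
  Nat.card (MulAction.orbitRel.Quotient (K.subgroupOf S.G) (S.G ⧸ K.subgroupOf S.G)) = 3 →
  K.relIndex S.G * (Nat.card F - 1) = Nat.card F ^ (2 * S.k) - 1

theorem main (tv : TvStmt) (qq : QqStmt) (nj : NjStmt) (ni : NiStmt) (na : NaStmt) (k1 : K1Stmt)
    (k2 : K2Stmt) (k3 : K3Stmt) (ca : CaStmt) (syl : SylStmt) (par : ParStmt) (idx : IdxStmt)
    (ch : ChStmt) : MainStmt := by
  intro F V _ _ _ _ _ S K hK how co h3
  have hne : ¬ S.G ≤ K := fun h => co.1 (Subgroup.subgroupOf_eq_top.2 h)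
  obtain ⟨r3, h | ⟨o1, o2, o3⟩⟩ := ch S K hK how h3
  · obtain ⟨W, w0, wi, wk⟩ := syl S K hK h hne
    exact idx S K hK co W (par S K hK r3 W w0 wi wk) wk
  · have pt := ca S K hK o1 o2 o3
    have nt := tv S K hK pt hne
    have nq := qq S K hK pt o2 o3 nt
    have hj := nj S K hK pt nq
    have hi := ni S K hK pt nq hj
    have ha := na S K hK pt o2 o3 nq hj
    exact absurd (k3 S K hK r3 nt (k2 S K hK nt hj hi ha)) (not_le.2 (k1 S K hK nq hj hi))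

end Cfsg.Agent.H71.P3
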