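import Cfsg.Agent.H45.IvDefs

/-! Project CY, chapter IV: the centre of the group of a good subspace is elementary. -/

set_option autoImplicit false
set_option linter.unusedVariables false

namespace Cfsg.Agent.H71.CyGb

open Subgroup MulAction Cfsg.Agent.H11.Cy Cfsg.Agent.H45.Iv
open scoped commutatorElement

theorem core {X : Type} [Group X] (T : Subgroup X) (b : X) (p : ℕ) (hb : b ^ p = 1)
    (hc : ∀ t ∈ T, ∀ s ∈ T, t * s = s * t) (hn : ∀ t ∈ T, b * t * b⁻¹ ∈ T) :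
    ∃ S : Subgroup X, ∀ t, t ∈ S ↔ t ∈ T ∧ (t * b) ^ p = 1 ∧ t * t = 1 := by
  have h1 : ∀ n : ℕ, ∀ t ∈ T, b ^ n * t * (b ^ n)⁻¹ ∈ T := by
    intro n t ht
    induction n with
    | zero => simpa using ht
    | succ n ih =>
      have := hn _ ih
      rwa [show b * (b ^ n * t * (b ^ n)⁻¹) * b⁻¹ = b ^ (n + 1) * t * (b ^ (n + 1))⁻¹ by
        rw [pow_succ']; group] at this
  have h2 : ∀ (n : ℕ) (t : X), (t * b) ^ (n + 1) * (b ^ (n + 1))⁻¹ =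
      (t * b) ^ n * (b ^ n)⁻¹ * (b ^ n * t * (b ^ n)⁻¹) := by
    intro n t
    rw [pow_succ (t * b), pow_succ b]
    generalize (t * b) ^ n = u
    generalize b ^ n = v
    simp [mul_assoc]
  have h3 : ∀ n : ℕ, ∀ t ∈ T, (t * b) ^ n * (b ^ n)⁻¹ ∈ T := by
    intro n t ht
    induction n with
    | zero => simp
    | succ n ih => rw [h2]; exact mul_mem ih (h1 n t ht)
  have h4 : ∀ n : ℕ, ∀ t ∈ T, ∀ s ∈ T, (t * s * b) ^ n * (b ^ n)⁻¹ =
      (t * b) ^ n * (b ^ n)⁻¹ * ((s * b) ^ n * (b ^ n)⁻¹) := by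
    intro n t ht s hs
    induction n with
    | zero => simp
    | succ n ih =>
      rw [h2, h2, h2, ih]
      have e := hc _ (h3 n s hs) _ (h1 n t ht)
      have e2 : b ^ n * (t * s) * (b ^ n)⁻¹ = b ^ n * t * (b ^ n)⁻¹ * (b ^ n * s * (b ^ n)⁻¹) := by
        simp [mul_assoc]
      rw [e2]
      generalize (t * b) ^ n * (b ^ n)⁻¹ = x at *
      generalize (s * b) ^ n * (b ^ n)⁻¹ = y at *
      generalize b ^ n * t * (b ^ n)⁻¹ = z at *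
      generalize b ^ n * s * (b ^ n)⁻¹ = w at *
      rw [mul_assoc x y, ← mul_assoc y, e, mul_assoc, mul_assoc]
  have h5 : ∀ t ∈ T, ∀ s ∈ T, (t * s * b) ^ p = (t * b) ^ p * (s * b) ^ p := by
    intro t ht s hs
    simpa [hb] using h4 p t ht s hs
  refine ⟨{ carrier := {t | t ∈ T ∧ (t * b) ^ p = 1 ∧ t * t = 1}
            one_mem' := ⟨one_mem _, by rw [one_mul, hb], one_mul 1⟩
            mul_mem' := ?_
            inv_mem' := ?_ }, fun t => Iff.rfl⟩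
  · rintro t s ⟨t1, t2, t3⟩ ⟨s1, s2, s3⟩
    refine ⟨mul_mem t1 s1, by rw [h5 t t1 s s1, t2, s2, one_mul], ?_⟩
    rw [mul_assoc, ← mul_assoc s, hc s s1 t t1, mul_assoc, s3, mul_one, t3]
  · rintro t ⟨t1, t2, t3⟩
    rw [inv_eq_of_mul_eq_one_right t3]
    exact ⟨t1, t2, t3⟩

theorem comm_sq {X : Type} [Group X] {t s : X} (h2 : t * ⁅t, s⁆ = ⁅t, s⁆ * t)
    (h3 : s * (t * t) = t * t * s) : ⁅t, s⁆ * ⁅t, s⁆ = 1 :=
  calc ⁅t, s⁆ * ⁅t, s⁆ = (t * ⁅t, s⁆) * t⁻¹ * ⁅t, s⁆ := by rw [h2, mul_inv_cancel_right]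
    _ = t * t * s * (t * t)⁻¹ * s⁻¹ := by simp only [commutatorElement_def]; group
    _ = 1 := by rw [← h3]; group

theorem gb : GbStmt := by
  intro G _ _ Ω _ _ p A st hp sk ls Ψ sub good d hd ga k hk
  have cm : ∀ c ∈ Cs A Ψ, ∀ m ∈ Ms A Ψ, m * c = c * m := fun c hc m hm =>
    mem_centralizer_iff.mp hc m hm
  have TM : Ts A Ψ ≤ Ms A Ψ := commutator_le.mpr fun x hx y hy =>
    mul_mem (mul_mem (mul_mem hx hy) (inv_mem hx)) (inv_mem hy)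
  obtain ⟨a, ha, ha1⟩ : ∃ a ∈ A d, a ≠ 1 := by
    by_contra h
    push Not at h
    have : A d = ⊥ := eq_bot_iff.mpr fun a ha => mem_bot.mpr (h a ha)
    have h2 := st.card d
    rw [this, card_bot] at h2
    exact st.pp.one_lt.ne h2
  have aM : a ∈ Ms A Ψ := (sk.fle Ψ d hd d hd).1 (mem_sup_left ha)
  have ap : a ^ p = 1 := by
    have := pow_card_eq_one' (x := (⟨a, ha⟩ : A d))
    rw [st.card d] at this
    exact congrArg Subtype.val this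
  let E : Subgroup (Ms A Ψ) :=
    { carrier := {e | (e : G) ∈ Cs A Ψ ∧ (e : G) * e = 1}
      one_mem' := ⟨one_mem _, one_mul 1⟩
      mul_mem' := by
        rintro x y ⟨x1, x2⟩ ⟨y1, y2⟩
        refine ⟨mul_mem x1 y1, ?_⟩
        rw [coe_mul, mul_assoc, ← mul_assoc (y : G), cm x x1 y y.2, mul_assoc, y2, mul_one, x2]
      inv_mem' := by
        rintro x ⟨x1, x2⟩
        refine ⟨inv_mem x1, ?_⟩
        rw [coe_inv, ← mul_inv_rev, x2, inv_one] }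
  haveI : E.Normal := ⟨fun e he g => by
    have : g * e * g⁻¹ = e := Subtype.ext (by
      rw [coe_mul, coe_mul, coe_inv, cm e he.1 g g.2, mul_inv_cancel_right])
    rwa [this]⟩
  let π := QuotientGroup.mk' E
  have πk : ∀ x : Ms A Ψ, π x = 1 ↔ (x : G) ∈ Cs A Ψ ∧ (x : G) * x = 1 := fun x =>
    QuotientGroup.eq_one_iff x
  obtain ⟨S, hS⟩ := core (((Ts A Ψ).subgroupOf (Ms A Ψ)).map π) (π ⟨a, aM⟩) p
    (by rw [← map_pow, show (⟨a, aM⟩ : Ms A Ψ) ^ p = 1 from Subtype.ext ap, map_one])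
    (by
      rintro _ ⟨t, ht, rfl⟩ _ ⟨s, hs, rfl⟩
      rw [← commutatorElement_eq_one_iff_mul_comm, ← map_commutatorElement, πk]
      have h1 : ⁅(t : G), (s : G)⁆ ∈ Cs A Ψ := ga.com _ ht _ hs
      refine ⟨h1, ?_⟩
      exact comm_sq (cm _ h1 _ t.2) (cm _ (ga.sq _ ht) _ s.2))
    (by
      rintro _ ⟨t, ht, rfl⟩
      refine ⟨⟨a, aM⟩ * t * (⟨a, aM⟩ : Ms A Ψ)⁻¹, ?_, by simp⟩
      refine (sk.nrm Ψ a fun w => ⟨fun h => ?_, sk.inv Ψ sub a aM w⟩).2.1 _ ht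
      simpa using sk.inv Ψ sub a⁻¹ (inv_mem aM) _ h)
  have hT : Ts A Ψ ≤ (S.comap π).map (Ms A Ψ).subtype := by
    rw [ga.teq]
    refine iSup₂_le fun y hy r hr => ?_
    have hdy : d ≠ y := fun e => hy.2 e.symm
    obtain ⟨la, lb, lc, -⟩ := ls d y hdy
    have RT := (sk.fle Ψ d hd y hy.1).2
    have hZ : ∀ x : Ms A Ψ, (x : G) ∈ Zl A d y → π x = 1 := fun x hx =>
      (πk x).mpr ⟨sk.zc Ψ good d hd y hy.1 hdy hx, lc.zsq _ hx⟩
    obtain ⟨s, hs, h1⟩ := lc.surj a ha ha1 r hr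
    refine ⟨⟨r, TM (RT hr)⟩, ?_, rfl⟩
    have e := hZ ((⟨r, TM (RT hr)⟩ : Ms A Ψ)⁻¹ * ⁅(⟨a, aM⟩ : Ms A Ψ), ⟨s, TM (RT hs)⟩⁆) h1
    rw [map_mul, map_inv, inv_mul_eq_one, map_commutatorElement] at e
    have e2 := hZ ((⟨r, TM (RT hr)⟩ : Ms A Ψ) * ⟨r, TM (RT hr)⟩) (lb.sq r hr)
    rw [map_mul] at e2
    show π _ ∈ S
    rw [hS]
    refine ⟨⟨_, RT hr, rfl⟩, ?_, e2⟩
    rw [← inv_eq_of_mul_eq_one_right e2, e, commutatorElement_inv, commutatorElement_def,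
      inv_mul_cancel_right, conj_pow, ← map_pow,
      show (⟨a, aM⟩ : Ms A Ψ) ^ p = 1 from Subtype.ext ap, map_one, mul_one, mul_inv_cancel]
  obtain ⟨x, hx, rfl⟩ := hT hk.1
  obtain ⟨-, h1, h2⟩ := (hS _).mp hx
  rw [← map_mul, πk] at h2
  rw [← map_mul, ← map_pow, πk] at h1
  have h3 : (((x * ⟨a, aM⟩) ^ p : Ms A Ψ) : G) = (x : G) ^ p := by
    have c : Commute (x : G) a := (cm _ hk.2 a aM).symm
    show ((x : G) * a) ^ p = _
    rw [c.mul_pow, ap, mul_one]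
  have h4 := h1.2
  have h5 : ((x : G) * x) ^ 2 = 1 := by rw [sq]; exact h2.2
  rw [h3, ← (Commute.refl (x : G)).mul_pow] at h4
  have h6 := pow_gcd_eq_one.mpr ⟨h5, h4⟩
  rw [(Nat.coprime_primes Nat.prime_two st.pp).mpr (Ne.symm hp), pow_one] at h6
  exact h6

end Cfsg.Agent.H71.CyGb
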