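import Mathlib
import Cfsg.Agent.H39.SzPart

/-!
The two-variable laws `s₁ = x`, `sₙ₊₁ = [y⁻¹ sₙ y, sₙ⁻¹]` fail in `PSL₂(q)`, `SL₃(3)` and `Sz(q)`.
-/

set_option autoImplicit false

namespace Cfsg.Agent.H71.BWW

open Cfsg Subgroup
open scoped MatrixGroups

section
variable {G : Type*} [Group G]

def step (y s : G) : G := (y⁻¹ * s * y) * (s⁻¹) * (y⁻¹ * s * y)⁻¹ * (s⁻¹)⁻¹

def sq (x y : G) (n : ℕ) : G := @Nat.rec (fun _ => G) x (fun _ s => step y s) n

def Law (G : Type*) [Group G] : Prop := ∃ n : ℕ, ∀ x y : G, sq x y n = 1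

theorem map_sq {H : Type*} [Group H] (f : G →* H) (x y : G) (n : ℕ) :
    f (sq x y n) = sq (f x) (f y) n := by
  induction n with
  | zero => rfl
  | succ n ih =>
    change f (step y (sq x y n)) = step (f y) (sq (f x) (f y) n)
    rw [← ih]
    simp only [step, map_mul, map_inv]

theorem Law.of_injective {H : Type*} [Group H] (f : G →* H) (hf : Function.Injective f)
    (h : Law H) : Law G := by
  obtain ⟨n, hn⟩ := h
  exact ⟨n, fun x y => hf (by rw [map_sq, hn, map_one])⟩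

theorem Law.of_surjective {H : Type*} [Group H] (f : G →* H) (hf : Function.Surjective f)
    (h : Law G) : Law H := by
  obtain ⟨n, hn⟩ := h
  refine ⟨n, fun x y => ?_⟩
  obtain ⟨x, rfl⟩ := hf x
  obtain ⟨y, rfl⟩ := hf y
  rw [← map_sq, hn, map_one]

theorem sq_mem (x y : G) (n : ℕ) : sq x y n ∈ derivedSeries G n := by
  induction n with
  | zero => exact mem_top _
  | succ n ih =>
    have h1 : y⁻¹ * sq x y n * y ∈ derivedSeries G n := by
      simpa using (derivedSeries_normal G n).conj_mem _ ih y⁻¹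
    exact commutator_mem_commutator h1 (inv_mem ih)

theorem law_of_solvable (h : Group.IsSolvable G) : Law G := by
  obtain ⟨n, hn⟩ := h
  exact ⟨n, fun x y => by simpa [hn] using sq_mem x y n⟩

theorem sq_ind (P : G → Prop) {x y : G} (h0 : P x) (hs : ∀ s, P s → P (step y s)) (n : ℕ) :
    P (sq x y n) := by
  induction n with
  | zero => exact h0
  | succ n ih => exact hs _ ih

end

section Sz
variable {G F : Type*} [Group G] [Field F] [H39.SzField F]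

theorem not_law_model (S : H39.Model G F) : ¬ Law G := by
  rintro ⟨n, hn⟩
  obtain ⟨t, ht0, ht1⟩ := H39.SzField.exists_ne F
  have := S.charP
  have key := sq_ind
    (fun g => ∃ (b : F) (v : G), b ≠ 0 ∧ b ≠ 1 ∧ v * v = 1 ∧ v ∉ S.B ∧ g = S.u 0 b * v)
    (x := S.u 0 t * S.w) (y := S.u 0 1) ⟨t, S.w, ht0, ht1, S.w_mul_w, S.w_notMem_B, rfl⟩ (by
      rintro _ ⟨b, v, h0, h1, hv, hB, rfl⟩
      have hvi : v⁻¹ = v := inv_eq_of_mul_eq_one_right hv
      have hb0 : b + 1 ≠ 0 := fun h => h1 (by grind)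
      have hb1 : b + 1 ≠ 1 := fun h => h0 (by grind)
      have hz : S.u 0 (b + 1) ≠ 1 := fun h => hb0 (S.u_eq_one_iff.1 h).2
      have e1 : v * S.u 0 1 * v⁻¹ ∉ S.B := fun h =>
        hB (S.mem_B_of_conj_mem_B' (S.u_mem_U 0 1) S.u_zero_one_ne_one h)
      refine ⟨b + 1, (v * S.u 0 1 * v⁻¹) * S.u 0 (b + 1) * (v * S.u 0 1 * v⁻¹)⁻¹, hb0, hb1, ?_,
        fun h => e1 (S.mem_B_of_conj_mem_B' (S.u_mem_U 0 _) hz h), ?_⟩
      · calc _ = (v * S.u 0 1 * v⁻¹) * (S.u 0 (b + 1) * S.u 0 (b + 1)) *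
              (v * S.u 0 1 * v⁻¹)⁻¹ := by group
          _ = 1 := by rw [S.u_zero_sq]; group
      · have e2 : (S.u 0 1)⁻¹ * S.u 0 b = S.u 0 (b + 1) := by
          rw [S.u_zero_inv, S.u_zero_mul, add_comm]
        have e3 : (S.u 0 b)⁻¹ * (S.u 0 1)⁻¹ = S.u 0 (b + 1) := by
          rw [S.u_zero_inv, S.u_zero_inv, S.u_zero_mul]
        have e4 : (S.u 0 b)⁻¹ * S.u 0 1 * S.u 0 b = (S.u 0 1)⁻¹ := by
          rw [S.u_zero_inv, S.u_zero_inv, S.u_zero_mul, S.u_zero_mul]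
          congr 1
          grind
        calc step (S.u 0 1) (S.u 0 b * v)
            = ((S.u 0 1)⁻¹ * S.u 0 b) * (v * S.u 0 1 * v⁻¹) * ((S.u 0 b)⁻¹ * (S.u 0 1)⁻¹) *
              (v⁻¹ * ((S.u 0 b)⁻¹ * S.u 0 1 * S.u 0 b) * v) := by unfold step; group
          _ = _ := by
            rw [e2, e3, e4, mul_inv_rev, mul_inv_rev, inv_inv, hvi]
            simp only [mul_assoc]) n
  obtain ⟨b, v, -, -, -, hB, h⟩ := key
  rw [hn] at h
  apply hB
  rw [eq_inv_of_mul_eq_one_right h.symm]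
  exact S.B.inv_mem (S.u_mem_B 0 b)

end Sz

theorem not_law_sz {G : Type*} [Group G] (h : Lie.IsoSuzuki G) : ¬ Law G := by
  obtain ⟨F, _, _, m, hm, hF, ⟨e⟩⟩ := h
  have := H39.szField_of_card hm hF
  exact not_law_model ((H39.lieModel hF).comap e)

section S33

def y3 : SL(3, ZMod 3) := ⟨!![1, 0, 0; 0, 2, 2; 0, 1, 0], by decide⟩
def a3 : SL(3, ZMod 3) := ⟨!![0, 0, 1; 0, 1, 1; 2, 1, 1], by decide⟩
def b3 : SL(3, ZMod 3) := ⟨!![2, 0, 1; 1, 2, 1; 0, 1, 2], by decide⟩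
def c3 : SL(3, ZMod 3) := ⟨!![1, 2, 2; 1, 0, 1; 0, 1, 0], by decide⟩

theorem not_law_s33 : ¬ Law SL(3, ZMod 3) := by
  rintro ⟨n, hn⟩
  have key := sq_ind (fun g => g = a3 ∨ g = b3 ∨ g = c3) (x := a3) (y := y3) (Or.inl rfl) (by
    rintro _ (rfl | rfl | rfl)
    · exact Or.inr (Or.inl (by decide))
    · exact Or.inr (Or.inr (by decide))
    · exact Or.inl (by decide)) n
  rw [hn] at key
  revert key
  decide

end S33

section PSL2
variable {F : Type*} [Field F]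

def yy : SL(2, F) := ⟨!![0, 1; -1, 0], by simp [Matrix.det_fin_two]⟩

def Inv (g : SL(2, F)) : Prop :=
  g 0 0 + g 1 1 ≠ 0 ∧ g 1 0 - g 0 1 ≠ 0 ∧ (g 0 0 - g 1 1) ^ 2 + (g 0 1 + g 1 0) ^ 2 ≠ 0 ∧
    ∀ r : F, r ≠ 0 → ((g 0 0 - g 1 1) ^ 2 + (g 0 1 + g 1 0) ^ 2) * r ^ 2 + 2 ≠ 0

theorem inv_step (g : SL(2, F)) (h : Inv g) : Inv (step yy g) := by
  obtain ⟨hs, hw, hρ, hr⟩ := h
  have hd : g 0 0 * g 1 1 - g 0 1 * g 1 0 = 1 := by rw [← Matrix.det_fin_two]; exact g.2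
  have e : ∀ i j, step yy g i j = (!![g 1 1, -g 1 0; -g 0 1, g 0 0] * !![g 1 1, -g 0 1; -g 1 0, g 0 0] *
      !![g 0 0, g 1 0; g 0 1, g 1 1] * !![g 0 0, g 0 1; g 1 0, g 1 1] : Matrix _ _ F) i j := by
    intro i j
    have e1 : ∀ k : SL(2, F), (k⁻¹).1 = !![k 1 1, -k 0 1; -k 1 0, k 0 0] := fun k => by
      rw [Matrix.SpecialLinearGroup.SL2_inv_expl]; rfl
    have e2 : (yy⁻¹ * g * yy).1 = !![g 1 1, -g 1 0; -g 0 1, g 0 0] := by
      rw [Matrix.SpecialLinearGroup.coe_mul, Matrix.SpecialLinearGroup.coe_mul, e1]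
      ext i j
      fin_cases i <;> fin_cases j <;> simp [yy, Matrix.mul_apply, Fin.sum_univ_two, Matrix.vecMul, dotProduct]
    have e3 : ((yy⁻¹ * g * yy)⁻¹).1 = !![g 0 0, g 1 0; g 0 1, g 1 1] := by
      rw [e1]
      change !![(yy⁻¹ * g * yy).1 1 1, -(yy⁻¹ * g * yy).1 0 1; -(yy⁻¹ * g * yy).1 1 0,
        (yy⁻¹ * g * yy).1 0 0] = _
      rw [e2]
      simp
    change (step yy g).1 i j = _
    unfold step
    rw [inv_inv, Matrix.SpecialLinearGroup.coe_mul, Matrix.SpecialLinearGroup.coe_mul,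
      Matrix.SpecialLinearGroup.coe_mul, e2, e3, e1, ← Matrix.eta_fin_two]
  unfold Inv
  simp only [e]
  generalize g 0 0 = a at *
  generalize g 0 1 = b at *
  generalize g 1 0 = c at *
  generalize g 1 1 = d at *
  simp only [Matrix.mul_apply, Fin.sum_univ_two, Matrix.of_apply, Matrix.cons_val', Matrix.cons_val_zero,
    Matrix.cons_val_one, Matrix.cons_val_fin_one]
  have hm : (c - b) * (((a - d) ^ 2 + (b + c) ^ 2) + 2) ≠ 0 :=
    mul_ne_zero hw (by simpa using hr 1 one_ne_zero)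
  have key : ∀ A B C D : F, A + D = ((a - d) ^ 2 + (b + c) ^ 2) * (c - b) ^ 2 + 2 * (a * d - b * c) ^ 2 →
      C - B = -(((a - d) ^ 2 + (b + c) ^ 2) * (c - b) * (a + d)) →
      (A - D) ^ 2 + (B + C) ^ 2 = ((a - d) ^ 2 + (b + c) ^ 2) *
        ((c - b) * (((a - d) ^ 2 + (b + c) ^ 2) + 2 * (a * d - b * c))) ^ 2 →
      A + D ≠ 0 ∧ C - B ≠ 0 ∧ (A - D) ^ 2 + (B + C) ^ 2 ≠ 0 ∧
        ∀ r : F, r ≠ 0 → ((A - D) ^ 2 + (B + C) ^ 2) * r ^ 2 + 2 ≠ 0 := by
    intro A B C D h1 h2 h3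
    rw [hd] at h1 h3
    rw [h1, h2, h3, one_pow, mul_one]
    refine ⟨hr _ hw, neg_ne_zero.2 (mul_ne_zero (mul_ne_zero hρ hw) hs),
      mul_ne_zero hρ (pow_ne_zero _ hm), fun r h0 => ?_⟩
    rw [mul_assoc, ← mul_pow]
    exact hr _ (mul_ne_zero hm h0)
  exact key _ _ _ _ (by ring) (by ring) (by ring)

def tri (a b : F) (ha : a ≠ 0) : SL(2, F) := ⟨!![a, b; 0, a⁻¹], by simp [Matrix.det_fin_two, ha]⟩

theorem inv_tri {a b : F} (ha : a ≠ 0) (h1 : a + a⁻¹ ≠ 0) (h2 : b ≠ 0)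
    (h3 : (a - a⁻¹) ^ 2 + b ^ 2 ≠ 0) (h4 : ∀ r : F, r ≠ 0 → ((a - a⁻¹) ^ 2 + b ^ 2) * r ^ 2 + 2 ≠ 0) :
    Inv (tri a b ha) := by
  unfold Inv tri
  simpa using ⟨h1, h2, h3, h4⟩

theorem exists_inv [Fintype F] (h4 : 4 ≤ Fintype.card F) : ∃ g : SL(2, F), Inv g := by
  by_cases h2 : (2 : F) = 0
  · obtain ⟨a, ha⟩ : ∃ a : Fˣ, a ^ 1 ≠ 1 := by
      by_contra h
      push Not at h
      have := Nat.le_of_dvd one_pos ((FiniteField.forall_pow_eq_one_iff F 1).1 h)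
      omega
    have h0 := a.ne_zero
    have e : ((a : F) - (a : F)⁻¹) ^ 2 + (a : F) ^ 2 = ((a : F)⁻¹) ^ 2 := by
      linear_combination ((a : F) ^ 2 - a * (a : F)⁻¹) * h2
    refine ⟨_, inv_tri h0 (fun h => ha ?_) h0 (by rw [e]; simp) fun r hr => by
      rw [e, h2]; simp [hr]⟩
    have : ((a : F) - 1) ^ 2 = 0 := by
      have := mul_inv_cancel₀ h0
      linear_combination (a : F) * h - this - (a : F) * h2 + h2 - h2
    rw [pow_one, ← Units.val_eq_one, ← sub_eq_zero]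
    exact pow_eq_zero_iff two_ne_zero |>.1 this
  by_cases hi : ∃ i : F, i ^ 2 + 2 = 0
  swap
  · push Not at hi
    refine ⟨_, inv_tri (a := 1) (b := 1) one_ne_zero (by rw [inv_one, one_add_one_eq_two]; exact h2)
      one_ne_zero (by simp) fun r _ => by simpa using hi r⟩
  obtain ⟨i, hi⟩ := hi
  have hi0 : i ≠ 0 := by rintro rfl; exact h2 (by simpa using hi)
  obtain ⟨a, ha⟩ : ∃ a : Fˣ, a ^ 4 ≠ 1 := by
    by_contra h
    push Not at h
    have h5 := (FiniteField.forall_pow_eq_one_iff F 4).1 h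
    have h6 := Nat.le_of_dvd (by norm_num) h5
    have h7 : Fintype.card F = 5 := by
      have : Fintype.card F ≠ 4 := fun e => by rw [e] at h5; norm_num at h5
      omega
    have h8 := FiniteField.cast_card_eq_zero F
    rw [h7] at h8
    have h9 : i ^ 4 = 1 := by simpa using congrArg Units.val (h (Units.mk0 i hi0))
    exact one_ne_zero (α := F) (by
      push_cast at h8
      linear_combination 2 * h9 - h8 - 2 * (i ^ 2 - 2) * hi)
  have h0 := a.ne_zero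
  have hm := mul_inv_cancel₀ h0
  have ha' : (a : F) ^ 4 ≠ 1 := fun h => ha (Units.ext (by simpa using h))
  have hp : (a : F) + (a : F)⁻¹ ≠ 0 := fun h => ha' (by
    linear_combination ((a : F) ^ 2 - 1) * (a * h - hm))
  have hg : (a : F) - (a : F)⁻¹ ≠ 0 := fun h => ha' (by
    linear_combination ((a : F) ^ 2 + 1) * (a * h + hm))
  have hc : ringChar F ≠ 2 := fun h => h2 (by
    have := ringChar.spec F 2
    exact_mod_cast this.2 (h ▸ dvd_rfl))
  obtain ⟨n, hn⟩ := FiniteField.exists_nonsquare hc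
  obtain ⟨x, y, hxy⟩ := FiniteField.exists_root_sum_quadratic (R := F) (f := Polynomial.X ^ 2)
    (g := Polynomial.X ^ 2 - Polynomial.C n) (by simp)
    (Polynomial.degree_X_pow_sub_C two_pos n) (FiniteField.odd_card_of_char_ne_two hc)
  simp only [Polynomial.eval_pow, Polynomial.eval_X, Polynomial.eval_sub, Polynomial.eval_C] at hxy
  have hx : x ≠ 0 := by rintro rfl; exact hn ⟨y, by linear_combination -hxy⟩
  have hy : y ≠ 0 := by rintro rfl; exact hn ⟨x, by linear_combination -hxy⟩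
  have e : ((a : F) - (a : F)⁻¹) ^ 2 + (((a : F) - (a : F)⁻¹) * y / x) ^ 2 =
      n * (((a : F) - (a : F)⁻¹) / x) ^ 2 := by
    generalize (a : F) - (a : F)⁻¹ = γ
    field_simp
    linear_combination γ ^ 2 * hxy
  have hγ : ((a : F) - (a : F)⁻¹) / x ≠ 0 := div_ne_zero hg hx
  refine ⟨_, inv_tri h0 hp (div_ne_zero (mul_ne_zero hg hy) hx) ?_ fun r hr h => ?_⟩
  · rw [e]
    exact mul_ne_zero (by rintro rfl; exact hn ⟨0, by simp⟩) (pow_ne_zero _ hγ)
  · rw [e] at h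
    generalize ((a : F) - (a : F)⁻¹) / x = δ at h hγ
    refine hn ⟨i / (δ * r), ?_⟩
    field_simp
    linear_combination h - hi

theorem not_law_psl2 [Fintype F] (h4 : 4 ≤ Fintype.card F) : ¬ Law PSL(2, F) := by
  rintro ⟨n, hn⟩
  obtain ⟨g, hg⟩ := exists_inv h4
  have key := (sq_ind Inv hg inv_step n).2.1
  have h1 := hn (QuotientGroup.mk' _ g) (QuotientGroup.mk' _ yy)
  rw [← map_sq, QuotientGroup.mk'_apply, QuotientGroup.eq_one_iff,
    Matrix.SpecialLinearGroup.mem_center_iff] at h1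
  obtain ⟨r, -, hr⟩ := h1
  apply key
  change (sq g yy n).1 1 0 - (sq g yy n).1 0 1 = 0
  rw [← hr]
  simp

end PSL2

end Cfsg.Agent.H71.BWW
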