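import Mathlib
import Cfsg.Prelude.Def_CaseTheorems
import Cfsg.Prelude.Def_Transfer
import Cfsg.Prelude.Def_Solvable
import Cfsg.Prelude.Def_Involutions

/-!
Project C3 (rows S3714, S3715): groups of order prime to five whose elements of order three have
small centralisers.  Definitions and the statements of the pieces.
-/

set_option autoImplicit false

namespace Cfsg.Agent.H71.C3

open Subgroup Cfsg
open scoped MatrixGroups

universe u

/-- The hypothesis of the project; it passes to subgroups and quotients (`C3Base`). -/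
def Hyp (X : Type*) [Group X] : Prop :=
  ¬ 5 ∣ Nat.card X ∧ ¬ 9 ∣ Nat.card X ∧ ∀ y : X, orderOf y = 3 →
    (∀ a : X, a * y = y * a → a ^ 6 = 1) ∧ Nat.card (centralizer ({y} : Set X)) ≤ 12

/-- `L₂(7)` or `L₂(13)`. -/
def IsL (G : Type*) [Group G] : Prop :=
  Nonempty (G ≃* PSL(2, ZMod 7)) ∨ Nonempty (G ≃* PSL(2, ZMod 13))

/-- `PGL₂(7)` or `PGL₂(13)`, in the form of the statement S3714. -/
def IsP (G : Type*) [Group G] : Prop :=
  Nonempty (G ≃* (GL (Fin 2) (ZMod 7) ⧸ center (GL (Fin 2) (ZMod 7)))) ∨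
    Nonempty (G ≃* (GL (Fin 2) (ZMod 13) ⧸ center (GL (Fin 2) (ZMod 13))))

/-- The facts on `L₂(p)`, `PGL₂(p)` (`p = 7, 13`) used by the local analysis. -/
structure AS (Y : Type*) [Group Y] : Prop where
  four : ∃ a b : Y, orderOf a = 2 ∧ a * b = b * a ∧ a ≠ b ∧ IsConj a b ∧ IsConj a (a * b)
  self : ∀ a b c : Y, orderOf a = 2 → orderOf b = 2 → a ≠ b → a * b = b * a → c * a = a * c →
    c * b = b * c → c = 1 ∨ c = a ∨ c = b ∨ c = a * b
  frob : ∃ u x : Y, (orderOf u = 7 ∨ orderOf u = 13) ∧ orderOf x = 3 ∧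
    x * u * x⁻¹ ∈ zpowers u ∧ ((IsSimpleGroup Y ∧ Nat.card Y = 168) ∨
      ∃ j : Y, orderOf j = 2 ∧ j * x = x * j ∧ j * u * j⁻¹ = u⁻¹)

/-- The induction hypothesis: the theorem for simple groups of order less than `n`. -/
def IH (n : ℕ) : Prop := ∀ (H : Type u) [Group H] [Finite H], Nat.card H < n → IsSimpleGroup H →
  ¬ IsMulCommutative H → Hyp H → IsL H

/-- The structure of the nonsolvable groups of order less than `n` with the hypothesis. -/
def SH (n : ℕ) : Prop := ∀ (X : Type u) [Group X] [Finite X], Nat.card X < n → Hyp X →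
  ¬ Group.IsSolvable X → Group.IsSolvable (pPrimeCore 3 X) ∧ AS (X ⧸ pPrimeCore 3 X)

/-- The structure of a nonsolvable group of characteristic two with the hypothesis. -/
structure Loc (P : Type*) [Group P] : Prop where
  ea : IsElementaryAbelian 2 (pCore 2 P)
  simple : IsSimpleGroup (P ⧸ pCore 2 P)
  card : Nat.card (P ⧸ pCore 2 P) = 168
  cases : Nat.card (pCore 2 P) = 8 ∨
    ((∀ x : P, orderOf x = 3 → Nat.card ↥(pCore 2 P ⊓ centralizer ({x} : Set P)) = 4) ∧
      (Nat.card (pCore 2 P) = 16 ∨ (64 ≤ Nat.card (pCore 2 P) ∧ pCore 2 P ⊓ center P = ⊥)))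

/-- The local structure for all groups of order less than `n`. -/
def LH (n : ℕ) : Prop := ∀ (P : Type u) [Group P] [Finite P], Nat.card P < n → Hyp P →
  ¬ Group.IsSolvable P → IsOfCharacteristicTwo P → Loc P

/-- LIST-A: 2-rank at most two (S0482). -/
def ListA : Prop := ∀ (G : Type u) [Group G] [Finite G], IsSimpleGroup G →
  ¬ IsMulCommutative G → Hyp G → PRankLE 2 2 G → IsL G

/-- LIST-B: sectional 2-rank at most four (S0500). -/
def ListB : Prop := ∀ (G : Type u) [Group G] [Finite G], IsSimpleGroup G →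
  ¬ IsMulCommutative G → Hyp G → SectionalPRankLE 2 4 G → PRankLE 2 2 G

/-- LIST-C: no strongly embedded subgroup (Bender's list). -/
def ListC : Prop := ∀ (G : Type u) [Group G] [Finite G], IsSimpleGroup G →
  ¬ IsMulCommutative G → Hyp G → ∀ K : Subgroup G, ¬ IsStronglyEmbedded K

/-- AS: the facts for the four almost simple groups. -/
def AsStmt : Prop := ∀ (Y : Type u) [Group Y], IsL Y ∨ IsP Y → AS Y

/-- STRUCT: the nonsolvable groups with the hypothesis. -/
def StructStmt : Prop := ∀ n : ℕ, IH.{u} n → ∀ (X : Type u) [Group X] [Finite X],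
  Nat.card X < n → Hyp X → ¬ Group.IsSolvable X →
    Group.IsSolvable (pPrimeCore 3 X) ∧ (IsL (X ⧸ pPrimeCore 3 X) ∨
      (IsP (X ⧸ pPrimeCore 3 X) ∧ ∃ K : Subgroup X, K.Normal ∧ K.index = 2 ∧
        ∀ x : X, orderOf x = 3 → K ⊔ centralizer ({x} : Set X) = ⊤))

/-- LOC: nonsolvable groups of characteristic two. -/
def LocStmt : Prop := ∀ (P : Type u) [Group P] [Finite P], Hyp P → IsOfCharacteristicTwo P →
  Group.IsSolvable (pPrimeCore 3 P) → AS (P ⧸ pPrimeCore 3 P) → Loc P

/-- COMP: the component type case. -/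
def CompStmt : Prop := ∀ (G : Type u) [Group G] [Finite G], IsSimpleGroup G →
  ¬ IsMulCommutative G → Hyp G → SH.{u} (Nat.card G) → IsComponentType G →
    SectionalPRankLE 2 4 G ∨ PRankLE 2 2 G

/-- CH2: the characteristic 2 type case with a nonsolvable 2-local subgroup. -/
def Ch2Stmt : Prop := ∀ (G : Type u) [Group G] [Finite G], IsSimpleGroup G →
  ¬ IsMulCommutative G → Hyp G → LH.{u} (Nat.card G) → IsCharacteristicTwoType G →
    (∃ N : Subgroup G, IsTwoLocal N ∧ ¬ Group.IsSolvable N) →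
      SectionalPRankLE 2 4 G ∨ ∃ K : Subgroup G, IsStronglyEmbedded K

/-- The main theorem. -/
def MainStmt : Prop := ∀ (G : Type u) [Group G] [Finite G], IsSimpleGroup G →
  ¬ IsMulCommutative G → Hyp G → IsL G

end Cfsg.Agent.H71.C3
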