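import Mathlib

/-!
An elementary proof that a permutation group of degree `n` has at most `2 ^ (n - 1)`
conjugacy classes.  For a finite set `A` of points and `g` moving at most one point of `A`
out of `A`, the number of classes meeting `{h | h = g on A}` is at most
`2 ^ (n - number of orbits of the pointwise stabiliser of A)`.
-/

set_option autoImplicit false

namespace Cfsg.Agent.H71.ClassNum

open MulAction

variable {G α : Type*} [Group G] [MulAction G α]

/-- pointwise stabiliser of a finite set -/
def fx (G : Type*) [Group G] [MulAction G α] (A : Finset α) : Subgroup G where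
  carrier := {m | ∀ a ∈ A, m • a = a}
  mul_mem' := by
    intro a b ha hb x hx
    rw [mul_smul, hb x hx, ha x hx]
  one_mem' := by
    intro x _
    exact one_smul _ _
  inv_mem' := by
    intro a ha x hx
    rw [inv_smul_eq_iff, ha x hx]

theorem mem_fx {A : Finset α} {m : G} : m ∈ fx G A ↔ ∀ a ∈ A, m • a = a := Iff.rfl

/-- orbits of the pointwise stabiliser -/
abbrev Q (G : Type*) [Group G] [MulAction G α] (A : Finset α) : Type _ :=
  orbitRel.Quotient (fx G A) α

/-- class of a point -/
def cl (G : Type*) [Group G] [MulAction G α] (A : Finset α) (y : α) : Q G A :=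
  Quotient.mk (orbitRel (fx G A) α) y

theorem cl_eq {A : Finset α} {y z : α} :
    cl G A y = cl G A z ↔ ∃ m : G, m ∈ fx G A ∧ m • z = y := by
  unfold cl
  rw [Quotient.eq, orbitRel_apply, mem_orbit_iff]
  constructor
  · rintro ⟨m, hm⟩
    exact ⟨m.1, m.2, hm⟩
  · rintro ⟨m, hm, h⟩
    exact ⟨⟨m, hm⟩, h⟩

theorem cl_surj (A : Finset α) : Function.Surjective (cl G A) := Quotient.mk_surjective

theorem arith {b t t' d : ℕ} (h1 : b + t ≤ t' + 1) (h2 : t' ≤ d) :
    b * 2 ^ (d - t') ≤ 2 ^ (d - t) := by
  rcases Nat.eq_zero_or_pos b with rfl | hb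
  · simp
  have hb2 : b ≤ 2 ^ (b - 1) := by
    have := Nat.lt_two_pow_self (n := b - 1)
    omega
  calc b * 2 ^ (d - t') ≤ 2 ^ (b - 1) * 2 ^ (d - t') := Nat.mul_le_mul_right _ hb2
    _ = 2 ^ (b - 1 + (d - t')) := by rw [pow_add]
    _ ≤ 2 ^ (d - t) := Nat.pow_le_pow_right (by norm_num) (by omega)

theorem card_fib {β γ : Type*} [Fintype β] [Fintype γ] [DecidableEq γ] (π : β → γ)
    (hπ : Function.Surjective π) (c : γ) :
    (Finset.univ.filter (fun q => π q = c)).card + Fintype.card γ ≤ Fintype.card β + 1 := by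
  classical
  have h1 := Finset.card_filter_add_card_filter_not (s := (Finset.univ : Finset β))
    (fun q => π q = c)
  have h2 : (Finset.univ.erase c).card ≤ (Finset.univ.filter (fun q => ¬ π q = c)).card := by
    refine le_trans (Finset.card_le_card ?_) (Finset.card_image_le (f := π))
    intro y hy
    obtain ⟨q, rfl⟩ := hπ y
    exact Finset.mem_image.2 ⟨q, by simpa using (Finset.mem_erase.1 hy).1, rfl⟩
  rw [Finset.card_erase_of_mem (Finset.mem_univ c), Finset.card_univ] at h2
  rw [Finset.card_univ] at h1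
  have : 0 < Fintype.card γ := Fintype.card_pos_iff.2 ⟨c⟩
  omega

open Classical in
theorem main [Fintype α] [DecidableEq α] [Fintype G] [FaithfulSMul G α] (n : ℕ) :
    ∀ (A : Finset α) (g : G), Aᶜ.card = n → (∃ x, ∀ a ∈ A, g • a ∈ insert x A) →
      ((Finset.univ.filter (fun h : G => ∀ a ∈ A, h • a = g • a)).image ConjClasses.mk).card
        ≤ 2 ^ (Fintype.card α - Nat.card (Q G A)) := by
  induction n with
  | zero =>
    intro A g hA _
    have hA' : A = Finset.univ := by
      rw [Finset.card_eq_zero, Finset.compl_eq_empty_iff] at hA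
      exact hA
    refine le_trans Finset.card_image_le (le_trans ?_ Nat.one_le_two_pow)
    rw [Finset.card_le_one]
    intro a ha b hb
    rw [Finset.mem_filter] at ha hb
    apply eq_of_smul_eq_smul (α := α)
    intro y
    rw [ha.2 y (hA' ▸ Finset.mem_univ y), hb.2 y (hA' ▸ Finset.mem_univ y)]
  | succ n ih =>
    intro A g hA hg
    obtain ⟨x, hxA, hx⟩ : ∃ x, x ∉ A ∧ ∀ a ∈ A, g • a ∈ insert x A := by
      obtain ⟨x, hx⟩ := hg
      by_cases hxA : x ∈ A
      · obtain ⟨y, hy⟩ : Aᶜ.Nonempty := Finset.card_pos.1 (by omega)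
        refine ⟨y, Finset.mem_compl.1 hy, fun a ha => ?_⟩
        have := hx a ha
        rw [Finset.insert_eq_of_mem hxA] at this
        exact Finset.mem_insert_of_mem this
      · exact ⟨x, hxA, hx⟩
    set A' := insert x A with hA'def
    have hA' : A'ᶜ.card = n := by
      have : A'ᶜ = Aᶜ.erase x := by
        ext y
        simp [hA'def]
      rw [this, Finset.card_erase_of_mem (Finset.mem_compl.2 hxA), hA]
      rfl
    -- the projection
    let π : Q G A' → Q G A := Quotient.lift (fun y => cl G A (g⁻¹ • y)) (by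
      intro y z hyz
      obtain ⟨m, hm, rfl⟩ := (cl_eq (G := G) (A := A')).1 (Quotient.sound hyz)
      refine cl_eq.2 ⟨g⁻¹ * m * g, ?_, ?_⟩
      · intro a ha
        rw [mul_smul, mul_smul, hm _ (hx a ha), inv_smul_smul]
      · rw [mul_smul, mul_smul, smul_inv_smul])
    have hπ : ∀ y, π (cl G A' y) = cl G A (g⁻¹ • y) := fun y => rfl
    have hπs : Function.Surjective π := by
      intro q
      obtain ⟨y, rfl⟩ := cl_surj (G := G) A q
      exact ⟨cl G A' (g • y), by rw [hπ, inv_smul_smul]⟩
    have hrep : ∀ q : Q G A', ∃ r : G, (∀ a ∈ A, r • a = g • a) ∧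
        ∀ h : G, (∀ a ∈ A, h • a = g • a) → cl G A' (h • x) = q → cl G A' (r • x) = q := by
      intro q
      by_cases hq : ∃ h : G, (∀ a ∈ A, h • a = g • a) ∧ cl G A' (h • x) = q
      · obtain ⟨h, h1, h2⟩ := hq
        exact ⟨h, h1, fun _ _ _ => h2⟩
      · exact ⟨g, fun _ _ => rfl, fun h h1 h2 => (hq ⟨h, h1, h2⟩).elim⟩
    choose r hr1 hr2 using hrep
    have : Fintype (Q G A') := Fintype.ofFinite _
    have : Fintype (Q G A) := Fintype.ofFinite _
    set B : Finset (Q G A') := Finset.univ.filter (fun q => π q = cl G A x) with hB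
    have hsub : (Finset.univ.filter (fun h : G => ∀ a ∈ A, h • a = g • a)).image ConjClasses.mk
        ⊆ B.biUnion (fun q => (Finset.univ.filter
          (fun h : G => ∀ a ∈ A', h • a = r q • a)).image ConjClasses.mk) := by
      intro c hc
      obtain ⟨h, hh, rfl⟩ := Finset.mem_image.1 hc
      have hh' := (Finset.mem_filter.1 hh).2
      refine Finset.mem_biUnion.2 ⟨cl G A' (h • x), ?_, ?_⟩
      · rw [hB, Finset.mem_filter]
        refine ⟨Finset.mem_univ _, ?_⟩
        rw [hπ]
        refine cl_eq.2 ⟨g⁻¹ * h, ?_, by rw [mul_smul]⟩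
        intro a ha
        rw [mul_smul, hh' a ha, inv_smul_smul]
      · obtain ⟨m, hm, hmx⟩ := cl_eq.1 (hr2 _ h hh' rfl)
        refine Finset.mem_image.2 ⟨m * h * m⁻¹, ?_, ?_⟩
        · rw [Finset.mem_filter]
          refine ⟨Finset.mem_univ _, fun a ha => ?_⟩
          have hm' : m⁻¹ • a = a := (fx G A').inv_mem hm a ha
          rw [mul_smul, mul_smul, hm']
          rcases Finset.mem_insert.1 ha with rfl | ha'
          · exact hmx
          · rw [hh' a ha', hm _ (hx a ha'), hr1 _ a ha']
        · rw [ConjClasses.mk_eq_mk_iff_isConj]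
          exact (isConj_iff.2 ⟨m, rfl⟩).symm
    refine le_trans (Finset.card_le_card hsub) ?_
    refine le_trans (Finset.card_biUnion_le_card_mul _ _
      (2 ^ (Fintype.card α - Nat.card (Q G A'))) ?_) ?_
    · intro q _
      refine ih A' (r q) hA' ⟨r q • x, fun a ha => ?_⟩
      rcases Finset.mem_insert.1 ha with rfl | ha'
      · exact Finset.mem_insert_self _ _
      · rw [hr1 _ a ha']
        exact Finset.mem_insert_of_mem (hx a ha')
    · apply arith
      · rw [Nat.card_eq_fintype_card, Nat.card_eq_fintype_card]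
        exact card_fib π hπs _
      · rw [← Nat.card_eq_fintype_card]
        exact Nat.card_le_card_of_surjective _ (cl_surj A')

/-- `k(G) ≤ 2 ^ (n - number of orbits)`. -/
theorem card_conjClasses_le_orbits [Fintype α] [Finite G] [FaithfulSMul G α] :
    Nat.card (ConjClasses G) ≤ 2 ^ (Fintype.card α - Nat.card (Q G (∅ : Finset α))) := by
  classical
  have : Fintype G := Fintype.ofFinite _
  rcases isEmpty_or_nonempty α with hα | ⟨⟨x⟩⟩
  · have : Subsingleton G := ⟨fun a b => eq_of_smul_eq_smul (α := α) (fun y => hα.elim y)⟩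
    refine le_trans ?_ Nat.one_le_two_pow
    refine le_trans (Nat.card_le_card_of_surjective _ ConjClasses.mk_surjective) ?_
    exact Finite.card_le_one_iff_subsingleton.2 inferInstance
  · have := main (G := G) (α := α) _ ∅ 1 rfl ⟨x, by simp⟩
    refine le_trans ?_ this
    have : Fintype (ConjClasses G) := Fintype.ofFinite _
    rw [Nat.card_eq_fintype_card, ← Finset.card_univ]
    apply Finset.card_le_card
    intro c _
    obtain ⟨h, rfl⟩ := ConjClasses.mk_surjective c
    exact Finset.mem_image.2 ⟨h, by simp, rfl⟩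

/-- `k(G) ≤ 2 ^ (n - 1)` for a group acting faithfully on `n` points. -/
theorem card_conjClasses_le [Fintype α] [Finite G] [FaithfulSMul G α] :
    Nat.card (ConjClasses G) ≤ 2 ^ (Fintype.card α - 1) := by
  refine le_trans (card_conjClasses_le_orbits (α := α)) (Nat.pow_le_pow_right (by norm_num) ?_)
  rcases isEmpty_or_nonempty α with hα | ⟨⟨x⟩⟩
  · simp
  · have : Nonempty (Q G (∅ : Finset α)) := ⟨cl G ∅ x⟩
    have : 0 < Nat.card (Q G (∅ : Finset α)) := Nat.card_pos
    omega

end Cfsg.Agent.H71.ClassNum
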