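import Cfsg.Agent.H11.CyLp
import Cfsg.Agent.H56.TGMain
import Cfsg.Agent.S0205

/-! Project CY, chapter LP, piece T1: the two-graph lemma kills `K`. -/

set_option autoImplicit false
set_option linter.unusedVariables false

namespace Cfsg.Agent.H71.CyT1

open Subgroup MulAction Cfsg.Agent.H11.Cy Cfsg.Agent.H11.Cy.Lp

theorem exists_char {K : Type} [Group K] [Finite K] [Nontrivial K] (h : Odd (Nat.card K)) :
    ∃ χ : K →* ℂˣ, ∃ k, χ k ≠ 1 := by
  haveI := Cfsg.Agent.S0205.result h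
  obtain ⟨k, -, hk⟩ := SetLike.exists_of_lt (IsSolvable.commutator_lt_top_of_nontrivial K)
  have h1 : Abelianization.of k ≠ 1 := fun e => hk ((QuotientGroup.eq_one_iff k).mp e)
  haveI : Finite (Abelianization K) := Finite.of_surjective _ (QuotientGroup.mk_surjective)
  obtain ⟨φ, hφ⟩ := CommGroup.exists_apply_ne_one_of_hasEnoughRootsOfUnity (Abelianization K) ℂ h1
  exact ⟨φ.comp Abelianization.of, k, hφ⟩

theorem t1 : T1Stmt := by
  intro G _ _ Ω _ _ p A st x y l3 o e1 Q hQ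
  have xy := l3.xy
  have la := l3.la x y xy
  obtain ⟨f, s, lc⟩ := l3.lc x y xy
  have lt := l3.lt x y xy f s lc
  by_contra hK
  haveI := (nontrivial_iff_ne_bot _).mpr hK
  obtain ⟨χ0, k0, hk0⟩ := exists_char o
  have cm : ∀ k ∈ Kl A x y, ∀ l ∈ Fl A x y, l * k = k * l := fun k hk l hl =>
    mem_centralizer_iff.mp hk l hl
  have uq : ∀ h : G, ∀ k k' : Kl A x y, (k : G)⁻¹ * h ∈ Fl A x y → (k' : G)⁻¹ * h ∈ Fl A x y →
      k = k' := fun h k k' a b => by
    have c : (k : G)⁻¹ * k' ∈ Fl A x y := by simpa using mul_mem a (inv_mem b)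
    exact Subtype.ext (inv_mul_eq_one.mp (la.ctr _ c (mul_mem (inv_mem k.2) k'.2)))
  have ex : ∀ h : Hs G x y, ∃ k : Kl A x y, (k : G)⁻¹ * h ∈ Fl A x y := fun h => by
    obtain ⟨k, hk, l, hl, e⟩ := la.dec _ (e1 h.2)
    exact ⟨⟨k, hk⟩, by rw [e]; simpa using hl⟩
  choose pr hpr using ex
  let P : Hs G x y →* Kl A x y := MonoidHom.mk' pr fun a b => uq _ _ _ (hpr (a * b)) (by
    have e : ((pr a * pr b : Kl A x y) : G)⁻¹ * (a * b : Hs G x y) =
        ((pr a : G)⁻¹ * a) * ((pr b : G)⁻¹ * b) := by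
      rw [← mul_assoc _ (pr b : G)⁻¹, cm _ (inv_mem (pr b).2) _ (hpr a)]
      simp [mul_assoc]
    rw [e]
    exact mul_mem (hpr a) (hpr b))
  have ss : s * s = 1 := by rw [← sq, ← lc.so, pow_orderOf_eq_one]
  have pos : 0 < Nat.card Ω := by
    haveI := st.nt
    exact Nat.card_pos
  have ox : Odd (Nat.card (stabilizer G x)) := by
    rw [l3.cH x y xy, lt.e1c e1]
    have a := lc.fo
    have b := l3.p3
    refine (Nat.Even.sub_odd pos l3.even odd_one).mul (Odd.mul ?_ o)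
    rw [Nat.odd_iff]; omega
  have fpf : ∀ c : Ω, s • c ≠ c := fun c hc => by
    have e : Nat.card (stabilizer G c) = Nat.card (stabilizer G x) :=
      Nat.eq_of_mul_eq_mul_left pos ((l3.cG c).symm.trans (l3.cG x))
    have d := orderOf_dvd_natCard (⟨s, hc⟩ : stabilizer G c)
    rw [← orderOf_coe, e] at d
    exact (Nat.not_even_iff_odd.mpr ox) (even_iff_two_dvd.mpr (lc.so ▸ d))
  obtain ⟨χ, hχ, -⟩ := H56.TG.tg G Ω
    (fun a b c d h1 h2 => by
      obtain ⟨g, -, h⟩ := st.two a trivial b trivial c trivial d trivial h1 h2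
      exact ⟨g, h⟩) x y xy Q hQ.le hQ.nm hQ.nil
    (fun c hc => hQ.tr y c xy.symm hc) (hQ.reg y xy.symm) s ss lc.sx fpf (χ0.comp P)
    (fun h h' e => by
      refine congrArg χ0 (uq _ _ _ (hpr h') ?_)
      have e2 : (pr h : G)⁻¹ * h' = s * ((pr h : G)⁻¹ * h) * s := by
        rw [e, ← mul_assoc s, cm _ (inv_mem (pr h).2) _ lc.sL]
        simp [mul_assoc]
      show (pr h : G)⁻¹ * h' ∈ _
      rw [e2]
      exact mul_mem (mul_mem lc.sL (hpr h)) lc.sL)
    (fun h e => by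
      obtain ⟨c, hc⟩ := isConj_iff.mp e
      have h1 : (h : G) * s * (h * s) = 1 := by
        have : c * ((h : G) * s * (h * s)) * c⁻¹ = c * (h * s) * c⁻¹ * (c * (h * s) * c⁻¹) := by
          group
        rw [hc, ss] at this
        simpa using this
      have hl := mul_mem (hpr h) lc.sL
      have h2 : ((pr h : G) * pr h)⁻¹ = ((pr h : G)⁻¹ * h * s) * ((pr h : G)⁻¹ * h * s) := by
        rw [mul_assoc (pr h : G)⁻¹ h s] at hl ⊢
        rw [← mul_assoc _ (pr h : G)⁻¹, cm _ (inv_mem (pr h).2) _ hl, mul_assoc, mul_assoc, h1]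
        simp
      have h3 := la.ctr _ (h2 ▸ mul_mem hl hl) (inv_mem (mul_mem (pr h).2 (pr h).2))
      have h4 : pr h ^ 2 = 1 := Subtype.ext (by rw [sq]; exact inv_eq_one.mp h3)
      have h5 := pow_gcd_eq_one.mpr ⟨h4, pow_card_eq_one' (x := pr h)⟩
      rw [(Nat.coprime_two_left.mpr o).gcd_eq_one, pow_one] at h5
      show χ0 (pr h) = 1
      rw [h5, map_one])
  haveI := l3.simple l3.p7
  rcases (MonoidHom.normal_ker χ).eq_bot_or_eq_top with h | h
  · exact l3.nc ⟨⟨fun a b => (MonoidHom.ker_eq_bot_iff χ).mp h (by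
      rw [map_mul, map_mul, mul_comm])⟩⟩
  · have kf := (l3.mc.ep.kfix x y xy k0).mp k0.2
    have e := hχ ⟨k0, kf x la.mx, kf y la.my⟩
    have e2 : pr ⟨k0, kf x la.mx, kf y la.my⟩ = k0 := uq _ _ _ (hpr _) (by simp)
    have e3 : χ k0 = 1 := (h ▸ mem_top (k0 : G) : (k0 : G) ∈ χ.ker)
    apply hk0
    rw [← e2, ← e3]
    exact e.symm

end Cfsg.Agent.H71.CyT1
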