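import Mathlib
import Cfsg.Agent.H99.E72Defs

/-!
# The module of dimension 56 is irreducible
-/

set_option autoImplicit false
set_option maxRecDepth 100000

namespace Cfsg.Agent.H71.E72Irr

open Cfsg.Agent.H99.E72

theorem up_ex : ∀ n : Fin 56, n ≠ 0 → ∃ k : Fin 7, ∃ a : Fin 56, src k a = n := by decide +kernel

theorem up_lt : ∀ k : Fin 7, ∀ a : Fin 56, a.1 < src k a := by decide +kernel

theorem dn_ex : ∀ b : Fin 56, b ≠ 0 → ∃ k : Fin 7, ∃ c : Fin 56, c < b ∧
    ∀ a : Fin 56, src (7 + k) a = c ↔ a = b := by decide +kernel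

theorem top (U : Submodule (ZMod 2) V) (hU : ∀ k < 14, ∀ u ∈ U, En k u ∈ U) (n : ℕ) :
    ∀ u ∈ U, u ≠ 0 → (∀ a : Fin 56, n < a.1 → u a = 0) → (Pi.single 0 1 : V) ∈ U := by
  induction n with
  | zero =>
    intro u hu h0 h
    have : u = Pi.single 0 1 := by
      ext a
      by_cases ha : a = 0
      · subst ha
        have h1 : u 0 ≠ 0 := fun e => h0 (funext fun b => by
          by_cases hb : b = 0
          · rw [hb]; exact e
          · exact h b (Fin.pos_iff_ne_zero.2 hb))
        rw [Pi.single_eq_same]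
        revert h1; generalize u 0 = c; revert c; decide
      · rw [Pi.single_eq_of_ne ha]; exact h a (Fin.pos_iff_ne_zero.2 ha)
    exact this ▸ hu
  | succ n ih =>
    intro u hu h0 h
    by_cases hn : ∀ a : Fin 56, a.1 = n + 1 → u a = 0
    · exact ih u hu h0 fun a ha => by
        rcases Nat.lt_or_eq_of_le (Nat.succ_le_of_lt ha) with h1 | h1
        · exact h a h1
        · exact hn a h1.symm
    push Not at hn
    obtain ⟨b, hb, ub⟩ := hn
    obtain ⟨k, a, e⟩ := up_ex b (fun e => by rw [e] at hb; exact absurd hb (by simp))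
    refine ih (En k u) (hU k (by omega) u hu) (fun e0 => ub ?_) fun c hc => ?_
    · have := congrFun e0 a
      rw [En_apply, dif_pos (e ▸ b.2)] at this
      rw [← show (⟨src k a, e ▸ b.2⟩ : Fin 56) = b from Fin.ext e]; exact this
    · rw [En_apply]
      split_ifs with h1
      · have := up_lt k c
        exact h _ (by change n + 1 < src k c; omega)
      · rfl

theorem irr : IrrStmt := by
  intro U hU
  rw [or_iff_not_imp_left]
  intro h0
  obtain ⟨u, hu, u0⟩ := (Submodule.ne_bot_iff U).1 h0
  have h1 := top U hU 56 u hu u0 fun a ha => absurd a.2 (by omega)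
  have h2 : ∀ n : ℕ, ∀ b : Fin 56, b.1 < n → (Pi.single b 1 : V) ∈ U := by
    intro n
    induction n with
    | zero => intro b hb; omega
    | succ n ih =>
      intro b hb
      by_cases b0 : b = 0
      · rw [b0]; exact h1
      obtain ⟨k, c, hc, e⟩ := dn_ex b b0
      have := hU (7 + k) (by omega) _ (ih c (by have : c.1 < b.1 := hc; omega))
      convert this using 1
      ext a
      rw [En_apply]
      by_cases ha : a = b
      · have e1 := (e a).2 ha
        rw [dif_pos (e1 ▸ c.2), show (⟨src (7 + k) a, e1 ▸ c.2⟩ : Fin 56) = c from Fin.ext e1, ha,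
          Pi.single_eq_same, Pi.single_eq_same]
      · rw [Pi.single_eq_of_ne ha]
        split_ifs with h3
        · rw [Pi.single_eq_of_ne fun e2 => ha ((e a).1 (congrArg Fin.val e2))]
        · rfl
  rw [eq_top_iff]
  intro v _
  rw [pi_eq_sum_univ' v]
  exact U.sum_mem fun b _ => U.smul_mem _ (h2 56 b b.2)

end Cfsg.Agent.H71.E72Irr
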