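import Mathlib
import Cfsg.Agent.H6.E82Defs

/-! A commutative set of twisted vectors supported on two orthogonal roots is fixed by a
non-trivial word of root elements. -/

set_option autoImplicit false

namespace Cfsg.Agent.H71.E82Stab

open Equiv Cfsg.Lie H37 H40 H34 H29 Module Finset Cfsg.Agent.H6.E82

theorem two : (2 : K) = 0 := CharTwo.two_eq_zero

theorem prr (r : Rt) : pr r r = 2 := C8.R.pair_self r

theorem hr_inl (r : Rt) (j : Ix) : hr r (Sum.inl j) = (C8.R.co r j : K) := by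
  rw [C8.co_eq]; rfl

theorem hr_inr (r s : Rt) : hr r (Sum.inr s) = 0 := rfl

/-- The four roots are distinct. -/
theorem dist (rf : RfStmt) (brc : BrcStmt) {α β : Rt} (h : pr α β = 0) :
    ng α ≠ α ∧ β ≠ α ∧ ng β ≠ α ∧ β ≠ ng α ∧ ng β ≠ ng α ∧ ng β ≠ β := by
  obtain ⟨-, -, -, -, -, -, -, -, -, -, -, c12, c13, -⟩ := brc
  have h1 : pr α (ng β) = 0 := by rw [(c13 α β).1, h]; rfl
  have h2 : pr α (ng α) = -2 := by rw [(c13 α α).1, prr]
  refine ⟨(c12 α).2.1, ?_, ?_, ?_, ?_, (c12 β).2.1⟩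
  · rintro rfl; rw [prr] at h; omega
  · intro e; rw [e, prr] at h1; omega
  · intro e; rw [e, h2] at h; omega
  · intro e; rw [e, h2] at h1; omega

theorem sum4 {M : Type} [AddCommMonoid M] {α β : Rt}
    (d : ng α ≠ α ∧ β ≠ α ∧ ng β ≠ α ∧ β ≠ ng α ∧ ng β ≠ ng α ∧ ng β ≠ β) (f : Rt → M)
    (hf : ∀ r, r ≠ α → r ≠ ng α → r ≠ β → r ≠ ng β → f r = 0) :
    ∑ r, f r = f α + f (ng α) + f β + f (ng β) := by
  classical
  obtain ⟨d1, d2, d3, d4, d5, d6⟩ := d
  rw [← Finset.sum_subset (Finset.subset_univ ({α, ng α, β, ng β} : Finset Rt))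
    (fun r _ hr => by
      simp only [Finset.mem_insert, Finset.mem_singleton, not_or] at hr
      exact hf r hr.1 hr.2.1 hr.2.2.1 hr.2.2.2)]
  rw [Finset.sum_insert (by simp [d1.symm, d2.symm, d3.symm]),
    Finset.sum_insert (by simp [d4.symm, d5.symm]), Finset.sum_insert (by simp [d6.symm]),
    Finset.sum_singleton, add_assoc, add_assoc]

/-- The triple attached to a vector. -/
noncomputable def tri (α : Rt) (v : V) : K4 := (ev α v, v (Sum.inr α), v (Sum.inr (ng α)), 0)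

noncomputable def sq (x : K4) : K4 := (x.1 ^ 2, x.2.1 ^ 2, x.2.2.1 ^ 2, x.2.2.2 ^ 2)

theorem decomp (rf : RfStmt) (brc : BrcStmt) {α β : Rt} (h : pr α β = 0) {v : V}
    (hs : Sup α β v) (ht : Tw α β v) : ∃ c ∈ Cart, ev α v = ev α c ∧ ev β v = ev β c ∧
      v = vv α β c (tri α v) (sq (tri α v)) := by
  obtain ⟨c, hc, e1, e2⟩ := brc.2.2.2.2.2.2.2.2.2.1 v
  refine ⟨c, hc, (e1 α).symm, (e1 β).symm, ?_⟩
  rw [sum4 (dist rf brc h) _ (fun r a b c d => by rw [hs r a b c d, zero_smul])] at e2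
  conv_lhs => rw [e2]
  simp only [vv, tri, sq, ← ht.1, ← ht.2.2.1, zero_smul, add_zero, ne_eq, OfNat.ofNat_ne_zero,
    not_false_eq_true, zero_pow, add_assoc]

theorem Um_sq (t : K) (x : K4) : Um (t ^ 2) (sq x) = sq (Um t x) := by
  simp only [Um, sq, CharTwo.add_sq, mul_pow]

theorem Lm_sq (t : K) (x : K4) : Lm (t ^ 2) (sq x) = sq (Lm t x) := by
  simp only [Lm, sq, CharTwo.add_sq, mul_pow]

theorem wd_sq (t : Fin 4 → K) (x : K4) : wd (fun i => t i ^ 2) (sq x) = sq (wd t x) := by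
  simp only [wd, Um_sq, Lm_sq]

theorem Um_smul (t c : K) (x : K4) : Um t (c • x) = c • Um t x := by
  simp only [Um, Prod.smul_fst, Prod.smul_snd, smul_eq_mul, Prod.smul_mk, Prod.mk.injEq]
  refine ⟨trivial, by ring, trivial, by ring⟩

theorem Lm_smul (t c : K) (x : K4) : Lm t (c • x) = c • Lm t x := by
  simp only [Lm, Prod.smul_fst, Prod.smul_snd, smul_eq_mul, Prod.smul_mk, Prod.mk.injEq]
  refine ⟨trivial, trivial, by ring, by ring⟩

theorem wd_smul (t : Fin 4 → K) (c : K) (x : K4) : wd t (c • x) = c • wd t x := by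
  simp only [wd, Um_smul, Lm_smul]

theorem wd_zero (t : Fin 4 → K) : wd t 0 = 0 := by
  simpa using wd_smul t 0 0

theorem wd_fst (t : Fin 4 → K) (x : K4) : (wd t x).1 = x.1 := rfl

theorem minor1 (rf : RfStmt) (brc : BrcStmt) {α β : Rt} (h : pr α β = 0) {v w : V}
    (hs : Sup α β v) (e : br v w = 0) :
    ev α v * w (Sum.inr α) = v (Sum.inr α) * ev α w ∧
      ev α v * w (Sum.inr (ng α)) = v (Sum.inr (ng α)) * ev α w := by
  obtain ⟨-, -, -, -, -, -, -, c8, -, -, -, c12, c13, -⟩ := brc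
  have hb : pr β α = 0 := by rw [rf.2.2.1, h]
  have key : ∀ u : Rt, (pr α u = 2 ∨ pr α u = -2) → pr β u = 0 →
      ev u v * w (Sum.inr u) = v (Sum.inr u) * ev u w := by
    intro u h1 h2
    have e1 := congrFun e (Sum.inr u)
    rw [br_inr, Finset.sum_eq_zero, add_zero, Pi.zero_apply] at e1
    · rw [eq_neg_of_add_eq_zero_left e1, CharTwo.neg_eq]
    · intro r _
      split_ifs with hr
      · rw [hs r, zero_mul]
        · rintro rfl; omega
        · rintro rfl; rw [(c13 α u).2] at hr; omega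
        · rintro rfl; omega
        · rintro rfl; rw [(c13 β u).2] at hr; omega
      · rfl
  refine ⟨key α (Or.inl (prr α)) hb, ?_⟩
  have := key (ng α) (Or.inr (by rw [(c13 α α).1, prr])) (by rw [(c13 β α).1, hb]; rfl)
  rwa [c8, c8] at this

theorem minor2 (rf : RfStmt) (brc : BrcStmt) {α β : Rt} (h : pr α β = 0) {v w : V}
    (hs : Sup α β v) (e : br v w = 0) :
    v (Sum.inr α) * w (Sum.inr (ng α)) = v (Sum.inr (ng α)) * w (Sum.inr α) := by
  have d := dist rf brc h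
  obtain ⟨-, -, -, -, -, -, -, c8, -, -, -, c12, -, c14, -⟩ := brc
  obtain ⟨c, hc, h1, h2⟩ := rf.2.2.2.2.2.2.2.2.1 α β d.2.1 d.2.2.2.1
  have h0 : ∀ s, c (Sum.inr s) = 0 := hc
  have e1 : kap c (br v w) = kap c (∑ r, (v (Sum.inr r) * w (Sum.inr (ng r))) • hr r) := by
    rw [kap_apply, kap_apply]
    simp only [h0, zero_mul, sum_const_zero, zero_add, br_inl, Finset.sum_apply, Pi.smul_apply,
      smul_eq_mul, hr_inl]
  rw [e, map_zero, map_sum] at e1
  simp only [map_smul, c14, smul_eq_mul] at e1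
  rw [sum4 d _ (fun r a b c d => by rw [hs r a b c d, zero_mul, zero_mul]), c8, c8, h1, h2,
    (c12 α).1] at e1
  simp only [mul_one, mul_zero, add_zero] at e1
  rw [eq_neg_of_add_eq_zero_left e1.symm, CharTwo.neg_eq]

theorem prop3 {l a b l' a' b' : K} (h0 : ¬ (l = 0 ∧ a = 0 ∧ b = 0)) (h1 : l * a' = a * l')
    (h2 : l * b' = b * l') (h3 : a * b' = b * a') :
    ∃ c : K, ((l', a', b', 0) : K4) = c • ((l, a, b, 0) : K4) := by
  simp only [Prod.smul_mk, smul_eq_mul, mul_zero, Prod.mk.injEq, and_true]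
  by_cases hl : l = 0
  · by_cases ha : a = 0
    · have hb : b ≠ 0 := fun hb => h0 ⟨hl, ha, hb⟩
      refine ⟨b' / b, ?_, ?_, ?_⟩ <;> field_simp
      · linear_combination -h2
      · linear_combination -h3
    · refine ⟨a' / a, ?_, ?_, ?_⟩ <;> field_simp
      · linear_combination -h1
      · linear_combination h3
  · refine ⟨l' / l, ?_, ?_, ?_⟩ <;> field_simp
    · linear_combination h1
    · linear_combination h2

theorem vv_inj (rf : RfStmt) (brc : BrcStmt) {α β : Rt} (h : pr α β = 0) {x y : K4}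
    (h1 : x.1 = y.1) (e : vv α β 0 x 0 = vv α β 0 y 0) : x = y := by
  have d := dist rf brc h
  obtain ⟨-, -, -, -, c5, -, -, -, -, -, -, c12, -⟩ := brc
  simp only [vv, Prod.snd_zero, Prod.fst_zero, zero_smul, add_zero, zero_add] at e
  have e1 := congrFun e (Sum.inr α)
  have e2 := congrFun e (Sum.inr (ng α))
  simp only [Pi.add_apply, Pi.smul_apply, c5, hr_inr, smul_eq_mul, if_true, if_neg d.1,
    if_neg d.1.symm, mul_one, mul_zero, add_zero, zero_add] at e1 e2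
  rw [e1, e2, add_right_inj] at e
  have e3 := smul_left_injective K (c12 α).2.2 e
  exact Prod.ext h1 (Prod.ext e1 (Prod.ext e2 e3))

theorem ev_zero (r : Rt) : ev r 0 = 0 := by simp [H6.E82.ev]

theorem moves (rf : RfStmt) (brc : BrcStmt) (gwa : GwaStmt) {α β : Rt} (h : pr α β = 0)
    (t : Fin 4 → K) {x : K4} (hx : x.1 = 0) (hw : wd t x ≠ x) :
    act (gw α β t) (vv α β 0 x 0) ≠ vv α β 0 x 0 := by
  rw [gwa α β h t 0 (zero_mem _) x 0 (by rw [hx, ev_zero]) (by rw [ev_zero]; rfl), wd_zero]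
  exact fun e => hw (vv_inj rf brc h (wd_fst t x) e)

theorem stab (rf : RfStmt) (brc : BrcStmt) (f4 : F4Stmt) (gwa : GwaStmt) : StabStmt := by
  intro α β h A hA hc
  obtain ⟨l, a, b, hl, ha, hb, hall⟩ : ∃ l a b : K, l ^ 4 = l ∧ a ^ 4 = a ∧ b ^ 4 = b ∧
      ∀ v ∈ A, ∃ c : K, tri α v = c • ((l, a, b, 0) : K4) := by
    by_cases h0 : ∃ v ∈ A, ¬ (ev α v = 0 ∧ v (Sum.inr α) = 0 ∧ v (Sum.inr (ng α)) = 0)
    · obtain ⟨v, hv, h0⟩ := h0
      obtain ⟨hs, t1, t2, t3, t4, t5, t6⟩ := hA v hv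
      refine ⟨ev α v, v (Sum.inr α), v (Sum.inr (ng α)), ?_, ?_, ?_, fun w hw => ?_⟩
      · conv_rhs => rw [t6, t5]
        ring
      · conv_rhs => rw [t2, t1]
        ring
      · conv_rhs => rw [t4, t3]
        ring
      · have m1 := minor1 rf brc h hs (hc v hv w hw)
        exact prop3 h0 m1.1 m1.2 (minor2 rf brc h hs (hc v hv w hw))
    · push Not at h0
      refine ⟨0, 0, 0, by simp, by simp, by simp, fun v hv => ⟨0, ?_⟩⟩
      obtain ⟨e1, e2, e3⟩ := h0 v hv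
      rw [tri, e1, e2, e3, zero_smul]
      rfl
  obtain ⟨t, ht, hfix, hmv⟩ := f4 l a b hl ha hb
  refine ⟨t, ht, fun v hv => ?_, ?_⟩
  · obtain ⟨c, hcart, e1, e2, e3⟩ := decomp rf brc h (hA v hv).1 (hA v hv).2
    obtain ⟨k, hk⟩ := hall v hv
    have hw : wd t (tri α v) = tri α v := by rw [hk, wd_smul, hfix]
    conv_lhs => rw [e3]
    rw [gwa α β h t c hcart _ _ e1 (by rw [← e2, (hA v hv).2.2.2.2.2.1]; rfl), wd_sq, hw, ← e3]
  · have e1 : ee α = vv α β 0 (0, 1, 0, 0) 0 := by simp [vv]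
    have e2 : ee (ng α) = vv α β 0 (0, 0, 1, 0) 0 := by simp [vv]
    rcases hmv with hm | hm
    · left; rw [e1]; exact moves rf brc gwa h t rfl hm
    · right; rw [e2]; exact moves rf brc gwa h t rfl hm

end Cfsg.Agent.H71.E82Stab
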