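import Cfsg.Agent.H11.ElDefs

/-!
# The pair stabiliser of two subgroups of order 11 generating `L₂(11)`
-/

set_option autoImplicit false
open Subgroup

namespace Cfsg.Agent.H71.ElLc
open Cfsg.Agent.H11.EL

universe u

theorem arith : ∀ a b : ZMod 11, a * b = 1 → a ^ 2 ≠ 1 → ∀ i j : ZMod 11, i ≠ 0 → j ≠ 0 →
    (∀ n : Fin 10, (i * a ^ n.1 = 1 ↔ j * b ^ n.1 = 1)) →
    (∀ n : Fin 10, (i * i * a ^ n.1 = 1 ↔ j * j * b ^ n.1 = 1)) → i * j = 1 := by
  decide +kernel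

section
variable {G : Type u} [Group G]

theorem ex_mul {g h : G} {A : Subgroup G} {i j : ℤ} (hg : Ex g A i) (hh : Ex h A j) :
    Ex (g * h) A (i * j) := by
  intro a ha
  have : g * h * a * (g * h)⁻¹ = g * (h * a * h⁻¹) * g⁻¹ := by group
  rw [this, hh a ha, ← conj_zpow, hg a ha, ← zpow_mul]

theorem ex_pow {g : G} {A : Subgroup G} {i : ℤ} (hg : Ex g A i) (n : ℕ) :
    Ex (g ^ n) A (i ^ n) := by
  induction n with
  | zero => intro a _; simp
  | succ n ih => rw [pow_succ, pow_succ]; exact ex_mul ih hg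

theorem pow11 {A : Subgroup G} (hA : Nat.card A = 11) {a : G} (ha : a ∈ A) : a ^ 11 = 1 := by
  have := pow_card_eq_one' (x := (⟨a, ha⟩ : A))
  rw [hA] at this
  exact congrArg Subtype.val this

theorem exists_ord [Finite G] {A : Subgroup G} (hA : Nat.card A = 11) :
    ∃ a ∈ A, orderOf a = 11 ∧ ∀ x ∈ A, x ∈ zpowers a := by
  haveI : Fact (Nat.Prime 11) := ⟨by norm_num⟩
  haveI : IsCyclic A := isCyclic_of_prime_card hA
  obtain ⟨a, ha⟩ := IsCyclic.exists_generator (α := A)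
  refine ⟨a, a.2, ?_, fun x hx => ?_⟩
  · rw [Subgroup.orderOf_coe, orderOf_eq_card_of_forall_mem_zpowers ha, hA]
  · obtain ⟨k, hk⟩ := mem_zpowers_iff.1 (ha ⟨x, hx⟩)
    exact mem_zpowers_iff.2 ⟨k, by simpa using congrArg Subtype.val hk⟩

theorem ex_exists [Finite G] {A : Subgroup G} (hA : Nat.card A = 11) {g : G} (hg : g ∈ Nm A) :
    ∃ i : ℤ, Ex g A i := by
  obtain ⟨a, ha, -, hgen⟩ := exists_ord hA
  have h1 : g * a * g⁻¹ ∈ A := (mem_normalizer_iff.1 hg a).1 ha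
  obtain ⟨i, hi⟩ := mem_zpowers_iff.1 (hgen _ h1)
  refine ⟨i, fun x hx => ?_⟩
  obtain ⟨k, rfl⟩ := mem_zpowers_iff.1 (hgen _ hx)
  rw [← conj_zpow, ← hi, ← zpow_mul, ← zpow_mul, mul_comm]

theorem ex_one_iff [Finite G] {A : Subgroup G} (hA : Nat.card A = 11) {g : G} {i : ℤ}
    (h : Ex g A i) : g ∈ Ct A ↔ (i : ZMod 11) = 1 := by
  constructor
  · intro hc
    obtain ⟨a, ha, ho, -⟩ := exists_ord hA
    have h1 := h a ha
    have h2 : a * g = g * a := (mem_centralizer_iff.1 hc) a ha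
    have h3 : a ^ (i - 1) = 1 := by
      rw [zpow_sub, ← h1, ← h2]; group
    have h4 := orderOf_dvd_iff_zpow_eq_one.2 h3
    rw [ho] at h4
    have h5 := (ZMod.intCast_zmod_eq_zero_iff_dvd (i - 1) 11).2 h4
    push_cast at h5
    exact sub_eq_zero.1 h5
  · intro hi
    have h4 : ((11 : ℕ) : ℤ) ∣ i - 1 := by
      apply (ZMod.intCast_zmod_eq_zero_iff_dvd (i - 1) 11).1
      push_cast
      rw [hi, sub_self]
    obtain ⟨k, hk⟩ := h4
    rw [mem_centralizer_iff]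
    intro a ha
    have h1 := h a ha
    have h2 : a ^ i = a := by
      have : i = 1 + ((11 : ℕ) : ℤ) * k := by omega
      rw [this, zpow_add, zpow_mul, zpow_natCast, pow11 hA ha]; simp
    rw [h2] at h1
    calc a * g = g * a * g⁻¹ * g := by rw [h1]
      _ = g * a := by group

theorem ex_ne_zero [Finite G] {A : Subgroup G} (hA : Nat.card A = 11) {g : G} {i : ℤ}
    (h : Ex g A i) : (i : ZMod 11) ≠ 0 := by
  intro h0
  obtain ⟨k, hk⟩ := (ZMod.intCast_zmod_eq_zero_iff_dvd i 11).1 h0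
  obtain ⟨a, ha, ho, -⟩ := exists_ord hA
  have h1 := h a ha
  rw [hk, zpow_mul, zpow_natCast, pow11 hA ha, one_zpow] at h1
  have h2 : a = 1 := by
    calc a = g⁻¹ * (g * a * g⁻¹) * g := by group
      _ = 1 := by rw [h1]; group
  rw [h2, orderOf_one] at ho
  omega

theorem ct_le_nm {A : Subgroup G} {g : G} (h : g ∈ Ct A) : g ∈ Nm A :=
  centralizer_le_normalizer _ h

theorem nm_sup {A B : Subgroup G} {g : G} (hA : g ∈ Nm A) (hB : g ∈ Nm B) : g ∈ Nm (A ⊔ B) := by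
  rw [← cj_eq_iff] at hA hB ⊢
  rw [cj_sup, hA, hB]

theorem cen {A B : Subgroup G} (hL : LA (A ⊔ B)) (cA : Nat.card A = 11) (cB : Nat.card B = 11)
    (ne : A ≠ B) {g : G} (hA : g ∈ Ct A) (hB : g ∈ Nm B) : g ∈ Ct (A ⊔ B) := by
  have pA : A ∈ Pts (A ⊔ B) := ⟨le_sup_left, cA⟩
  have pB : B ∈ Pts (A ⊔ B) := ⟨le_sup_right, cB⟩
  refine hL.ker g (nm_sup (ct_le_nm hA) hB) fun E hE => ?_
  by_cases hEA : E = A
  · rw [hEA]; exact ct_le_nm hA
  obtain ⟨a, ⟨ha, haB⟩, -⟩ := hL.reg A pA B pB E hE ne.symm hEA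
  have h2 : a * g = g * a := (mem_centralizer_iff.1 hA) a ha
  rw [← cj_eq_iff, ← haB, ← cj_mul, ← h2, cj_mul, cj_eq_iff.2 hB]

theorem ct_left {A B : Subgroup G} {g : G} (h : g ∈ Ct (A ⊔ B)) : g ∈ Ct A :=
  centralizer_le (by exact_mod_cast (le_sup_left : A ≤ A ⊔ B)) h

theorem ct_right {A B : Subgroup G} {g : G} (h : g ∈ Ct (A ⊔ B)) : g ∈ Ct B :=
  centralizer_le (by exact_mod_cast (le_sup_right : B ≤ A ⊔ B)) h

theorem ex_conj {A B : Subgroup G} {u g : G} {j : ℤ} (hu : cj u B = A) (h : Ex g B j) :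
    Ex (u * g * u⁻¹) A j := by
  intro a ha
  rw [← hu, mem_cj] at ha
  have h1 := h _ ha
  calc u * g * u⁻¹ * a * (u * g * u⁻¹)⁻¹ = u * (g * (u⁻¹ * a * u) * g⁻¹) * u⁻¹ := by group
    _ = u * (u⁻¹ * a * u) ^ j * u⁻¹ := by rw [h1]
    _ = (u * (u⁻¹ * a * u) * u⁻¹) ^ j := by rw [conj_zpow]
    _ = a ^ j := by congr 1; group

theorem nm_conj {A B : Subgroup G} {u g : G} (hu : cj u A = B) (h : g ∈ Nm A) :
    u * g * u⁻¹ ∈ Nm B := by
  rw [← cj_eq_iff] at h ⊢
  rw [← hu, ← cj_mul, inv_mul_cancel_right, cj_mul, h]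

theorem one_iff [Finite G] {A B : Subgroup G} (hL : LA (A ⊔ B)) (cA : Nat.card A = 11)
    (cB : Nat.card B = 11) (ne : A ≠ B) {g : G} (hA : g ∈ Nm A) (hB : g ∈ Nm B) {i j : ℤ}
    (hi : Ex g A i) (hj : Ex g B j) : (i : ZMod 11) = 1 ↔ (j : ZMod 11) = 1 := by
  rw [← ex_one_iff cA hi, ← ex_one_iff cB hj]
  constructor
  · intro h; exact ct_right (cen hL cA cB ne h hB)
  · intro h
    have hL' : LA (B ⊔ A) := by rwa [sup_comm]
    exact ct_right (cen hL' cB cA ne.symm h hA)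

end

theorem lc (la : LAStmt.{u}) : LCStmt.{u} := by
  intro G _ _ A B f s hP h1
  have hL : LA (A ⊔ B) := la _ hP.iso
  have cA := hP.cA
  have cB := hP.cB
  have ne := hP.ne
  obtain ⟨a, ha, hbig⟩ := h1.big
  obtain ⟨b, hb⟩ := ex_exists cB h1.fB
  have hab : (a : ZMod 11) * b = 1 := by
    have h2 := ex_conj h1.sB hb
    rw [h1.sf] at h2
    have h3 := ex_mul ha h2
    have h4 := (ex_one_iff cA h3).1 (by rw [mul_inv_cancel]; exact one_mem _)
    push_cast at h4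
    exact h4
  have ha2 : (a : ZMod 11) ^ 2 ≠ 1 := by
    intro h
    apply hbig
    have := (ZMod.intCast_zmod_eq_zero_iff_dvd (a ^ 2 - 1) 11).1 (by push_cast; rw [h, sub_self])
    exact_mod_cast this
  have mm : ∀ g ∈ Nm A, g ∈ Nm B → ∀ i j : ℤ, Ex g A i → Ex g B j →
      (i : ZMod 11) * j = 1 := by
    intro g gA gB i j hi hj
    refine arith a b hab ha2 i j (ex_ne_zero cA hi) (ex_ne_zero cB hj) (fun n => ?_) fun n => ?_
    · have := one_iff hL cA cB ne (mul_mem gA (pow_mem h1.fA n.1)) (mul_mem gB (pow_mem h1.fB n.1))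
        (ex_mul hi (ex_pow ha n.1)) (ex_mul hj (ex_pow hb n.1))
      push_cast at this
      exact this
    · have := one_iff hL cA cB ne (mul_mem (mul_mem gA gA) (pow_mem h1.fA n.1))
        (mul_mem (mul_mem gB gB) (pow_mem h1.fB n.1))
        (ex_mul (ex_mul hi hi) (ex_pow ha n.1)) (ex_mul (ex_mul hj hj) (ex_pow hb n.1))
      push_cast at this
      exact this
  have inv : ∀ u : G, cj u A = B → cj u B = A → ∀ g ∈ Nm A, g ∈ Nm B →
      u * g * u⁻¹ * g ∈ Ct (A ⊔ B) := by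
    intro u uA uB g gA gB
    obtain ⟨i, hi⟩ := ex_exists cA gA
    obtain ⟨j, hj⟩ := ex_exists cB gB
    refine cen hL cA cB ne ?_ (mul_mem (nm_conj uA gA) gB)
    rw [ex_one_iff cA (ex_mul (ex_conj uB hj) hi)]
    push_cast
    rw [mul_comm]
    exact mm g gA gB i j hi hj
  refine { h1 with cen := fun g h h' => cen hL cA cB ne h h', com := ?_, inv := inv, sq := ?_,
                   mm := ?_ }
  · intro g gA gB
    obtain ⟨i, hi⟩ := ex_exists cA gA
    obtain ⟨i', hi'⟩ := ex_exists cA (inv_mem gA)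
    obtain ⟨a', ha'⟩ := ex_exists cA (inv_mem h1.fA)
    have e1 := (ex_one_iff cA (ex_mul hi hi')).1 (by rw [mul_inv_cancel]; exact one_mem _)
    have e2 := (ex_one_iff cA (ex_mul ha ha')).1 (by rw [mul_inv_cancel]; exact one_mem _)
    push_cast at e1 e2
    have hc : g * f * g⁻¹ * f⁻¹ ∈ Ct (A ⊔ B) := by
      refine cen hL cA cB ne ?_
        (mul_mem (mul_mem (mul_mem gB h1.fB) (inv_mem gB)) (inv_mem h1.fB))
      rw [ex_one_iff cA (ex_mul (ex_mul (ex_mul hi ha) hi') ha')]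
      push_cast
      calc (i : ZMod 11) * a * i' * a' = (i * i') * (a * a') := by ring
        _ = 1 := by rw [e1, e2, mul_one]
    have hm : g * f * g⁻¹ * f⁻¹ ∈ A ⊔ B :=
      mul_mem ((mem_normalizer_iff.1 (nm_sup gA gB) f).1 h1.fL) (inv_mem h1.fL)
    have h0 := hL.ctr _ hm hc
    have : g * f = f * g := by
      calc g * f = g * f * g⁻¹ * f⁻¹ * (f * g) := by group
        _ = f * g := by rw [h0, one_mul]
    exact this
  · intro u uA uB
    have ss : s * s = 1 := by rw [← pow_two, ← h1.so, pow_orderOf_eq_one]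
    have si : s⁻¹ = s := inv_eq_of_mul_eq_one_right ss
    have gA : s * u ∈ Nm A := by rw [← cj_eq_iff, cj_mul, uA, h1.sB]
    have gB : s * u ∈ Nm B := by rw [← cj_eq_iff, cj_mul, uB, h1.sA]
    have := inv s h1.sA h1.sB _ gA gB
    have e : s * (s * u) * s⁻¹ * (s * u) = u * u := by
      calc s * (s * u) * s⁻¹ * (s * u) = (s * s) * u * u := by group
        _ = u * u := by rw [ss, one_mul]
    rwa [e] at this
  · intro g gA gB i j hi hj
    have := mm g gA gB i j hi hj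
    have h2 := (ZMod.intCast_zmod_eq_zero_iff_dvd (i * j - 1) 11).1
      (by push_cast; rw [this, sub_self])
    exact_mod_cast h2

end Cfsg.Agent.H71.ElLc
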