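import Cfsg.Agent.H71.ElLc
import Mathlib.GroupTheory.NoncommCoprod

/-!
# The case of an odd centraliser where nothing inverts: a mixed element exists
-/

set_option autoImplicit false
open Subgroup

namespace Cfsg.Agent.H71.ElN3a
open Cfsg.Agent.H11.EL Cfsg.Agent.H71.ElLc

universe u

section
variable {G : Type u} [Group G]

theorem relIndex_mul {U L : Subgroup G} (h : U ≤ L) : U.relIndex L * Nat.card U = Nat.card L := by
  rw [relIndex, ← Nat.card_congr (subgroupOfEquivOfLe h).toEquiv, index_mul_card]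

theorem not_pq [Finite G] {E : Subgroup G} {k f : G} {p : ℕ} (hp : p.Prime) (hk : k ∈ E)
    (hf : f ∈ E) (ok : orderOf k = p) (of : orderOf f = p) (c : Commute k f)
    (hd : Disjoint (zpowers k) (zpowers f)) : ¬ PQ E := by
  intro hE
  have comm : ∀ (m : zpowers k) (n : zpowers f),
      Commute ((zpowers k).subtype m) ((zpowers f).subtype n) := by
    rintro ⟨_, a, rfl⟩ ⟨_, b, rfl⟩
    exact c.zpow_zpow a b
  set φ := MonoidHom.noncommCoprod (zpowers k).subtype (zpowers f).subtype comm with hφ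
  have inj : Function.Injective φ := by
    rw [hφ, MonoidHom.noncommCoprod_injective]
    refine ⟨subtype_injective _, subtype_injective _, ?_⟩
    simpa using hd
  have e := MonoidHom.ofInjective inj
  have hc : Nat.card φ.range = p * p := by
    rw [← Nat.card_congr e.toEquiv, Nat.card_prod, Nat.card_zpowers, Nat.card_zpowers, ok, of]
  have hle : φ.range ≤ E := by
    rw [hφ, MonoidHom.noncommCoprod_range]
    simp only [range_subtype]
    exact sup_le (zpowers_le.2 hk) (zpowers_le.2 hf)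
  have cyc := hE p p hp hp _ hle hc
  have cyc' : IsCyclic (zpowers k × zpowers f) := isCyclic_of_surjective e.symm e.symm.surjective
  have := coprime_card_of_isCyclic_prod (zpowers k) (zpowers f)
  rw [Nat.card_zpowers, Nat.card_zpowers, ok, of, Nat.coprime_self] at this
  exact hp.one_lt.ne' this

theorem exists_ord_mem [Finite G] {K : Subgroup G} {p : ℕ} (hp : p.Prime) (h : p ∣ Nat.card K) :
    ∃ x ∈ K, orderOf x = p := by
  have : Fact p.Prime := ⟨hp⟩
  obtain ⟨x, hx⟩ := exists_prime_orderOf_dvd_card' p h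
  exact ⟨x, x.2, by rw [Subgroup.orderOf_coe, hx]⟩

end

theorem n3a (b : Base.{u}) (ck : CKStmt.{u}) (w : WStmt.{u}) (wk : WKStmt.{u}) (pq : PQStmt.{u})
    (zk : ZKStmt.{u}) (n3T : N3TStmt.{u}) (n3r : N3rStmt.{u}) (n3e : N3eStmt.{u}) :
    N3aStmt.{u} := by
  intro G _ _ D A B h
  by_contra hno
  push Not at hno
  have hP : Pr D A B := h.toPr
  have hN := h.ne
  have lp : LP A B := hN.lp A h.hA B h.hB h.AB
  have hL : LA (A ⊔ B) := b.la _ lp.iso
  obtain ⟨f, s, h1⟩ := b.lc1 A B lp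
  have hc := b.lc A B f s lp h1
  have ht := b.lt A B f s lp hc
  have CK := (ck D A B hP).1 h.e1
  by_cases hK : Ct (A ⊔ B) = ⊥
  · exact CK (by rw [hK]; simp)
  obtain ⟨W, l, hW⟩ := w D A B h
  obtain ⟨w1, w2, -⟩ := wk D A B W l hP hW
  have hWK : W ⊓ Ct (A ⊔ B) = ⊥ := by
    rw [eq_bot_iff]
    intro k hk
    by_contra hk1
    exact hno k (w1 k hk.1 hk.2 hk1)
  have fpf : Fpf (Nm A ⊓ Nm B) A W := by
    intro g hg g1 x hx hcm
    rcases w2 hWK g hg.1 hg.2 x hx hcm with h2 | ⟨B', hB', hn, hg'⟩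
    · exact h2
    exfalso
    rcases ht.small g hg.1 hg.2 with h3 | h3 | h3
    · exact hno g ⟨h3, g1, B', hB', hn, hg'⟩
    · exact h.e1 g hg.1 hg.2 h3
    · exact hN.five A h.hA B h.hB B' hB' h.AB.symm hn g hg.1 hg.2 h3 hg'
  have pqT : PQ (Nm A ⊓ Nm B) :=
    pq _ A W hW.le hW.ne (fun x hx => ct_le_nm (hW.ct hx)) inf_le_left
      (inf_le_left.trans hW.nm) hW.ab fpf
  have KT : Ct (A ⊔ B) ≤ Nm A ⊓ Nm B := fun k hk =>
    ⟨ct_le_nm (ct_left hk), ct_le_nm (ct_right hk)⟩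
  have pqK : PQ (Ct (A ⊔ B)) := fun p q hp hq U hU => pqT p q hp hq U (hU.trans KT)
  obtain ⟨r, R, hr, rp, hR, R0, Rc, RN, Rz⟩ := zk _ h.odd hK pqK
  have rd : r ∣ Nat.card (Ct (A ⊔ B)) := hr ▸ Nat.minFac_dvd _
  have : Fact r.Prime := ⟨rp⟩
  by_cases r2 : r = 2
  · subst r2
    exact (Nat.not_even_iff_odd.2 h.odd) (even_iff_two_dvd.2 rd)
  by_cases r5 : r = 5
  · subst r5
    obtain ⟨k, hk, ok⟩ := exists_ord_mem rp rd
    refine not_pq rp (KT hk) ⟨h1.fA, h1.fB⟩ ok h1.fo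
      ((mem_centralizer_iff.1 hk) f h1.fL).symm ?_ pqT
    rw [disjoint_def]
    intro x hx1 hx2
    exact hL.ctr x (zpowers_le.2 h1.fL hx2) (zpowers_le.2 hk hx1)
  by_cases r3 : r = 3
  · subst r3
    obtain ⟨x, hx, ox⟩ := exists_ord_mem (K := A ⊔ B) rp (by rw [hL.card]; norm_num)
    rcases n3r D A B R x h hR R0 Rz hx ox with h2 | h2
    · have hle : zpowers x ≤ A ⊔ B := zpowers_le.2 hx
      have hi := relIndex_mul hle
      rw [Nat.card_zpowers, ox, hL.card] at hi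
      refine n3T D A B R (zpowers x) 3 h rp hR R0 Rc RN
        ⟨hle, IsPGroup.of_card (n := 1) (by rw [Nat.card_zpowers, ox]; rfl), by omega⟩
        inferInstance h2
    · exact CK (by rw [h2]; simp)
  by_cases r11 : r = 11
  · subst r11
    have hi := relIndex_mul (le_sup_left : A ≤ A ⊔ B)
    rw [lp.cA, hL.card] at hi
    exact n3T D A B R A 11 h rp hR R0 Rc RN
      ⟨le_sup_left, IsPGroup.of_card (n := 1) (by rw [lp.cA]; rfl), by omega⟩
      (isCyclic_of_prime_card lp.cA) (n3e D A B R hP hno hR.1 R0 hR.2.1)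
  refine n3T D A B R ⊥ r h rp hR R0 Rc RN ⟨bot_le, IsPGroup.of_bot, ?_⟩ inferInstance ?_
  · rw [relIndex_bot_left, hL.card]
    intro hd
    have e : (660 : ℕ) = 2 * (2 * (3 * (5 * 11))) := by norm_num
    rw [e, rp.dvd_mul, rp.dvd_mul, rp.dvd_mul, rp.dvd_mul,
      Nat.prime_dvd_prime_iff_eq rp Nat.prime_two, Nat.prime_dvd_prime_iff_eq rp Nat.prime_three,
      Nat.prime_dvd_prime_iff_eq rp Nat.prime_five,
      Nat.prime_dvd_prime_iff_eq rp (by norm_num : Nat.Prime 11)] at hd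
    omega
  · rw [sup_bot_eq]
    intro g hg
    obtain ⟨⟨k, hk⟩, k1⟩ := ne_bot_iff_exists_ne_one.1 R0
    have k1' : k ≠ 1 := fun e => k1 (Subtype.ext e)
    exact hN.ti A h.hA B h.hB h.AB k (hR.1 hk) k1' g (hR.1 ((mem_normalizer_iff.1 hg k).1 hk))

end Cfsg.Agent.H71.ElN3a
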