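import Cfsg.Agent.H2.FXDefs

/-! The inequality obtained from the partition of `Sz(8)`. -/

set_option autoImplicit false

namespace Cfsg.Agent.H71.FxSzSum

open Cfsg.Agent.H2FX

universe u

theorem inner {Γ : Type u} [Group Γ] [Fintype Γ] (β : Γ → ℂ) (d : Subgroup Γ → ℕ) (m : ℕ → ℕ)
    (h1 : β 1 = 248) (hU : ∀ U : Subgroup Γ, ∑ᶠ g : U, β g = (Nat.card U : ℕ) * (d U : ℕ))
    (hm : ∀ U : Subgroup Γ, m (Nat.card U) ≤ d U) (n : ℕ) :
    ∃ z : ℤ, ∑ᶠ U : {U : Subgroup Γ // Nat.card U = n}, ((∑ᶠ g : U.1, β g) - β 1) = (z : ℂ) ∧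
      nsub Γ n * (n * m n - 248 : ℤ) ≤ z := by
  classical
  have : Fintype {U : Subgroup Γ // Nat.card U = n} := Fintype.ofFinite _
  refine ⟨∑ U : {U : Subgroup Γ // Nat.card U = n}, ((n : ℤ) * d U.1 - 248), ?_, ?_⟩
  · rw [finsum_eq_sum_of_fintype]
    push_cast
    refine Finset.sum_congr rfl fun U _ => ?_
    rw [hU, h1, U.2]
  · have := Finset.card_nsmul_le_sum (Finset.univ : Finset {U : Subgroup Γ // Nat.card U = n})
      (fun U => (n : ℤ) * d U.1 - 248) (n * m n - 248 : ℤ) fun U _ => by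
        have h2 := hm U.1
        rw [U.2] at h2
        have h3 : (n : ℤ) * m n ≤ n * d U.1 := by exact_mod_cast Nat.mul_le_mul_left n h2
        omega
    rwa [nsmul_eq_mul, Finset.card_univ, ← Nat.card_eq_fintype_card] at this

theorem szSum (part : PartStmt.{u}) : SzSumStmt.{u} := by
  intro Γ _ _ hΓ β d m h1 hU hm
  have h := part Γ hΓ β
  obtain ⟨a, ha, ha'⟩ := inner β d m h1 hU hm 64
  obtain ⟨b, hb, hb'⟩ := inner β d m h1 hU hm 5
  obtain ⟨c, hc, hc'⟩ := inner β d m h1 hU hm 7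
  obtain ⟨e, he, he'⟩ := inner β d m h1 hU hm 13
  rw [Finset.sum_insert (by decide), Finset.sum_insert (by decide), Finset.sum_insert (by decide),
    Finset.sum_singleton, ha, hb, hc, he, h1] at h
  have h2 := hU ⊤
  rw [Subgroup.card_top, hΓ.1, ← finsum_eq_sum_of_fintype] at *
  have h3 : ∑ᶠ g : (⊤ : Subgroup Γ), β g = ∑ᶠ g : Γ, β g :=
    finsum_eq_of_bijective (fun g : (⊤ : Subgroup Γ) => (g : Γ)) Subgroup.topEquiv.bijective
      fun _ => rfl
  have h4 : (29120 * (d ⊤ : ℤ) : ℤ) = 248 + (a + (b + (c + e))) := by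
    have := h2.symm.trans (h3.trans h)
    exact_mod_cast this
  push_cast at ha' hb' hc' he'
  omega

end Cfsg.Agent.H71.FxSzSum
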