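import Cfsg.Agent.H98.GbH

/-! Project GB: the vanishing part of the Gelfand-Graev multiplicity of a parabolic induction. -/

set_option autoImplicit false
open Cfsg Finset Module
open scoped ComplexConjugate MatrixGroups Matrix

namespace Cfsg.Agent.H71.GbDel1a

open Cfsg.Agent.H98.GB

universe u

variable {F : Type u} [Field F]

theorem mem_std {n a : ℕ} {w : Fin n → F} : w ∈ stdS F n a ↔ ∀ i : Fin n, a ≤ i.val → w i = 0 :=
  Iff.rfl

theorem finrank_std (n a : ℕ) : finrank F (stdS F n a) ≤ a := by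
  let f : stdS F n a →ₗ[F] (Fin a → F) :=
    { toFun := fun w j => if h : j.val < n then w.1 ⟨j, h⟩ else 0
      map_add' := fun w w' => funext fun j => by by_cases h : j.val < n <;> simp [h]
      map_smul' := fun c w => funext fun j => by by_cases h : j.val < n <;> simp [h] }
  have hf : Function.Injective f := by
    rw [injective_iff_map_eq_zero]
    intro w hw
    refine Subtype.ext (funext fun i => ?_)
    by_cases h : a ≤ i.val
    · exact w.2 i h
    · have := congrFun hw ⟨i, by omega⟩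
      simpa [f] using this
  simpa using LinearMap.finrank_le_finrank_of_injective hf

/-- A jump of `W` that is not followed by a jump. -/
theorem exists_jump {n a b : ℕ} (h : a + b = n) (W : Submodule F (Fin n → F))
    (hW : finrank F W ≤ a) (hne : W ⊓ stdS F n b ≠ ⊥) :
    ∃ (i : ℕ) (hi : i + 1 < n), Pi.single (⟨i, by omega⟩ : Fin n) (1 : F) ∈ W ⊔ stdS F n i ∧
      Pi.single (⟨i + 1, hi⟩ : Fin n) (1 : F) ∉ W ⊔ stdS F n (i + 1) := by
  classical
  obtain ⟨w, ⟨hw, hwb⟩, hw0⟩ := (Submodule.ne_bot_iff _).1 hne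
  have hex : ∃ k, w ∈ stdS F n k := ⟨b, hwb⟩
  have hk : Nat.find hex ≤ b := Nat.find_min' hex hwb
  have hk1 := Nat.find_spec hex
  have hk0 : Nat.find hex ≠ 0 := fun e => hw0 (funext fun i => hk1 i (by omega))
  obtain ⟨i0, e0⟩ := Nat.exists_eq_succ_of_ne_zero hk0
  have hk2 : w ∉ stdS F n i0 := Nat.find_min hex (by omega)
  rw [e0] at hk hk1
  have hi0 : i0 < n := by omega
  have hw1 : w ⟨i0, hi0⟩ ≠ 0 := fun e => hk2 fun j hj => by
    rcases eq_or_lt_of_le hj with e' | e'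
    · rw [← e]; congr 1; exact Fin.ext e'.symm
    · exact hk1 j e'
  have hQ0 : Pi.single (⟨i0, hi0⟩ : Fin n) (1 : F) ∈ W ⊔ stdS F n i0 := by
    refine Submodule.mem_sup.2 ⟨(w ⟨i0, hi0⟩)⁻¹ • w, W.smul_mem _ hw,
      Pi.single (⟨i0, hi0⟩ : Fin n) (1 : F) - (w ⟨i0, hi0⟩)⁻¹ • w, fun j hj => ?_, by simp⟩
    rcases eq_or_lt_of_le hj with e' | e'
    · obtain rfl : j = ⟨i0, hi0⟩ := Fin.ext e'.symm
      simp [hw1]
    · have : j ≠ ⟨i0, hi0⟩ := fun e => by rw [e] at e'; exact lt_irrefl _ e'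
      simp [hk1 j e', this]
  by_contra hcon
  push Not at hcon
  have hQ : ∀ k, i0 ≤ k → ∀ hk : k < n,
      Pi.single (⟨k, hk⟩ : Fin n) (1 : F) ∈ W ⊔ stdS F n k := by
    intro k hk
    induction k, hk using Nat.le_induction with
    | base => exact fun _ => hQ0
    | succ k _ ih => exact fun hk => hcon k hk (ih (by omega))
  have hV : ∀ k, i0 ≤ k → k ≤ n → stdS F n k ≤ W ⊔ stdS F n i0 := by
    intro k hk
    induction k, hk using Nat.le_induction with
    | base => exact fun _ => le_sup_right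
    | succ k hk ih =>
      intro hk' v hv
      have h1 : W ⊔ stdS F n k ≤ W ⊔ stdS F n i0 := sup_le le_sup_left (ih (by omega))
      have h2 : v = v ⟨k, hk'⟩ • Pi.single (⟨k, hk'⟩ : Fin n) (1 : F) +
        (v - v ⟨k, hk'⟩ • Pi.single (⟨k, hk'⟩ : Fin n) (1 : F)) := by simp
      rw [h2]
      refine h1 (add_mem (Submodule.smul_mem _ _ (hQ k hk hk')) (Submodule.mem_sup_right ?_))
      intro j hj
      rcases eq_or_lt_of_le hj with e' | e'
      · obtain rfl : j = ⟨k, hk'⟩ := Fin.ext e'.symm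
        simp
      · have : j ≠ ⟨k, hk'⟩ := fun e => by rw [e] at e'; exact lt_irrefl _ e'
        simp [hv j e', this]
  have htop : W ⊔ stdS F n i0 = ⊤ :=
    eq_top_iff.2 fun v _ => hV n hi0.le le_rfl fun j hj => absurd j.2 (by omega)
  have h1 := Submodule.finrank_add_le_finrank_add_finrank W (stdS F n i0)
  have h2 := finrank_std (F := F) n i0
  rw [htop, finrank_top, finrank_fin_fun] at h1
  omega

theorem exists_wz {n a b : ℕ} (h : a + b = n) (W : Submodule F (Fin n → F))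
    (hW : finrank F W ≤ a) (hne : W ⊓ stdS F n b ≠ ⊥) :
    ∃ (i : ℕ) (hi : i + 1 < n) (w z : Fin n → F), w ∈ W ∧ (∀ v ∈ W, z ⬝ᵥ v = 0) ∧
      (∀ j : Fin n, i < j.val → w j = 0) ∧ w ⟨i, by omega⟩ = 1 ∧
      (∀ j : Fin n, j.val ≤ i → z j = 0) ∧ z ⟨i + 1, hi⟩ = 1 := by
  obtain ⟨i, hi, h1, h2⟩ := exists_jump h W hW hne
  obtain ⟨w, hw, v, hv, e⟩ := Submodule.mem_sup.1 h1
  obtain ⟨l, hl1, hl2⟩ := Submodule.exists_dual_map_eq_bot_of_notMem h2 inferInstance
  have hl : ∀ v ∈ W ⊔ stdS F n (i + 1), l v = 0 := fun v hv => by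
    have : l v ∈ (W ⊔ stdS F n (i + 1)).map l := Submodule.mem_map_of_mem hv
    rwa [hl2, Submodule.mem_bot] at this
  have e' : w = Pi.single (⟨i, by omega⟩ : Fin n) (1 : F) - v := eq_sub_of_add_eq e
  refine ⟨i, hi, w, fun j => (l (Pi.single (⟨i + 1, hi⟩ : Fin n) 1))⁻¹ * l (Pi.single j 1), hw,
    fun u hu => ?_, fun j hj => ?_, ?_, fun j hj => ?_, inv_mul_cancel₀ hl1⟩
  · have h3 := hl u (Submodule.mem_sup_left hu)
    rw [LinearMap.pi_apply_eq_sum_univ] at h3
    simp only [dotProduct, mul_assoc, ← Finset.mul_sum]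
    refine mul_eq_zero_of_right _ (Eq.trans (Finset.sum_congr rfl fun j _ => ?_) h3)
    rw [smul_eq_mul, mul_comm]
    congr 2
    funext k
    simp [Pi.single_apply, eq_comm]
  · have : j ≠ ⟨i, by omega⟩ := fun e => by rw [e] at hj; exact lt_irrefl _ hj
    simp [e', this, hv j hj.le]
  · simp [e', hv ⟨i, by omega⟩ le_rfl]
  · refine mul_eq_zero_of_right _ (hl _ (Submodule.mem_sup_right fun k hk => ?_))
    have : k ≠ j := fun e => by rw [e] at hk; omega
    simp [this]

theorem step {n i : ℕ} (hi : i + 1 < n) {w z : Fin n → F}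
    (hw0 : ∀ j : Fin n, i < j.val → w j = 0) (hw1 : w ⟨i, by omega⟩ = 1)
    (hz0 : ∀ j : Fin n, j.val ≤ i → z j = 0) (hz1 : z ⟨i + 1, hi⟩ = 1) (t : F)
    {g g' : GL (Fin n) F} (hg : IsU g) (e : g'.1 = (1 + t • Matrix.vecMulVec w z) * g.1) :
    IsU g' ∧ sd g' = sd g + t := by
  have e1 : ∀ p q, g'.1 p q = g.1 p q + t * (w p * (z ᵥ* g.1) q) := fun p q => by
    rw [e, Matrix.add_mul, Matrix.one_mul, Matrix.smul_mul, Matrix.vecMulVec_mul]
    rfl
  have ev : ∀ q, (z ᵥ* g.1) q = ∑ k, z k * g.1 k q := fun q => rfl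
  have z0 : ∀ q : Fin n, q.val ≤ i → (z ᵥ* g.1) q = 0 := fun q hq => by
    rw [ev]
    refine Finset.sum_eq_zero fun k _ => ?_
    by_cases hk : k.val ≤ i
    · simp [hz0 k hk]
    · have h1 : k ≠ q := fun e => hk (e ▸ hq)
      have := hg k q (by rw [Fin.le_def]; omega)
      simp [this, h1]
  have z1 : (z ᵥ* g.1) ⟨i + 1, hi⟩ = 1 := by
    rw [ev]
    refine (Finset.sum_eq_single (⟨i + 1, hi⟩ : Fin n) (fun k _ h1 => ?_) (by simp)).trans ?_
    · by_cases hk : k.val ≤ i
      · simp [hz0 k hk]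
      · have := hg k ⟨i + 1, hi⟩ (by rw [Fin.le_def]; simp only; omega)
        simp [this, h1]
    · simp [hz1, hg _ _ le_rfl]
  refine ⟨fun p q hpq => ?_, ?_⟩
  · rw [e1, hg p q hpq]
    by_cases hp : i < p.val
    · simp [hw0 p hp]
    · rw [z0 q (by rw [Fin.le_def] at hpq; omega)]; simp
  · have e2 : ∑ p : Fin n, ∑ q : Fin n,
        (if q.val = p.val + 1 then t * (w p * (z ᵥ* g.1) q) else 0) = t := by
      rw [Finset.sum_eq_single (⟨i, by omega⟩ : Fin n) (fun p _ hp => ?_) (by simp),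
        Finset.sum_eq_single (⟨i + 1, hi⟩ : Fin n) (fun q _ hq => ?_) (by simp)]
      · simp [hw1, z1]
      · rw [if_neg fun e => hq (Fin.ext e)]
      · refine Finset.sum_eq_zero fun q _ => ?_
        split_ifs with hq
        · have : p.val ≠ i := fun e => hp (Fin.ext e)
          by_cases h1 : i < p.val
          · simp [hw0 p h1]
          · rw [z0 q (by omega)]; simp
        · rfl
    refine Eq.trans ?_ (congrArg (sd g + ·) e2)
    rw [sd, sd, ← Finset.sum_add_distrib]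
    refine Finset.sum_congr rfl fun p _ => ?_
    rw [← Finset.sum_add_distrib]
    refine Finset.sum_congr rfl fun q _ => ?_
    split_ifs
    · exact e1 p q
    · simp

theorem eqv_inl {a b n : ℕ} (h : a + b = n) (p : Fin a) : (eqv h (Sum.inl p)).val = p := rfl

theorem eqv_inr {a b n : ℕ} (h : a + b = n) (q : Fin b) : (eqv h (Sum.inr q)).val = a + q := rfl

theorem tri_rank {a b n : ℕ} (h : a + b = n) {y z : Fin n → F} (hy : y ∈ stdS F n a)
    (hz : ∀ j : Fin n, j.val < a → z j = 0) (t : F) :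
    (tri h 1 (t • Matrix.vecMulVec (fun p => y (eqv h (Sum.inl p))) fun q => z (eqv h (Sum.inr q)))
      1).1 = 1 + t • Matrix.vecMulVec y z := by
  ext p q
  obtain ⟨p, rfl⟩ := (eqv h).surjective p
  obtain ⟨q, rfl⟩ := (eqv h).surjective q
  have h1 : ∀ p, y (eqv h (Sum.inr p)) = 0 := fun p => hy _ (by rw [eqv_inr]; omega)
  have h2 : ∀ q, z (eqv h (Sum.inl q)) = 0 := fun q => hz _ (by rw [eqv_inl]; exact q.2)
  rcases p with p | p <;> rcases q with q | q <;>
    simp [coe_tri, Matrix.one_apply, Matrix.vecMulVec_apply, h1, h2]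

theorem exists_c {a b n : ℕ} (h : a + b = n) (x : GL (Fin n) F)
    (hne : imS a x ⊓ stdS F n b ≠ ⊥) : ∃ c : Matrix (Fin a) (Fin b) F, ∀ (t : F) (g : GL (Fin n) F),
      IsU g → IsU (x * tri h 1 (t • c) 1 * x⁻¹ * g) ∧
        sd (x * tri h 1 (t • c) 1 * x⁻¹ * g) = sd g + t := by
  obtain ⟨i, hi, w, z, ⟨y, hy, rfl⟩, hz, hw0, hw1, hz0, hz1⟩ := exists_wz h (imS a x)
    ((Submodule.finrank_map_le _ _).trans (finrank_std n a)) hne
  have hz' : ∀ j : Fin n, j.val < a → (z ᵥ* x.1) j = 0 := fun j hj => by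
    have := hz _ ⟨Pi.single j 1, fun k hk => by
      have : k ≠ j := fun e => by rw [e] at hk; omega
      simp [this], rfl⟩
    rw [H22.Cusp.natRep_apply, Matrix.dotProduct_mulVec] at this
    simpa using this
  refine ⟨Matrix.vecMulVec (fun p => y (eqv h (Sum.inl p))) fun q => (z ᵥ* x.1) (eqv h (Sum.inr q)),
    fun t g hg => step hi hw0 hw1 hz0 hz1 t hg ?_⟩
  rw [Units.val_mul, Units.val_mul, Units.val_mul, tri_rank h hy hz', Matrix.mul_add,
    Matrix.add_mul, Matrix.mul_one, Units.mul_inv, Matrix.mul_smul, Matrix.smul_mul,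
    Matrix.mul_vecMulVec, Matrix.vecMulVec_mul, Matrix.vecMul_vecMul, Units.mul_inv,
    Matrix.vecMul_one, H22.Cusp.natRep_apply]

theorem del1a : DEL1aStmt.{u} := by
  classical
  intro F _ _ _ η ψ hψ a b n h f f'
  obtain ⟨t, ht⟩ := AddChar.ne_one_iff.1 hψ
  unfold dlt cmpS
  refine mul_eq_zero_of_right _ ?_
  simp only [mul_assoc, ← Finset.mul_sum]
  refine mul_eq_zero_of_right _ ?_
  simp only [Finset.sum_mul (univ : Finset (GL (Fin n) F))]
  rw [Finset.sum_comm]
  refine Finset.sum_eq_zero fun x _ => ?_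
  by_cases hx : imS a x ⊓ stdS F n b ≠ ⊥
  swap
  · simp [hx]
  obtain ⟨c, hc⟩ := exists_c h x hx
  set Fx : GL (Fin n) F → ℂ := fun g => ∑ u : GL (Fin a) F, ∑ c : Matrix (Fin a) (Fin b) F,
    ∑ v : GL (Fin b) F, if g = x * tri h u c v * x⁻¹ then (dl η n x : ℂ) * f u * f' v else 0 with hFx
  have hinv : ∀ g, Fx (x * tri h 1 (t • c) 1 * x⁻¹ * g) = Fx g := fun g => by
    refine Finset.sum_congr rfl fun u _ => ?_
    rw [Finset.sum_comm, Finset.sum_comm (s := (univ : Finset (Matrix (Fin a) (Fin b) F)))]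
    refine Finset.sum_congr rfl fun v _ => ?_
    refine (Fintype.sum_equiv (Equiv.addRight ((t • c) * v.1)) _ _ fun d => ?_).symm
    have e : tri h u (d + (t • c) * v.1) v = tri h 1 (t • c) 1 * tri h u d v := by
      rw [tri_mul]; simp
    refine if_congr ?_ rfl rfl
    rw [Equiv.coe_addRight, e]
    constructor
    · rintro rfl; group
    · intro e'
      calc g = (x * tri h 1 (t • c) 1 * x⁻¹)⁻¹ * (x * tri h 1 (t • c) 1 * x⁻¹ * g) := by group
        _ = _ := by rw [e']; group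
  have hU : ∀ g, IsU g ↔ IsU (x * tri h 1 (t • c) 1 * x⁻¹ * g) := fun g =>
    ⟨fun hg => (hc t g hg).1, fun hg => by
      have h1 := (hc (-t) _ hg).1
      have e : tri h 1 ((-t) • c) 1 * tri h (1 : GL (Fin a) F) (t • c) 1 = 1 := by
        rw [tri_mul]; simpa using tri_one h
      have e' : x * tri h 1 ((-t) • c) 1 * x⁻¹ * (x * tri h 1 (t • c) 1 * x⁻¹ * g) =
        x * (tri h 1 ((-t) • c) 1 * tri h 1 (t • c) 1) * x⁻¹ * g := by group
      rwa [e', e, mul_one, mul_inv_cancel, one_mul] at h1⟩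
  have key : ∑ g ∈ univ.filter fun g : GL (Fin n) F => IsU g, conj (ψ t) * (Fx g * conj (ψ (sd g))) =
      ∑ g ∈ univ.filter fun g : GL (Fin n) F => IsU g, Fx g * conj (ψ (sd g)) := by
    refine Finset.sum_equiv (Equiv.mulLeft (x * tri h 1 (t • c) 1 * x⁻¹)) (fun g => ?_)
      fun g hg => ?_
    · simp only [Finset.mem_filter, Finset.mem_univ, true_and]
      exact hU g
    · rw [Equiv.coe_mulLeft, hinv, (hc t g (Finset.mem_filter.1 hg).2).2, AddChar.map_add_eq_mul,
        map_mul]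
      ring
  rw [← Finset.mul_sum] at key
  have h0 : ∑ g ∈ univ.filter fun g : GL (Fin n) F => IsU g, Fx g * conj (ψ (sd g)) = 0 := by
    by_contra h0
    have h1 : conj (ψ t) = 1 := mul_right_cancel₀ h0 (key.trans (one_mul _).symm)
    exact ht (by simpa using congrArg conj h1)
  refine Eq.trans (Finset.sum_congr rfl fun g _ => ?_) h0
  simp only [hFx, hx, true_and, mul_assoc, ne_eq, not_false_eq_true]

end Cfsg.Agent.H71.GbDel1a
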