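import Cfsg.Agent.H98.GbL

/-! Project GB: the twisted Hall algebra is unique up to isomorphism. -/

set_option autoImplicit false

namespace Cfsg.Agent.H71.GbHiso

open Cfsg.Agent.H98.GB

universe u

theorem hiso : HISOStmt.{u} := by
  intro F _ _ _ η η' e H H'
  subst e
  have h1 : ∀ x, H'.ev (H'.of (H.ev x)) = H.ev x := fun x => H'.ev_of (H.tw x)
  have h2 : ∀ x, H.ev (H.of (H'.ev x)) = H'.ev x := fun x => H.ev_of (H'.tw x)
  let L : H.A ≃ₗ[ℂ] H'.A :=
    { toFun := fun x => H'.of (H.ev x)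
      invFun := fun x => H.of (H'.ev x)
      left_inv := fun x => H.inj (by rw [h2, h1])
      right_inv := fun x => H'.inj (by rw [h1, h2])
      map_add' := fun x y => H'.inj (by rw [h1, map_add, map_add, h1, h1])
      map_smul' := fun c x => H'.inj (by rw [h1, map_smul, RingHom.id_apply, map_smul, h1]) }
  have hL : ∀ x, H'.ev (L x) = H.ev x := h1
  exact ⟨AlgEquiv.ofLinearEquiv L (H'.inj (by rw [hL, H.ev_one, H'.ev_one]))
    fun x y => H'.inj (by rw [hL, H.ev_mul, H'.ev_mul, hL, hL]), hL⟩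

end Cfsg.Agent.H71.GbHiso
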