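import Cfsg.Agent.H71.HnK0a

/-! Piece K0 of the `HN` recognition. -/

set_option autoImplicit false

universe u

namespace Cfsg.Agent.H71.HnK0

open Cfsg Subgroup
open Cfsg.Agent.H99.HN Cfsg.Agent.H99.HN.M4
open Cfsg.Agent.H4.J2S (F4)

variable {G : Type u} [Group G] {U : HB G} {π : G → M4}

/-- the commutator with a fixed element -/
def ka (g0 x : G) : G := x * g0 * x⁻¹ * g0⁻¹

section

variable (cl : U.CL) (ef : U.EF) (md : U.MD π) (ls : U.LS π) (ty : U.TY π) (kl : U.KL) {g0 : G}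
  (hg : g0 ∈ U.E) (h0 : π g0 = Om)
include ef md hg h0

theorem ka_pi {x : G} (hx : x ∈ U.L) {A : M4} {b : Bool} (hA : A.det = 1) (h : U.Act π x A A.adj b) :
    ka g0 x ∈ U.E ∧ π (ka g0 x) = if b then 1 else 0 := by
  refine ⟨mul_mem (L_E hx hg) (inv_mem hg), ?_⟩
  rw [ka, md.add _ (L_E hx hg) _ (inv_mem hg), pi_inv md hg, h _ hg, h0]
  cases b
  · exact (d5 A hA).1
  · exact (d5 A hA).2

include ls

theorem ka_mem {x : G} (hx : x ∈ U.L) (ht : x * U.t = U.t * x) :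
    ka g0 x = 1 ∨ ka g0 x = U.u ∨ ka g0 x = U.t ∨ ka g0 x = U.t * U.u := by
  obtain ⟨A, b, hA, h⟩ := act_W ef md ls hx ht
  obtain ⟨a1, a2⟩ := ka_pi ef md hg h0 hx hA h
  cases b
  · rcases (mem_zp (u_sq U)).1 ((md.ker _ a1).1 a2) with e | e
    · exact Or.inl e
    · exact Or.inr (Or.inl e)
  · exact Or.inr (Or.inr (eq_of_pi md a1 (t_E ef) (a2.trans md.πt.symm)))

theorem ka_cen {x y : G} (hx : x ∈ U.L) (ht : x * U.t = U.t * x) (hy : y ∈ U.L)
    (ht' : y * U.t = U.t * y) : y * ka g0 x = ka g0 x * y := by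
  rcases ka_mem ef md ls hg h0 hx ht with e | e | e | e <;> rw [e]
  · simp
  · exact L_u hy
  · exact ht'
  · rw [← mul_assoc, ht', mul_assoc, L_u hy, mul_assoc]

theorem ka_mul {x y : G} (hx : x ∈ U.L) (ht : x * U.t = U.t * x) (hy : y ∈ U.L)
    (ht' : y * U.t = U.t * y) : ka g0 (x * y) = ka g0 y * ka g0 x := by
  have := ka_cen ef md ls hg h0 hy ht' hx ht
  calc ka g0 (x * y) = x * ka g0 y * x⁻¹ * ka g0 x := by simp only [ka]; group
    _ = _ := by rw [this, mul_inv_cancel_right]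

omit ls in
theorem ka_E {τ e : G} (hτ : π τ = 1) (τ2 : τ * τ = 1) (he : e ∈ U.E) (h : ka g0 e ∈ zpowers τ) :
    e * g0 = g0 * e := by
  rcases (mem_zp τ2).1 h with a | a
  · exact mul_inv_eq_iff_eq_mul.1 (mul_inv_eq_one.1 a)
  · have := (md.ker _ (mul_mem (L_E (ef.EL he) hg) (inv_mem hg))).2 (ef.com e he g0 hg)
    rw [← ka, a, hτ] at this
    exact absurd this (by decide)

include cl ty

theorem not_mem {h : G} (hL : h ∈ U.L) (ht : h * U.t = U.t * h) (h2 : h * h = 1)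
    (c1 : IsConj U.t h) (c2 : IsConj U.t (h * U.t)) : ka g0 h ∉ zpowers (ka g0 U.σ) := fun hk => by
  have hσ : U.σ ∈ U.L := ef.nA _ (by decide +kernel)
  have σt : U.σ * U.t = U.t * U.σ := psi_comm U (by decide +kernel)
  obtain ⟨τ1, τ2⟩ := ka_pi ef md hg h0 hσ (A := 1) (b := true) (by decide) md.aσ
  have τ3 : ka g0 U.σ * ka g0 U.σ = 1 := (md.sq _ τ1).2 (by rw [τ2]; decide)
  have nu : ∀ y, IsConj U.t y → ¬ IsConj U.u y := fun y a b => cl.nc (a.trans b.symm)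
  have nz : ∀ y ∈ U.E, IsConj U.t y → π y ≠ 0 := fun y hy a b =>
    ((mem_zp (u_sq U)).1 ((md.ker y hy).1 b)).elim (fun e => t_ne U (isConj_one_left.1 (e ▸ a)))
      fun e => nu y a (e ▸ IsConj.refl _)
  by_cases hE : h ∈ U.E
  · have hE' := mul_mem hE (t_E ef)
    rcases d6 (π h) (h0 ▸ (comm_iff ef md hE hg).1 (ka_E ef md hg h0 τ2 τ3 hE hk))
      (md.πt ▸ (comm_iff ef md hE (t_E ef)).1 ht) ((md.sq h hE).1 h2) with e | e
    · exact nu _ c1 (ls.cls0 _ hE (nz _ hE c1) e)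
    · exact nu _ c2 (ls.cls0 _ hE' (nz _ hE' c2) (by rw [md.add _ hE _ (t_E ef), md.πt]; exact e))
  obtain ⟨A, b, hA, ha⟩ := act_W ef md ls hL ht
  obtain ⟨m, hm, c, hc, e | e | e⟩ := ty.ty h hL hE (by rw [h2]; exact one_mem _)
  · have c2 : c * c = 1 := by
      rcases (mem_zp (u_sq U)).1 hc with rfl | rfl
      · simp
      · exact u_sq U
    have d2 : U.d * U.d = U.u := by rw [HB.d, ← map_mul, H67.T3.slF_sq, U.ιu]; rfl
    have hx := cen_zp (L_u (mul_mem (mul_mem hm ef.nd) (inv_mem hm))) hc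
    rw [e, mul_assoc _ c, ← mul_assoc c, ← hx, mul_assoc _ c, c2, mul_one,
      show m * U.d * m⁻¹ * (m * U.d * m⁻¹) = m * (U.d * U.d) * m⁻¹ by group, d2, L_u hm,
      mul_inv_cancel_right] at h2
    exact u_ne U h2
  · cases b
    · obtain ⟨A', B', b', hA', hB', hm'⟩ := ls.all m hm
      have key : ∀ f ∈ U.E, A * (A' * tw b' (π f) * B') * A.adj =
          A' * tw b' (1 * tw true (π f) * 1) * B' := fun f hf => by
        have h1 := ha _ (L_E hm hf)
        have h3 := cen_zp (E_u ef (L_E hm hf)) hc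
        rw [hm' f hf, e, show m * U.σ * m⁻¹ * c * (m * f * m⁻¹) * (m * U.σ * m⁻¹ * c)⁻¹ =
          m * U.σ * m⁻¹ * (c * (m * f * m⁻¹) * c⁻¹) * m * U.σ⁻¹ * m⁻¹ by group, ← h3,
          show m * U.σ * m⁻¹ * (m * f * m⁻¹ * c * c⁻¹) * m * U.σ⁻¹ * m⁻¹ =
            m * (U.σ * f * U.σ⁻¹) * m⁻¹ by group, hm' _ (L_E hσ hf), md.aσ f hf] at h1
        exact h1.symm
      have k1 := key _ (t_E ef)
      have k2 := key _ hg
      obtain ⟨z1, z2, z3⟩ := d8 A' hA' B' hB'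
      rw [md.πt] at k1
      rw [h0] at k2
      cases b'
      · exact (d7 _ z1 A hA k1).1 (by rw [← z2, ← z3]; exact k2)
      · exact (d7 _ z1 A hA k1).2 (by rw [← z2, ← z3]; exact k2)
    · obtain ⟨P, hP, hP'⟩ := d9 A hA fun X => by
        obtain ⟨f, hf, rfl⟩ := md.sur X
        rw [← ha f hf, ← ha _ (L_E hL hf),
          show h * (h * f * h⁻¹) * h⁻¹ = h * h * f * (h * h)⁻¹ by group, h2]
        simp
      obtain ⟨x, hx, xt, xa⟩ := exists_W ef md hP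
      have hi := inv_mem hx
      have xt' : x⁻¹ * U.t = U.t * x⁻¹ := (Commute.inv_left xt).eq
      have hσ' := inv_mem hσ
      have σt' : U.σ⁻¹ * U.t = U.t * U.σ⁻¹ := (Commute.inv_left σt).eq
      have L1 := mul_mem (mul_mem hi hL) hx
      have T1 : x⁻¹ * h * x * U.t = U.t * (x⁻¹ * h * x) :=
        (Commute.mul_left (Commute.mul_left xt' ht) xt).eq
      have σ2 : U.σ⁻¹ = U.σ := inv_eq_of_mul_eq_one_right (by
        rw [HB.σ, ← map_mul, show σ0 * σ0 = 1 by decide +kernel, map_one])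
      have hE1 : U.σ⁻¹ * (x⁻¹ * h * x) ∈ U.E := ls.ker _ (mul_mem hσ' L1) fun f hf => by
        have h1 := xa _ (L_E L1 hf)
        rw [show x * (x⁻¹ * h * x * f * (x⁻¹ * h * x)⁻¹) * x⁻¹ = h * (x * f * x⁻¹) * h⁻¹ by group,
          ha _ (L_E hx hf), xa f hf] at h1
        have h3 := congrArg (fun Y => P.adj * Y * P) ((hP' _).symm.trans h1)
        simp only [(d10 P hP).2] at h3
        rw [show U.σ⁻¹ * (x⁻¹ * h * x) * f * (U.σ⁻¹ * (x⁻¹ * h * x))⁻¹ =
          U.σ⁻¹ * (x⁻¹ * h * x * f * (x⁻¹ * h * x)⁻¹) * U.σ⁻¹⁻¹ by group, σ2, md.aσ _ (L_E L1 hf)]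
        exact (congrArg (fun Y => 1 * tw true Y * 1) h3.symm).trans (d14 _)
      have k1 : ka g0 (x⁻¹ * h * x) = ka g0 h := by
        have k2 := ka_mul ef md ls hg h0 hx xt L1 T1
        rw [show x * (x⁻¹ * h * x) = h * x by group, ka_mul ef md ls hg h0 hL ht hx xt,
          ka_cen ef md ls hg h0 hL ht (ef.EL (ka_pi ef md hg h0 hx hP xa).1)
            ((comm_iff ef md (ka_pi ef md hg h0 hx hP xa).1 (t_E ef)).2 (by
              rw [(ka_pi ef md hg h0 hx hP xa).2, md.πt]; decide))] at k2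
        exact (mul_right_cancel k2).symm
      have e1 : U.σ * (U.σ⁻¹ * (x⁻¹ * h * x)) = x⁻¹ * h * x⁻¹⁻¹ := by group
      refine not_sigma cl ef md hE1 hg h0 ?_ (ka_E ef md hg h0 τ2 τ3 hE1 ?_) ?_ ?_
      · rw [e1, show x⁻¹ * h * x⁻¹⁻¹ * (x⁻¹ * h * x⁻¹⁻¹) = x⁻¹ * (h * h) * x by group, h2]
        simp
      · rw [ka_mul ef md ls hg h0 hσ' σt' L1 T1, k1, σ2]
        exact mul_mem hk (mem_zpowers _)
      · exact c1.trans (isConj_iff.2 ⟨x⁻¹, e1.symm⟩)
      · refine c2.trans (isConj_iff.2 ⟨x⁻¹, ?_⟩)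
        rw [e1, inv_inv, mul_assoc _ x, xt]
        group
  · refine nu h c1 ?_
    have hx := cen_zp (L_u (inv_mem hm)) hc
    have : h = m * (U.w * c) * m⁻¹ := by rw [e, mul_assoc, hx]; group
    refine IsConj.trans ?_ (isConj_iff.2 ⟨m, this.symm⟩)
    rcases (mem_zp (u_sq U)).1 hc with rfl | rfl
    · rw [mul_one]
      exact conj_psi U (c := dd 1 2 4 6 * dd 5 7 6 8 * dd 7 9 10 11) (by decide +kernel)
    · rw [HB.w, HB.u, ← map_mul]
      exact conj_psi U (c := dd 1 3 2 3 * dd 6 8 7 9) (by decide +kernel)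

end

theorem k0 : K0Stmt.{u} := by
  intro G _ _ U π cl ef md ls ty kl
  obtain ⟨g0, hg, h0⟩ := md.sur Om
  have hσ : U.σ ∈ U.L := ef.nA _ (by decide +kernel)
  have σt : U.σ * U.t = U.t * U.σ := psi_comm U (by decide +kernel)
  have st : U.s * U.t = U.t * U.s := psi_comm U (by decide +kernel)
  have s2 : U.s * U.s = 1 := (md.sq _ (s_E ef)).2 (by rw [md.πs]; decide)
  have ut : U.u * U.t = U.t * U.u := (E_u ef (t_E ef)).symm
  have gt : g0 * U.t = U.t * g0 := (comm_iff ef md hg (t_E ef)).2 (by rw [h0, md.πt]; decide)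
  obtain ⟨τ1, τ2⟩ := ka_pi ef md hg h0 hσ (A := 1) (b := true) (by decide) md.aσ
  have τ3 : ka g0 U.σ * ka g0 U.σ = 1 := (md.sq _ τ1).2 (by rw [τ2]; decide)
  have τ4 := eq_of_pi md τ1 (t_E ef) (τ2.trans md.πt.symm)
  let C := centralizer ({U.t} : Set G)
  have mC : ∀ x : C, x.1 * U.t = U.t * x.1 := fun x => mem_centralizer_singleton_iff.1 x.2
  let W : Subgroup C := U.L.subgroupOf C
  let W0 : Subgroup C :=
    { carrier := {x | x.1 ∈ U.L ∧ ka g0 x.1 ∈ zpowers (ka g0 U.σ)}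
      one_mem' := ⟨one_mem _, by simp [ka]⟩
      mul_mem' := fun {a b} ha hb => ⟨mul_mem ha.1 hb.1, by
        rw [coe_mul, ka_mul ef md ls hg h0 ha.1 (mC a) hb.1 (mC b)]
        exact mul_mem hb.2 ha.2⟩
      inv_mem' := fun {a} ha => ⟨inv_mem ha.1, by
        have := ka_mul ef md ls hg h0 ha.1 (mC a) (inv_mem ha.1) (mC a⁻¹)
        rw [mul_inv_cancel, show ka g0 1 = 1 by simp [ka], eq_comm, mul_eq_one_iff_eq_inv] at this
        exact this ▸ inv_mem ha.2⟩ }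
  have hW : Odd W.index := odd_index_of_fix (P := U.E.subgroupOf C)
    (IsPGroup.comap_of_injective (IsPGroup.of_card (n := 9) ef.card) _ C.subtype_injective)
    (comap_mono ef.EL) fun g h => by
      have := eq_u ef md ls cl kl (y := g.1⁻¹ * U.u * g.1) (isConj_iff.2 ⟨g.1⁻¹, by simp⟩)
        fun e he et => by
          have := L_u (h ⟨e, mem_centralizer_singleton_iff.2 et⟩ he)
          change g.1 * e * g.1⁻¹ * U.u = U.u * (g.1 * e * g.1⁻¹) at this
          calc _ = g.1⁻¹ * (U.u * (g.1 * e * g.1⁻¹)) * g.1 := by group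
            _ = _ := by rw [← this]; group
      exact kl _ (by rw [mul_assoc, inv_mul_eq_iff_eq_mul] at this; exact this.symm)
  let s : C := ⟨U.s, mem_centralizer_singleton_iff.2 st⟩
  have ks : ka g0 U.s = U.u := ((mem_zp (u_sq U)).1 (ef.com _ (s_E ef) _ hg)).resolve_left fun e => by
    have := (comm_iff ef md (s_E ef) hg).1 (mul_inv_eq_iff_eq_mul.1 (mul_inv_eq_one.1 e))
    rw [md.πs, h0] at this
    exact absurd this (by decide)
  have uτ : U.u ∉ zpowers (ka g0 U.σ) := fun h => ((mem_zp τ3).1 h).elim (u_ne U) fun e => by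
    rw [← e, (md.ker _ ef.uE).2 (mem_zpowers _)] at τ2
    exact absurd τ2 (by decide)
  have hW0 : W0.relIndex W = 2 := index_eq_two_iff.2 ⟨⟨s, ef.EL (s_E ef)⟩, fun b => by
    have hb : b.1.1 ∈ U.L := b.2
    have e := ka_mul ef md ls hg h0 hb (mC _) (ef.EL (s_E ef)) st
    rw [ks] at e
    change Xor' (b.1.1 * U.s ∈ U.L ∧ ka g0 (b.1.1 * U.s) ∈ _) (b.1.1 ∈ U.L ∧ ka g0 b.1.1 ∈ _)
    rw [e]
    by_cases h : ka g0 b.1.1 ∈ zpowers (ka g0 U.σ)
    · exact Or.inr ⟨⟨hb, h⟩, fun a => uτ ((mul_mem_cancel_right h).1 a.2)⟩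
    · refine Or.inl ⟨⟨mul_mem hb (ef.EL (s_E ef)), ?_⟩, fun a => h a.2⟩
      rcases ka_mem ef md ls hg h0 hb (mC _) with e | e | e | e <;> rw [e] at h ⊢
      · exact absurd (one_mem _) h
      · rw [u_sq]; exact one_mem _
      · rcases τ4 with a | a
        · exact absurd (a ▸ mem_zpowers _) h
        · rw [ut, ← a]; exact mem_zpowers _
      · rcases τ4 with a | a
        · rw [← ut, ← mul_assoc, u_sq, one_mul, ← a]; exact mem_zpowers _
        · exact absurd (a ▸ mem_zpowers _) h⟩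
  have cs : IsConj U.t U.s := ls.cls1 _ (s_E ef) (by rw [md.πs]; decide)
  have cst : IsConj U.t (U.s * U.t) := ls.cls1 _ (mul_mem (s_E ef) (t_E ef)) (by
    rw [md.add _ (s_E ef) _ (t_E ef), md.πs, md.πt]; decide)
  obtain ⟨K, hK, hi, hs⟩ := H87.thompson_transfer_involution hW hW0 (x := s)
    (Subtype.ext ((pow_two _).trans s2)) fun g hm =>
      not_mem cl ef md ls ty hg h0 hm.1 (mC _) (by
        change g.1 * U.s * g.1⁻¹ * (g.1 * U.s * g.1⁻¹) = 1
        rw [show g.1 * U.s * g.1⁻¹ * (g.1 * U.s * g.1⁻¹) = g.1 * (U.s * U.s) * g.1⁻¹ by group, s2]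
        simp) (cs.trans (isConj_iff.2 ⟨g.1, rfl⟩)) (cst.trans (isConj_iff.2 ⟨g.1, by
          change _ = g.1 * U.s * g.1⁻¹ * U.t
          rw [mul_assoc _ g.1⁻¹, show g.1⁻¹ * U.t = _ from mC g⁻¹]
          simp [mul_assoc]⟩)) hm.2
  have sq : ∀ x, x * U.t = U.t * x → x * x ∈ K.map C.subtype := fun x hx =>
    ⟨_, mul_self_mem_of_index_two hi ⟨x, mem_centralizer_singleton_iff.2 hx⟩, rfl⟩
  have cm : ∀ x y, x * U.t = U.t * x → y * U.t = U.t * y → x * y * x⁻¹ * y⁻¹ ∈ K.map C.subtype :=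
    fun x y hx hy => by
      have : x * y * x⁻¹ * y⁻¹ = x * x * (x⁻¹ * y * (x⁻¹ * y)) * (y⁻¹ * y⁻¹) := by group
      rw [this]
      exact mul_mem (mul_mem (sq x hx) (sq _ (Commute.mul_left (Commute.inv_left hx) hy).eq))
        (sq _ (Commute.inv_left hy).eq)
  have uM : U.u ∈ K.map C.subtype := by
    rcases sq_eq ef md hg with ⟨a, -⟩ | ⟨-, a⟩
    · rw [h0] at a
      exact absurd a (by decide)
    · exact a ▸ sq g0 gt
  have piM : ∀ a ∈ U.E, ∀ b ∈ U.E, π a = π b → b ∈ K.map C.subtype → a ∈ K.map C.subtype :=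
    fun a ha b hb e h => (eq_of_pi md ha hb e).elim (fun e => e ▸ h) fun e => e ▸ mul_mem h uM
  have sM : U.s ∉ K.map C.subtype := fun ⟨x, hx, e⟩ => hs (by rwa [show s = x from Subtype.ext e.symm])
  have gen : ∀ A Y : M4, A.det = 1 → pol Y 1 = 0 →
      ∃ a ∈ U.E, a ∈ K.map C.subtype ∧ π a = A * Y * A.adj + Y := fun A Y hA hY => by
    obtain ⟨x, hx, xt, xa⟩ := exists_W ef md hA
    obtain ⟨y, hy, rfl⟩ := md.sur Y
    refine ⟨_, mul_mem (L_E hx hy) (inv_mem hy),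
      cm x y xt ((comm_iff ef md hy (t_E ef)).2 (md.πt ▸ hY)), ?_⟩
    rw [md.add _ (L_E hx hy) _ (inv_mem hy), pi_inv md hy, xa y hy]
    rfl
  have RM : ∀ e ∈ U.E, (π e).tr = 0 → e ∈ K.map C.subtype := fun e he h => by
    obtain ⟨A, hA, D, hD, p1, p2, p3, p4⟩ := d12 _ h
    obtain ⟨a, a1, a2, a3⟩ := gen A _ hA p1
    obtain ⟨b, b1, b2, b3⟩ := gen D _ hD p2
    obtain ⟨c, c1, c2, c3⟩ := gen D _ hD p3
    refine piM e he _ (mul_mem (mul_mem a1 b1) c1) ?_ (mul_mem (mul_mem a2 b2) c2)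
    rw [md.add _ (mul_mem a1 b1) _ c1, md.add _ a1 _ b1, a3, b3, c3]
    exact p4
  refine ⟨K.map C.subtype, map_subtype_le _, ?_, RM _ (t_E ef) (by rw [md.πt]; decide), sM,
    fun e he et => ⟨fun h => by_contra fun h' => sM ?_, RM e he⟩⟩
  · rw [relIndex, subgroupOf, comap_map_eq_self_of_injective C.subtype_injective, hi]
  · refine (mul_mem_cancel_left h).1 (RM _ (mul_mem he (s_E ef)) ?_)
    rw [md.add _ he _ (s_E ef), md.πs]
    exact d13 _ (md.πt ▸ (comm_iff ef md he (t_E ef)).1 et) h'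

end Cfsg.Agent.H71.HnK0
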