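import Cfsg.Agent.H99.HNDefs
import Cfsg.Agent.H87.Transfer

/-! The subgroup of index two in the centralizer of `t` (piece K0 of the `HN` recognition). -/

set_option autoImplicit false

universe u

namespace Cfsg.Agent.H71.HnK0

open Cfsg Subgroup MulAction
open Cfsg.Agent.H99.HN Cfsg.Agent.H99.HN.M4
open Cfsg.Agent.H4.J2S (F4)

theorem odd_index_of_fix {G : Type*} [Group G] [Finite G] {M P : Subgroup G} (hp : IsPGroup 2 P)
    (hPM : P ≤ M) (h : ∀ g, (∀ p ∈ P, g * p * g⁻¹ ∈ M) → g ∈ M) : Odd M.index := by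
  have : Fact (Nat.Prime 2) := ⟨Nat.prime_two⟩
  have h1 := hp.card_modEq_card_fixedPoints (G ⧸ M)
  have key : ∀ (p : P) (g : G), p • (g : G ⧸ M) = g ↔ g⁻¹ * p * g ∈ M := fun p g => by
    change ((p * g : G) : G ⧸ M) = g ↔ _
    rw [eq_comm, QuotientGroup.eq, mul_assoc]
  have h2 : fixedPoints P (G ⧸ M) = {((1 : G) : G ⧸ M)} := by
    ext x
    induction x using QuotientGroup.induction_on with | _ g => ?_
    simp only [mem_fixedPoints, Set.mem_singleton_iff]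
    constructor
    · intro e
      rw [QuotientGroup.eq, mul_one]
      exact h g⁻¹ fun p hp => by simpa using (key ⟨p, hp⟩ g).1 (e _)
    · intro e p
      rw [e, key]
      simpa using hPM p.2
  rw [h2] at h1
  simp only [Nat.card_unique] at h1
  rw [index_eq_card, Nat.odd_iff]
  exact h1

/-- the polar form -/
def pol (X Y : M4) : F4 := (X + Y).q + X.q + Y.q
/-- a scalar matrix -/
def Om : M4 := ⟨.w, 0, 0, .w⟩

theorem add_self (X : M4) : X + X = 0 := by revert X; decide +kernel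
theorem add_zero' (X : M4) : X + 0 = X := by revert X; decide +kernel
theorem eq_of_add {X Y : M4} (h : X + Y = 0) : X = Y := by
  have e : ∀ a b : F4, a + b = 0 → a = b := by decide
  exact M4.ext (e _ _ (congrArg M4.a h)) (e _ _ (congrArg M4.b h)) (e _ _ (congrArg M4.c h))
    (e _ _ (congrArg M4.d h))
theorem q01 : ∀ X : M4, X.q = 0 ∨ X.q = 1 := by decide +kernel
theorem d2 : ∀ A : M4, A.det = 1 → ∀ (B : M4) (b : Bool), A * tw b 1 * B = 1 → B = A.adj := by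
  decide +kernel
theorem d3 : ∀ A : M4, A.det = 1 → ∀ b : Bool, (∀ X, pol X 1 = 0 → A * tw b X * A.adj = X) →
    A = 1 ∧ b = false := by decide +kernel
theorem d4 : ∀ Y : M4, (∀ X, pol X 1 = 0 → pol Y X = 0) → Y = 0 ∨ Y = 1 := by decide +kernel
theorem d5 : ∀ A : M4, A.det = 1 → A * tw false Om * A.adj + Om = 0 ∧
    A * tw true Om * A.adj + Om = 1 := by decide +kernel
theorem d6 : ∀ X : M4, pol X Om = 0 → pol X 1 = 0 → X.q = 0 → X.det = 0 ∨ (X + 1).det = 0 := by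
  decide +kernel
theorem d7 : ∀ Z : M4, Z.det = 1 → ∀ A : M4, A.det = 1 → A * Z * A.adj = Z →
    A * (Z * Om) * A.adj ≠ Z * (Om + 1) ∧ A * (Z * (Om + 1)) * A.adj ≠ Z * Om := by decide +kernel
theorem d8 : ∀ A : M4, A.det = 1 → ∀ B : M4, B.det = 1 → (A * 1 * B).det = 1 ∧
    A * Om * B = A * 1 * B * Om ∧ A * (Om + 1) * B = A * 1 * B * (Om + 1) := by decide +kernel
theorem d9 : ∀ A : M4, A.det = 1 → (∀ X, A * tw true (A * tw true X * A.adj) * A.adj = X) →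
    ∃ P : M4, P.det = 1 ∧ ∀ X, A * tw true (P * X * P.adj) * A.adj = P * tw true X * P.adj := by
  decide +kernel
theorem d10 : ∀ P : M4, P.det = 1 → P * 1 * P.adj = 1 ∧ ∀ Y, P.adj * (P * Y * P.adj) * P = Y := by
  decide +kernel
theorem d11 : ∀ Y : M4, Y.a = 0 ∧ Y.d = 0 ∧ 1 * tw true Y * 1 = Y ∧ Y ≠ 0 → ∀ Z : M4,
    Z.a = 0 ∧ Z.d = 0 ∧ 1 * tw true Z * 1 = Z ∧ Z ≠ 0 ∧ Y + Z ≠ 0 → ∀ X : M4,
    1 * tw true X * 1 = X → pol X Om = 0 → X = 0 ∨ X = Y ∨ X = Z ∨ X = Y + Z ∨ X = 1 ∨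
      X = Y + 1 ∨ X = Z + 1 ∨ X = Y + Z + 1 := by decide +kernel
theorem d12 : ∀ X : M4, X.tr = 0 → ∃ A : M4, A.det = 1 ∧ ∃ D : M4, D.det = 1 ∧
    pol ⟨0, 0, X.a, 0⟩ 1 = 0 ∧ pol ⟨0, .v * (X.a + X.b), 0, 0⟩ 1 = 0 ∧ pol ⟨0, 0, .w * X.c, 0⟩ 1 = 0 ∧
    X = (A * ⟨0, 0, X.a, 0⟩ * A.adj + ⟨0, 0, X.a, 0⟩) +
      (D * ⟨0, .v * (X.a + X.b), 0, 0⟩ * D.adj + ⟨0, .v * (X.a + X.b), 0, 0⟩) +
      (D * ⟨0, 0, .w * X.c, 0⟩ * D.adj + ⟨0, 0, .w * X.c, 0⟩) := fun X h =>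
  ⟨⟨1, 1, 0, 1⟩, by decide, ⟨.w, 0, 0, .v⟩, by decide, by revert X; decide +kernel⟩
theorem d13 : ∀ X : M4, pol X 1 = 0 → X.tr ≠ 0 → (X + ⟨.w, 0, 0, .v⟩).tr = 0 := by decide +kernel
theorem d14 : ∀ X : M4, 1 * tw true (tw true X) * 1 = 1 * tw false X * 1 := by decide +kernel

variable {G : Type u} [Group G] {U : HB G} {π : G → M4}

theorem u_sq (U : HB G) : U.u * U.u = 1 := by
  rw [HB.u, ← map_mul, show u0 * u0 = 1 by decide +kernel, map_one]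

theorem u_ne (U : HB G) : U.u ≠ 1 := fun e =>
  absurd (U.inj (e.trans (map_one _).symm)) (by decide +kernel)

theorem t_ne (U : HB G) : U.t ≠ 1 := fun e =>
  absurd (U.inj (e.trans (map_one _).symm)) (by decide +kernel)

theorem mem_zp {x y : G} (h : x * x = 1) : y ∈ zpowers x ↔ y = 1 ∨ y = x := by
  refine ⟨fun ⟨n, hn⟩ => ?_, fun e => e.elim (fun e => e ▸ one_mem _) fun e => e ▸ mem_zpowers _⟩
  have h2 : x ^ (2 : ℤ) = 1 := (zpow_two x).trans h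
  rcases Int.even_or_odd' n with ⟨k, rfl | rfl⟩
  · exact Or.inl (by rw [← hn]; dsimp only; rw [zpow_mul, h2, one_zpow])
  · exact Or.inr (by rw [← hn]; dsimp only; rw [zpow_add, zpow_mul, h2, one_zpow, one_mul, zpow_one])

theorem psi_comm (U : HB G) {a b : A12} (h : a * b = b * a) : U.ψ a * U.ψ b = U.ψ b * U.ψ a := by
  rw [← map_mul, h, map_mul]

theorem L_u {g : G} (h : g ∈ U.L) : g * U.u = U.u * g := mem_centralizer_singleton_iff.1 h.1

theorem L_E {g e : G} (h : g ∈ U.L) (he : e ∈ U.E) : g * e * g⁻¹ ∈ U.E :=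
  (mem_normalizer_iff.1 h.2 e).1 he

section

variable (ef : U.EF) (md : U.MD π)
include ef

theorem V3_E {γ : A12} (h : γ ∈ V30) : U.ψ γ ∈ U.E := by
  have h1 : U.ψ γ ∈ V30.map U.ψ := mem_map_of_mem _ h
  rw [← ef.dV] at h1
  refine mem_sup_right (pointwise_smul_le_pointwise_smul_iff.2 (map_mono ?_) h1)
  exact closure_mono (by simp [Set.insert_subset_iff])

theorem t_E : U.t ∈ U.E := V3_E ef (subset_closure (by simp))

theorem s_E : U.s ∈ U.E := V3_E ef (subset_closure (by simp))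

theorem E_u {e : G} (h : e ∈ U.E) : e * U.u = U.u * e := L_u (ef.EL h)

omit ef in
theorem cen_zp {g c : G} (hg : g * U.u = U.u * g) (hc : c ∈ zpowers U.u) : g * c = c * g := by
  rcases (mem_zp (u_sq U)).1 hc with rfl | rfl
  · simp
  · exact hg

include md

theorem pi_mul_zp {e c : G} (he : e ∈ U.E) (hc : c ∈ zpowers U.u) : π (e * c) = π e := by
  have h := zpowers_le.2 ef.uE hc
  rw [md.add e he c h, (md.ker c h).2 hc, add_zero']

omit ef in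
theorem pi_inv {e : G} (he : e ∈ U.E) : π e⁻¹ = π e := eq_of_add (by
  rw [← md.add _ (inv_mem he) _ he, inv_mul_cancel]
  exact (md.ker 1 (one_mem _)).2 (one_mem _))

omit ef in
theorem eq_of_pi {a b : G} (ha : a ∈ U.E) (hb : b ∈ U.E) (h : π a = π b) :
    a = b ∨ a = b * U.u := by
  have := (md.ker _ (mul_mem (inv_mem hb) ha)).1 (by
    rw [md.add _ (inv_mem hb) _ ha, pi_inv md hb, h, add_self])
  exact ((mem_zp (u_sq U)).1 this).imp (fun e => (inv_mul_eq_one.1 e).symm)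
    fun e => inv_mul_eq_iff_eq_mul.1 e

theorem sq_eq {a : G} (ha : a ∈ U.E) : (π a).q = 0 ∧ a * a = 1 ∨ (π a).q = 1 ∧ a * a = U.u := by
  rcases q01 (π a) with h | h
  · exact Or.inl ⟨h, (md.sq a ha).2 h⟩
  · refine Or.inr ⟨h, ((mem_zp (u_sq U)).1 (ef.sq a ha)).resolve_left fun e => ?_⟩
    rw [(md.sq a ha).1 e] at h
    exact absurd h (by decide)

theorem comm_iff {a b : G} (ha : a ∈ U.E) (hb : b ∈ U.E) :
    a * b = b * a ↔ pol (π a) (π b) = 0 := by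
  have hu := u_sq U
  have hn := u_ne U
  have h1 := sq_eq ef md ha
  have h2 := sq_eq ef md hb
  have h3 := sq_eq ef md (mul_mem ha hb)
  have h4 := ef.com b hb a ha
  have h5 : a * b * (a * b) = b * a * b⁻¹ * a⁻¹ * (a * a * (b * b)) := by
    rw [← mul_assoc _ (a * a), ← mul_assoc _ a a, mul_assoc _ a (b * b),
      ← cen_zp (E_u ef ha) h4]
    have := cen_zp (E_u ef hb) (ef.sq a ha)
    group
  rw [md.add a ha b hb, h5] at h3
  have h6 : a * b = b * a ↔ b * a * b⁻¹ * a⁻¹ = 1 := by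
    rw [mul_inv_eq_one, mul_inv_eq_iff_eq_mul, eq_comm]
  rw [h6, pol]
  rcases (mem_zp hu).1 h4 with e | e <;> rw [e] at h3 ⊢ <;>
  rcases h1 with ⟨a1, a2⟩ | ⟨a1, a2⟩ <;> rcases h2 with ⟨b1, b2⟩ | ⟨b1, b2⟩ <;>
  rcases h3 with ⟨c1, c2⟩ | ⟨c1, c2⟩ <;> rw [a1, b1, c1] <;> rw [a2, b2] at c2 <;>
  simp [hu, hn, hn.symm] at c2 ⊢ <;> decide

theorem exists_W {P : M4} (hP : P.det = 1) :
    ∃ x ∈ U.L, x * U.t = U.t * x ∧ U.Act π x P P.adj false := by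
  obtain ⟨g, hg, h⟩ := md.ex P P.adj hP (by revert P; decide +kernel)
  have h1 := h _ (t_E ef)
  rw [md.πt] at h1
  rcases eq_of_pi md (L_E hg (t_E ef)) (t_E ef) (h1.trans ((d10 P hP).1.trans md.πt.symm)) with e | e
  · exact ⟨g, hg, mul_inv_eq_iff_eq_mul.1 e, h⟩
  obtain ⟨a, ha, e'⟩ := md.sur ⟨.w, 0, 0, 0⟩
  have h2 : ∀ e ∈ U.E, π (a * e * a⁻¹) = π e := fun e he => by
    rw [show a * e * a⁻¹ = e * (e⁻¹ * a * e⁻¹⁻¹ * a⁻¹) by group]
    exact pi_mul_zp ef md he (ef.com _ (inv_mem he) _ ha)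
  refine ⟨a * g, mul_mem (ef.EL ha) hg, mul_inv_eq_iff_eq_mul.1 ?_, fun e he => ?_⟩
  · rcases eq_of_pi md (L_E (ef.EL ha) (t_E ef)) (t_E ef) (h2 _ (t_E ef)) with e2 | e2
    · have := (comm_iff ef md ha (t_E ef)).1 (mul_inv_eq_iff_eq_mul.1 e2)
      rw [e', md.πt] at this
      exact absurd this (by decide)
    · rw [show a * g * U.t * (a * g)⁻¹ = a * (g * U.t * g⁻¹) * a⁻¹ by group, e, ← mul_assoc,
        mul_assoc _ U.u, ← E_u ef (inv_mem ha), ← mul_assoc, e2, mul_assoc, u_sq, mul_one]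
  · rw [show a * g * e * (a * g)⁻¹ = a * (g * e * g⁻¹) * a⁻¹ by group, h2 _ (L_E hg he), h e he]

variable (ls : U.LS π)
include ls

theorem act_W {x : G} (hx : x ∈ U.L) (ht : x * U.t = U.t * x) :
    ∃ A b, M4.det A = 1 ∧ U.Act π x A A.adj b := by
  obtain ⟨A, B, b, hA, -, h⟩ := ls.all x hx
  have := h _ (t_E ef)
  rw [ht, mul_inv_cancel_right, md.πt] at this
  exact ⟨A, b, hA, d2 A hA B b this.symm ▸ h⟩

theorem eq_u (cl : U.CL) (kl : U.KL) {y : G} (hy : IsConj U.u y)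
    (h : ∀ e ∈ U.E, e * U.t = U.t * e → y * e = e * y) : y = U.u := by
  have hL := kl y (h _ ef.uE (E_u ef (t_E ef)).symm)
  obtain ⟨A, b, hA, ha⟩ := act_W ef md ls hL (h _ (t_E ef) rfl)
  have k : ∀ X, pol X 1 = 0 → ∃ e ∈ U.E, π e = X ∧ y * e = e * y := fun X hX => by
    obtain ⟨e, he, rfl⟩ := md.sur X
    exact ⟨e, he, rfl, h e he ((comm_iff ef md he (t_E ef)).2 (md.πt ▸ hX))⟩
  obtain ⟨rfl, rfl⟩ := d3 A hA b fun X hX => by
    obtain ⟨e, he, rfl, e'⟩ := k X hX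
    rw [← ha e he, e', mul_inv_cancel_right]
  have hE := ls.ker y hL ha
  rcases d4 (π y) (fun X hX => by
    obtain ⟨e, he, rfl, e'⟩ := k X hX
    exact (comm_iff ef md hE he).1 e') with e | e
  · exact ((mem_zp (u_sq U)).1 ((md.ker y hE).1 e)).resolve_left fun e' =>
      u_ne U (isConj_one_left.1 (e' ▸ hy))
  · exact absurd ((ls.cls1 y hE (by rw [e]; decide)).trans hy.symm) cl.nc

end

theorem conj_psi (U : HB G) {c v : A12} (h : c * u0 * c⁻¹ = v) : IsConj U.u (U.ψ v) :=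
  isConj_iff.2 ⟨U.ψ c, by rw [← h, map_mul, map_mul, map_inv]; rfl⟩

/-- `(0 1)(2 3)` -/
def y1 : A12 := dd 0 1 2 3

theorem not_sigma (cl : U.CL) (ef : U.EF) (md : U.MD π) {e g0 : G} (he : e ∈ U.E) (hg : g0 ∈ U.E)
    (h0 : π g0 = Om) (h1 : U.σ * e * (U.σ * e) = 1) (h2 : e * g0 = g0 * e)
    (h3 : IsConj U.t (U.σ * e)) (h4 : IsConj U.t (U.σ * e * U.t)) : False := by
  have hσ : U.σ ∈ U.L := ef.nA _ (by decide +kernel)
  have σ2 : U.σ⁻¹ = U.σ := inv_eq_of_mul_eq_one_right (by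
    rw [HB.σ, ← map_mul, show σ0 * σ0 = 1 by decide +kernel, map_one])
  have fin : ∀ γ c c' : A12, U.ψ γ ∈ U.E → π e = π (U.ψ γ) →
      (c * u0 * c⁻¹ = σ0 * γ ∨ c * u0 * c⁻¹ = σ0 * γ * t0) →
      (c' * u0 * c'⁻¹ = σ0 * (γ * u0) ∨ c' * u0 * c'⁻¹ = σ0 * (γ * u0) * t0) → False :=
    fun γ c c' hγ e1 a b => by
      have key : ∀ γ c : A12, e = U.ψ γ → (c * u0 * c⁻¹ = σ0 * γ ∨ c * u0 * c⁻¹ = σ0 * γ * t0) →
          False := fun γ c e1 a => by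
        rcases a with a | a
        · exact cl.nc (h3.trans (by rw [e1, HB.σ, ← map_mul]; exact (conj_psi U a).symm))
        · exact cl.nc (h4.trans (by
            rw [e1, HB.σ, HB.t, ← map_mul, ← map_mul]; exact (conj_psi U a).symm))
      rcases eq_of_pi md he hγ e1 with e2 | e2
      · exact key γ c e2 a
      · exact key (γ * u0) c' (by rw [e2, map_mul]; rfl) b
  have p1 : U.ψ y1 ∈ U.Ep := mem_map_of_mem _ (subset_closure (by simp [y1]))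
  have p2 : U.ψ x2 ∈ U.Ep := mem_map_of_mem _ (subset_closure (by simp))
  have q1 : U.ψ y1 ∈ U.E := mem_sup_left p1
  have q2 : U.ψ x2 ∈ U.E := mem_sup_left p2
  have qt : U.ψ t0 ∈ U.E := t_E ef
  have fx : ∀ γ, U.ψ γ ∈ U.E → σ0 * γ = γ * σ0 → 1 * tw true (π (U.ψ γ)) * 1 = π (U.ψ γ) :=
    fun γ hγ h => by rw [← md.aσ _ hγ, HB.σ, psi_comm U h, mul_inv_cancel_right]
  have ne : ∀ γ, U.ψ γ ∈ U.E → γ ≠ 1 → γ ≠ u0 → π (U.ψ γ) ≠ 0 := fun γ hγ a b h =>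
    ((mem_zp (u_sq U)).1 ((md.ker _ hγ).1 h)).elim (fun e => a (U.inj (e.trans (map_one _).symm)))
      fun e => b (U.inj e)
  have s12 : π (U.ψ (y1 * x2)) = π (U.ψ y1) + π (U.ψ x2) := by rw [map_mul, md.add _ q1 _ q2]
  have q12 : U.ψ (y1 * x2) ∈ U.E := by rw [map_mul]; exact mul_mem q1 q2
  have st : ∀ γ, U.ψ γ ∈ U.E → U.ψ (γ * t0) ∈ U.E ∧ π (U.ψ γ) + 1 = π (U.ψ (γ * t0)) :=
    fun γ hγ => by
      rw [map_mul, md.add _ hγ _ qt, ← md.πt]
      exact ⟨mul_mem hγ qt, rfl⟩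
  have h5 : 1 * tw true (π e) * 1 = π e := by
    rw [← md.aσ e he, σ2, ← pi_inv md he,
      eq_inv_of_mul_eq_one_left (show U.σ * e * U.σ * e = 1 by rw [← h1, mul_assoc])]
  rcases d11 _ ⟨(md.πp _ p1).1, (md.πp _ p1).2, fx _ q1 (by decide +kernel),
      ne _ q1 (by decide +kernel) (by decide +kernel)⟩ _
    ⟨(md.πp _ p2).1, (md.πp _ p2).2, fx _ q2 (by decide +kernel),
      ne _ q2 (by decide +kernel) (by decide +kernel),
      s12 ▸ ne _ q12 (by decide +kernel) (by decide +kernel)⟩ _ h5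
    (h0 ▸ (comm_iff ef md he hg).1 h2) with e1 | e1 | e1 | e1 | e1 | e1 | e1 | e1
  · exact fin 1 (dd 1 2 4 8 * dd 5 9 6 10 * dd 7 11 10 11) (dd 1 3 2 3) (by simp)
      (by rw [e1, map_one]; exact ((md.ker 1 (one_mem _)).2 (one_mem _)).symm)
      (by decide +kernel) (by decide +kernel)
  · exact fin y1 (dd 1 3 2 3 * dd 4 8 5 9 * dd 6 10 7 11) (dd 1 2 10 11) q1 e1
      (by decide +kernel) (by decide +kernel)
  · exact fin x2 (dd 0 4 1 6 * dd 2 5 3 7 * dd 4 8 5 9 * dd 6 10 7 11 * dd 9 10 10 11) (dd 5 7 6 7)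
      q2 e1 (by decide +kernel) (by decide +kernel)
  · exact fin (y1 * x2) (dd 5 6 10 11)
      (dd 0 4 1 7 * dd 2 5 3 6 * dd 4 8 5 9 * dd 6 10 7 11 * dd 9 11 10 11) q12 (e1.trans s12.symm)
      (by decide +kernel) (by decide +kernel)
  · exact fin t0 (dd 1 2 4 8 * dd 5 9 6 10 * dd 7 11 10 11) (dd 1 3 2 3) qt (e1.trans md.πt.symm)
      (by decide +kernel) (by decide +kernel)
  · exact fin (y1 * t0) (dd 1 3 2 3 * dd 4 8 5 9 * dd 6 10 7 11) (dd 1 2 10 11) (st _ q1).1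
      (e1.trans (st _ q1).2) (by decide +kernel) (by decide +kernel)
  · exact fin (x2 * t0) (dd 0 4 1 6 * dd 2 5 3 7 * dd 4 8 5 9 * dd 6 10 7 11 * dd 9 10 10 11)
      (dd 5 7 6 7) (st _ q2).1 (e1.trans (st _ q2).2) (by decide +kernel) (by decide +kernel)
  · exact fin (y1 * x2 * t0) (dd 5 6 10 11)
      (dd 0 4 1 7 * dd 2 5 3 6 * dd 4 8 5 9 * dd 6 10 7 11 * dd 9 11 10 11) (st _ q12).1
      (by rw [e1, ← s12, (st _ q12).2]) (by decide +kernel) (by decide +kernel)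

end Cfsg.Agent.H71.HnK0
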