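import Mathlib

/-! A model of the semidihedral group of order 16. -/

set_option autoImplicit false

namespace Cfsg.Agent.H71

/-- `y ^ i * a ^ j` -/
def SD : Type := ZMod 8 × Bool

namespace SD

instance : DecidableEq SD := inferInstanceAs (DecidableEq (ZMod 8 × Bool))
instance : Fintype SD := inferInstanceAs (Fintype (ZMod 8 × Bool))
instance : Mul SD := ⟨fun m n => (m.1 + (bif m.2 then 3 * n.1 else n.1), xor m.2 n.2)⟩
instance : One SD := ⟨(0, false)⟩
instance : Inv SD := ⟨fun m => (bif m.2 then -(3 * m.1) else -m.1, m.2)⟩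
instance : Group SD :=
  Group.ofLeftAxioms (by decide +kernel) (by decide +kernel) (by decide +kernel)

def Y : SD := (1, false)
def A : SD := (0, true)
def Z : SD := (4, false)
def W : SD := (2, false)
def Q : SD := (1, true)

/-- the outer automorphism `y ↦ y ^ 5`, `a ↦ a` -/
def φ (m : SD) : SD := (5 * m.1, m.2)

/-- the pairs satisfy the same short relations -/
def Sim (m₀ n₀ m n : SD) : Prop :=
  (m * m = 1 ↔ m₀ * m₀ = 1) ∧ (n * n = 1 ↔ n₀ * n₀ = 1) ∧
  (m * m * (m * m) = 1 ↔ m₀ * m₀ * (m₀ * m₀) = 1) ∧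
  (n * n * (n * n) = 1 ↔ n₀ * n₀ * (n₀ * n₀) = 1) ∧ (m = 1 ↔ m₀ = 1) ∧ (n = 1 ↔ n₀ = 1) ∧
  (m = n ↔ m₀ = n₀) ∧ (m * n = n * m ↔ m₀ * n₀ = n₀ * m₀)

instance (a b c d : SD) : Decidable (Sim a b c d) := by unfold Sim; infer_instance

def Gen (m₀ m n : SD) : Prop := ∃ i j : Fin 4, m₀ = m ^ i.val * n ^ j.val

instance (a b c : SD) : Decidable (Gen a b c) := by unfold Gen; infer_instance

/-- membership in the four-group `⟨z, a⟩` -/
def InV (m : SD) : Prop := m = 1 ∨ m = Z ∨ m = A ∨ m = A * Z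

instance (a : SD) : Decidable (InV a) := by unfold InV; infer_instance

theorem genV : ∀ m n, Sim Z A m n → ∃ d, Gen Z (d * m * d⁻¹) (d * n * d⁻¹) ∧
    Gen A (d * m * d⁻¹) (d * n * d⁻¹) := by decide +kernel

theorem genQ : ∀ m n, Sim W Q m n → ∃ d, Gen W (d * m * d⁻¹) (d * n * d⁻¹) ∧
    Gen Q (d * m * d⁻¹) (d * n * d⁻¹) := by decide +kernel

theorem autY : ∀ m n, Sim Y A m n → ∃ d, d * A * d⁻¹ = n ∧
    (d * Y * d⁻¹ = m ∨ d * φ Y * d⁻¹ = m) := by decide +kernel

theorem simZ : ∀ m n, Sim Y A m n → m * m * (m * m) = Z := by decide +kernel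

theorem cV : ∀ m, m * Z = Z * m → m * A = A * m → InV m := by decide +kernel
theorem cQ : ∀ m, m * W = W * m → m * Q = Q * m → m = 1 ∨ m = Z := by decide +kernel
theorem cD : ∀ m, m * Y = Y * m → m * A = A * m → m = 1 ∨ m = Z := by decide +kernel
theorem invol : ∀ m : SD, m * m = 1 → m = 1 ∨ m = Z ∨ ∃ e, m = e * A * e⁻¹ := by decide +kernel
theorem invφ : ∀ d, d * φ d = 1 → ∃ e, d = e * 1 * (φ e)⁻¹ ∨ d = e * A * (φ e)⁻¹ ∨
    d = e * Q * (φ e)⁻¹ := by decide +kernel
theorem nf : ∀ m, ∃ (i : Fin 8) (j : Fin 2), m = Y ^ i.val * A ^ j.val ∧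
    φ m = φ Y ^ i.val * A ^ j.val := by decide +kernel
theorem not_inner : ∀ d, d * Y * d⁻¹ ≠ φ Y := by decide +kernel

variable {X : Type*} [Group X] {y a : X}

theorem exists_hom (hy : orderOf y = 8) (ha : a * a = 1) (hay : a * y * a = y ^ 3) :
    ∃ ι : SD →* X, Function.Injective ι ∧ ι Y = y ∧ ι A = a := by
  have h0 : ∀ n : ℕ, y ^ (n % 8) = y ^ n := fun n => by rw [← hy, pow_mod_orderOf]
  have h1 : ∀ i k : ZMod 8, y ^ (i + k).val = y ^ i.val * y ^ k.val := fun i k => by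
    rw [ZMod.val_add, ← pow_add, h0]
  have hi : a⁻¹ = a := inv_eq_of_mul_eq_one_right ha
  have h2 : ∀ k : ZMod 8, a * y ^ k.val = y ^ (3 * k).val * a := fun k => by
    have e : a * y ^ k.val * a⁻¹ = (y ^ 3) ^ k.val := by rw [← conj_pow, hi, hay]
    rw [ZMod.val_mul, show (3 : ZMod 8).val = 3 from rfl, ← mul_inv_eq_iff_eq_mul, e, ← pow_mul, h0]
  let ι : SD →* X := MonoidHom.mk' (fun m => y ^ m.1.val * bif m.2 then a else 1) (by
    rintro ⟨i, j⟩ ⟨k, l⟩
    change y ^ (i + (bif j then 3 * k else k)).val * (bif xor j l then a else 1) =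
      y ^ i.val * (bif j then a else 1) * (y ^ k.val * bif l then a else 1)
    cases j <;> cases l <;>
      simp only [cond_true, cond_false, Bool.xor_false, Bool.xor_true, Bool.not_false,
        Bool.not_true, h1, mul_one, mul_assoc]
    · rw [h2]
    · rw [← mul_assoc a, h2, mul_assoc, ha, mul_one])
  refine ⟨ι, (injective_iff_map_eq_one ι).2 ?_, ?_, ?_⟩
  · rintro ⟨i, j⟩ h
    change y ^ i.val * (bif j then a else 1) = 1 at h
    cases j
    · rw [cond_false, mul_one, ← orderOf_dvd_iff_pow_eq_one, hy] at h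
      have : i = 0 := by
        rw [← ZMod.val_eq_zero]
        exact Nat.eq_zero_of_dvd_of_lt h (ZMod.val_lt i)
      rw [this]; rfl
    · exfalso
      rw [cond_true] at h
      have h3 : a * y = y * a := by
        rw [eq_inv_of_mul_eq_one_right h]
        exact ((Commute.refl y).pow_left _).inv_left
      rw [h3, mul_assoc, ha, mul_one] at hay
      have h4 : y ^ 2 = 1 :=
        mul_right_cancel (b := y) (by rw [one_mul, ← pow_succ]; exact hay.symm)
      have := orderOf_dvd_of_pow_eq_one h4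
      rw [hy] at this
      exact absurd this (by decide)
  · change y ^ (1 : ZMod 8).val * 1 = y
    rw [mul_one, show (1 : ZMod 8).val = 1 from rfl, pow_one]
  · change y ^ (0 : ZMod 8).val * a = a
    rw [ZMod.val_zero, pow_zero, one_mul]

end SD

end Cfsg.Agent.H71
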