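import Cfsg.Agent.H40.L3Defs
import Cfsg.Agent.H81.ZCor
import Cfsg.Agent.H71.L3SD

/-! Project L33, piece OUT: 2-automorphisms of a group with semidihedral Sylow subgroup. -/

set_option autoImplicit false

namespace Cfsg.Agent.H71.L3Out

open Subgroup Cfsg.Agent.H83 Cfsg.Agent.H71.SD

universe u

/-- the data -/
structure Cx (X : Type u) [Group X] where
  K : Subgroup X
  S : Subgroup X
  ι : SD →* X
  inj : Function.Injective ι
  Kn : K.Normal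
  syl : IsSylowIn 2 S ⊤
  SK : S ⊓ K = ι.range
  cK : ∀ x, (∀ k ∈ K, x * k = k * x) → x = 1
  oK : oddCore K = ⊥
  ρ : X
  κ : X
  ρK : ρ ∈ K
  κK : κ ∈ K
  ρ1 : ρ * ι Z * ρ⁻¹ = ι A
  ρ2 : ρ * ι A * ρ⁻¹ = ι (A * Z)
  κ1 : κ * ι W * κ⁻¹ = ι Q ∨ κ * ι W * κ⁻¹ = ι (Q * Z)
  κ2 : κ * ι Q * κ⁻¹ = ι (W * Q) ∨ κ * ι Q * κ⁻¹ = ι (W * Q * Z)

instance fact2 : Fact (Nat.Prime 2) := ⟨Nat.prime_two⟩

variable {X : Type u} [Group X] (c : Cx X)

namespace Cx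

theorem ιS (m : SD) : c.ι m ∈ c.S := (c.SK.ge ⟨m, rfl⟩).1
theorem ιK (m : SD) : c.ι m ∈ c.K := (c.SK.ge ⟨m, rfl⟩).2
theorem ex {x : X} (h1 : x ∈ c.S) (h2 : x ∈ c.K) : ∃ m, c.ι m = x := c.SK.le ⟨h1, h2⟩

theorem Rmul {h : X} {a a' b b' : SD} (ha : h * c.ι a * h⁻¹ = c.ι a')
    (hb : h * c.ι b * h⁻¹ = c.ι b') : h * c.ι (a * b) * h⁻¹ = c.ι (a' * b') := by
  rw [map_mul, map_mul, ← ha, ← hb]; group

theorem Rpow {h : X} {a a' : SD} (ha : h * c.ι a * h⁻¹ = c.ι a') (n : ℕ) :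
    h * c.ι (a ^ n) * h⁻¹ = c.ι (a' ^ n) := by rw [map_pow, map_pow, ← ha, conj_pow]

theorem Rone (h : X) : h * c.ι 1 * h⁻¹ = c.ι 1 := by rw [map_one]; group

theorem Riff {h : X} {a a' b b' : SD} (ha : h * c.ι a * h⁻¹ = c.ι a')
    (hb : h * c.ι b * h⁻¹ = c.ι b') : a' = b' ↔ a = b := by
  rw [← c.inj.eq_iff, ← ha, ← hb, mul_left_inj, mul_right_inj, c.inj.eq_iff]

theorem sim {h : X} {a a' b b' : SD} (ha : h * c.ι a * h⁻¹ = c.ι a')
    (hb : h * c.ι b * h⁻¹ = c.ι b') : Sim a b a' b' :=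
  ⟨c.Riff (c.Rmul ha ha) (c.Rone h), c.Riff (c.Rmul hb hb) (c.Rone h),
    c.Riff (c.Rmul (c.Rmul ha ha) (c.Rmul ha ha)) (c.Rone h),
    c.Riff (c.Rmul (c.Rmul hb hb) (c.Rmul hb hb)) (c.Rone h), c.Riff ha (c.Rone h),
    c.Riff hb (c.Rone h), c.Riff ha hb, c.Riff (c.Rmul ha hb) (c.Rmul hb ha)⟩

/-- the centraliser of two elements -/
def C (m n : SD) : Subgroup X := centralizer {c.ι m, c.ι n}

theorem mem_C {m n : SD} {x : X} : x ∈ c.C m n ↔ Commute x (c.ι m) ∧ Commute x (c.ι n) := by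
  rw [C, mem_centralizer_iff]
  simp only [Set.mem_insert_iff, Set.mem_singleton_iff, forall_eq_or_imp, forall_eq]
  exact and_congr eq_comm eq_comm

theorem comm_gen {x : X} {a m n : SD} (h : Gen a m n) (hx : x ∈ c.C m n) : Commute x (c.ι a) := by
  obtain ⟨i, j, rfl⟩ := h
  rw [map_mul, map_pow, map_pow]
  exact ((c.mem_C.1 hx).1.pow_right _).mul_right ((c.mem_C.1 hx).2.pow_right _)

theorem conj_C {h x : X} {a a' b b' : SD} (ha : h * c.ι a * h⁻¹ = c.ι a')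
    (hb : h * c.ι b * h⁻¹ = c.ι b') (hx : x ∈ c.C a b) : h * x * h⁻¹ ∈ c.C a' b' := by
  rw [mem_C, ← ha, ← hb]
  exact ⟨(c.mem_C.1 hx).1.conj h, (c.mem_C.1 hx).2.conj h⟩

theorem comm_ι {a b : SD} : Commute (c.ι a) (c.ι b) ↔ a * b = b * a := by
  rw [commute_iff_eq, ← map_mul, ← map_mul, c.inj.eq_iff]

theorem commV {u : X} (hu : u ∈ c.C Z A) {v : SD} (hv : InV v) : Commute u (c.ι v) := by
  obtain ⟨h1, h2⟩ := c.mem_C.1 hu
  rcases hv with rfl | rfl | rfl | rfl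
  · rw [map_one]; exact Commute.one_right u
  · exact h1
  · exact h2
  · rw [map_mul]; exact h2.mul_right h1

theorem commD {u : X} (hu : u ∈ c.C Y A) (m : SD) : Commute u (c.ι m) := by
  obtain ⟨i, j, e, -⟩ := nf m
  rw [e, map_mul, map_pow, map_pow]
  exact ((c.mem_C.1 hu).1.pow_right _).mul_right ((c.mem_C.1 hu).2.pow_right _)

theorem actφ {g : X} (h1 : g * c.ι Y * g⁻¹ = c.ι (φ Y)) (h2 : g * c.ι A * g⁻¹ = c.ι A) (m : SD) :
    g * c.ι m * g⁻¹ = c.ι (φ m) := by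
  obtain ⟨i, j, e, e'⟩ := nf m
  rw [e']
  conv_lhs => rw [e]
  exact c.Rmul (c.Rpow h1 _) (c.Rpow h2 _)

variable [Finite X]

theorem sylC {m₀ n₀ : SD} (H : ∀ m n, Sim m₀ n₀ m n → ∃ d, Gen m₀ (d * m * d⁻¹) (d * n * d⁻¹) ∧
    Gen n₀ (d * m * d⁻¹) (d * n * d⁻¹)) : IsSylowIn 2 (c.S ⊓ c.C m₀ n₀) (c.C m₀ n₀) := by
  refine ⟨inf_le_right, c.syl.isPGroup.to_inf_left, fun P hP hp hle => ?_⟩
  have hU : closure {c.ι m₀, c.ι n₀} ≤ c.S := (closure_le _).2 (by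
    rintro _ (rfl | rfl) <;> exact c.ιS _)
  have h2 := isPGroup_sup hp (c.syl.isPGroup.to_le hU)
    (hP.trans ((centralizer_closure _).ge.trans (centralizer_le_normalizer _)))
  obtain ⟨h, -, hh⟩ := c.syl.exists_conj_le le_top h2
  obtain ⟨m, hm⟩ := c.ex (hh (conj_mem_cj (mem_sup_right (subset_closure (Or.inl rfl)))))
    (c.Kn.conj_mem _ (c.ιK m₀) h)
  obtain ⟨n, hn⟩ := c.ex (hh (conj_mem_cj (mem_sup_right (subset_closure (Or.inr rfl)))))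
    (c.Kn.conj_mem _ (c.ιK n₀) h)
  obtain ⟨d, h1, h2⟩ := H m n (c.sim hm.symm hn.symm)
  have key : cj (c.ι d * h) P ≤ c.S ⊓ c.C m₀ n₀ := by
    rintro _ ⟨x, hx, rfl⟩
    have e : (MulAut.conj (c.ι d * h)).toMonoidHom x = c.ι d * (h * x * h⁻¹) * (c.ι d)⁻¹ := by
      simp [mul_assoc]
    have h3 : c.ι d * (h * x * h⁻¹) * (c.ι d)⁻¹ ∈ c.C (d * m * d⁻¹) (d * n * d⁻¹) :=
      c.conj_C (by simp) (by simp) (c.conj_C hm.symm hn.symm (hP hx))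
    rw [e]
    exact ⟨mul_mem (mul_mem (c.ιS d) (hh (conj_mem_cj (mem_sup_left hx)))) (c.S.inv_mem (c.ιS d)),
      c.mem_C.2 ⟨c.comm_gen h1 h3, c.comm_gen h2 h3⟩⟩
  refine (eq_of_le_of_card_ge hle ?_).symm
  rw [← card_cj (c.ι d * h) P]
  exact card_le_of_le key

theorem fr {C : Subgroup X} (hC : IsSylowIn 2 (c.S ⊓ C) C) {k : X} (hk : k ∈ c.K)
    (hn : ∀ x ∈ C, k⁻¹ * x * k⁻¹⁻¹ ∈ C) : ∃ b ∈ C, b * k ∈ c.K ∧ ∀ u ∈ c.S, u ∈ C →
      ∃ m, c.ι m ∈ C ∧ b * k * u * (b * k)⁻¹ = u * c.ι m := by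
  have := c.Kn
  have hn' : k ∈ normalizer (C : Set X) := inv_mem_iff.1 (mem_normalizer_fintype hn)
  have h1 := hC.mono (K := C ⊓ (c.S ⊓ C ⊔ c.K)) (le_inf inf_le_right le_sup_left) inf_le_left
  have h2 : cj k (c.S ⊓ C) ≤ C ⊓ (c.S ⊓ C ⊔ c.K) :=
    le_inf (cj_le_of_norm inf_le_right hn') (cj_le_of_mem le_sup_left (mem_sup_right hk))
  obtain ⟨h, ⟨hh, hh'⟩, e⟩ := h1.exists_conj_le h2 (isPGroup_cj hC.isPGroup k)
  obtain ⟨a, ha, b, hb, rfl⟩ := mem_sup_of_normal_right.1 hh'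
  have hbC : b ∈ C := by simpa using C.mul_mem (C.inv_mem ha.2) hh
  refine ⟨b, hbC, mul_mem hb hk, fun u hu hu' => ?_⟩
  have h3 : b * k * u * (b * k)⁻¹ ∈ c.S ⊓ C := by
    have := mul_mem (mul_mem (inv_mem ha) (e (conj_mem_cj (conj_mem_cj ⟨hu, hu'⟩)))) ha
    convert this using 1
    group
  obtain ⟨m, hm⟩ := c.ex (x := u⁻¹ * (b * k * u * (b * k)⁻¹)) (mul_mem (inv_mem hu) h3.1) (by
    have := mul_mem (this.conj_mem _ (mul_mem hb hk) u⁻¹) (inv_mem (mul_mem hb hk))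
    convert this using 1
    group)
  exact ⟨m, hm ▸ mul_mem (inv_mem hu') h3.2, by rw [hm]; group⟩

theorem rho : ∃ r ∈ c.K, r * c.ι Z * r⁻¹ = c.ι A ∧ r * c.ι A * r⁻¹ = c.ι (A * Z) ∧
    ∀ u ∈ c.S, u ∈ c.C Z A → ∃ v, InV v ∧ r * u * r⁻¹ = u * c.ι v := by
  obtain ⟨b, hb, hK, h⟩ := c.fr (c.sylC genV) c.ρK fun x hx => by
    rw [mem_C]
    refine ⟨(Commute.conj_iff c.ρ).1 ?_, (Commute.conj_iff c.ρ).1 ?_⟩
    · rw [c.ρ1]; simpa [mul_assoc] using c.commV hx (Or.inr (Or.inr (Or.inl rfl)))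
    · rw [c.ρ2]; simpa [mul_assoc] using c.commV hx (Or.inr (Or.inr (Or.inr rfl)))
  have e : ∀ x, b * c.ρ * x * (b * c.ρ)⁻¹ = b * (c.ρ * x * c.ρ⁻¹) * b⁻¹ := fun x => by group
  refine ⟨_, hK, ?_, ?_, fun u hu hu' => ?_⟩
  · rw [e, c.ρ1, (c.commV hb (Or.inr (Or.inr (Or.inl rfl)))).eq, mul_inv_cancel_right]
  · rw [e, c.ρ2, (c.commV hb (Or.inr (Or.inr (Or.inr rfl)))).eq, mul_inv_cancel_right]
  · obtain ⟨m, hm, e⟩ := h u hu hu'
    exact ⟨m, cV m (c.comm_ι.1 (c.mem_C.1 hm).1) (c.comm_ι.1 (c.mem_C.1 hm).2), e⟩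

theorem kap : ∃ k, ∃ z ∈ [1, Z], k * c.ι W * k⁻¹ = c.ι (Q * z) ∧
    ∀ u ∈ c.S, u ∈ c.C W Q → ∃ v ∈ [1, Z], k * u * k⁻¹ = u * c.ι v := by
  obtain ⟨b, hb, hK, h⟩ := c.fr (c.sylC genQ) c.κK fun x hx => by
    rw [mem_C]
    refine ⟨(Commute.conj_iff c.κ).1 ?_, (Commute.conj_iff c.κ).1 ?_⟩
    · rcases c.κ1 with e | e <;> rw [e] <;>
        simpa [mul_assoc, -map_mul] using c.comm_gen (by decide +kernel) hx
    · rcases c.κ2 with e | e <;> rw [e] <;>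
        simpa [mul_assoc, -map_mul] using c.comm_gen (by decide +kernel) hx
  have e : ∀ x, b * c.κ * x * (b * c.κ)⁻¹ = b * (c.κ * x * c.κ⁻¹) * b⁻¹ := fun x => by group
  have h2 : ∃ z ∈ [1, Z], c.κ * c.ι W * c.κ⁻¹ = c.ι (Q * z) := by
    rcases c.κ1 with e | e
    · exact ⟨1, by simp, by rw [e, mul_one]⟩
    · exact ⟨Z, by simp, e⟩
  obtain ⟨z, hz, h2⟩ := h2
  refine ⟨b * c.κ, z, hz, ?_, fun u hu hu' => ?_⟩
  · rw [e, h2, (c.comm_gen (a := Q * z) (by clear h2; revert z; decide +kernel) hb).eq, mul_inv_cancel_right]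
  · obtain ⟨m, hm, e⟩ := h u hu hu'
    exact ⟨m, by simpa using cQ m (c.comm_ι.1 (c.mem_C.1 hm).1) (c.comm_ι.1 (c.mem_C.1 hm).2), e⟩

theorem not_sq {u : X} (hu : u ∈ c.S) (hu' : u ∈ c.C Z A) : u * u ≠ c.ι Z := by
  intro h
  obtain ⟨r, -, h1, -, h3⟩ := c.rho
  obtain ⟨v, hv, e⟩ := h3 u hu hu'
  have h4 : c.ι A = c.ι (Z * (v * v)) := by
    rw [← h1, map_mul, map_mul, ← h, ← conj_mul, e, (c.commV hu' hv).symm.mul_mul_mul_comm]
  have h5 := c.inj h4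
  revert h5
  rcases hv with rfl | rfl | rfl | rfl <;> decide +kernel

theorem sylD : IsSylowIn 2 c.ι.range c.K := by
  have := c.Kn
  rw [← c.SK]
  exact c.syl.inf_normal le_top (normalizer_eq_top c.K).ge

theorem nconj {u k : X} (hu : u ∈ c.C Y A) (hk : k ∈ c.K) : k * u * k⁻¹ ≠ u * c.ι Z := by
  intro h
  have hz : ∀ m, Commute (c.ι Z) (c.ι m) := fun m => c.comm_ι.2 (by revert m; decide +kernel)
  have h1 := c.sylD.mono (K := c.K ⊓ centralizer {u * c.ι Z}) (le_inf c.sylD.le (by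
    rintro _ ⟨m, rfl⟩
    exact mem_centralizer_singleton_iff.2 ((c.commD hu m).mul_left (hz m)).symm)) inf_le_left
  have h2 : cj k c.ι.range ≤ c.K ⊓ centralizer {u * c.ι Z} :=
    le_inf (cj_le_of_mem c.sylD.le hk) (by
      rintro _ ⟨_, ⟨m, rfl⟩, rfl⟩
      rw [mem_centralizer_singleton_iff, ← h]
      exact ((c.commD hu m).conj k).symm)
  obtain ⟨b, ⟨hb, hb'⟩, e⟩ := h1.exists_conj_le h2 (isPGroup_cj c.sylD.isPGroup k)
  rw [← cj_mul] at e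
  have h3 : b * k * u * (b * k)⁻¹ = u * c.ι Z := by
    rw [← mul_inv_cancel_right (u * c.ι Z) b, ← mem_centralizer_singleton_iff.1 hb', ← h]; group
  have h4 : b * k ∈ c.K := mul_mem hb hk
  generalize b * k = n at e h3 h4
  have h5 : n ∈ normalizer (c.ι.range : Set X) :=
    mem_normalizer_fintype fun x hx => e (conj_mem_cj hx)
  obtain ⟨m, hm⟩ := e (conj_mem_cj (g := n) ⟨Y, rfl⟩)
  obtain ⟨m', hm'⟩ := e (conj_mem_cj (g := n) ⟨A, rfl⟩)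
  have h6 : n * c.ι Z * n⁻¹ = c.ι Z := by
    have := c.Rmul (c.Rmul hm.symm hm.symm) (c.Rmul hm.symm hm.symm)
    rwa [simZ m m' (c.sim hm.symm hm'.symm), show Y * Y * (Y * Y) = Z by decide +kernel] at this
  have h7 : Commute (n ^ 2) u := by
    rw [commute_iff_eq, ← mul_inv_eq_iff_eq_mul, pow_two]
    calc n * n * u * (n * n)⁻¹ = n * (n * u * n⁻¹) * n⁻¹ := by group
      _ = n * u * n⁻¹ * (n * c.ι Z * n⁻¹) := by rw [conj_mul, h3]
      _ = u := by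
        rw [h3, h6, mul_assoc, ← map_mul, show Z * Z = 1 by decide +kernel, map_one, mul_one]
  obtain ⟨j, i, ⟨i, rfl⟩, hi⟩ := Nat.exists_eq_two_pow_mul_odd (orderOf_pos n).ne'
  obtain ⟨d, hd⟩ := c.sylD.mem_of_norm (pow_mem h4 (2 * i + 1)) (k := j)
    (by rw [← pow_mul, mul_comm, ← hi, pow_orderOf_eq_one]) (pow_mem h5 _)
  have h8 : Commute n u := by
    have := (c.commD hu d).symm
    rw [hd, pow_succ, pow_mul] at this
    simpa using (h7.pow_left i).inv_left.mul_left this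
  rw [h8.eq, mul_inv_cancel_right, left_eq_mul, ← map_one c.ι, c.inj.eq_iff] at h3
  exact absurd h3 (by decide +kernel)

theorem zs_main {u r : X} (hu : u ∈ c.S) (hC : u ∈ c.C Y A) (h2 : u * u = 1) (hr : r ∈ c.K)
    (r1 : r * c.ι Z * r⁻¹ = c.ι A) (r2 : r * u * r⁻¹ = u) : u = 1 := by
  have := c.Kn
  have hi : u⁻¹ = u := inv_eq_of_mul_eq_one_right h2
  let X1 : Subgroup X := c.K ⊔ zpowers u
  have hX : ∀ x ∈ X1, x ∈ c.K ∨ x * u⁻¹ ∈ c.K := fun x hx => by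
    obtain ⟨k, hk, _, ⟨i, rfl⟩, rfl⟩ := mem_sup_of_normal_left.1 hx
    have h3 : ∀ j : ℤ, u ^ (2 * j) = 1 := fun j => by rw [zpow_mul, zpow_two, h2, one_zpow]
    rcases Int.even_or_odd' i with ⟨j, rfl | rfl⟩
    · left; simpa [h3] using hk
    · right; simpa [zpow_add, h3] using hk
  have huX : u ∈ X1 := mem_sup_right (mem_zpowers u)
  have hS : IsSylowIn 2 (c.S ⊓ X1) X1 := by
    refine ⟨inf_le_right, c.syl.isPGroup.to_inf_left, fun P hP hp hle => le_antisymm ?_ hle⟩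
    have h3 : P ⊓ c.K = c.ι.range := c.sylD.max _ inf_le_right hp.to_inf_left
      (le_inf (fun x hx => hle ⟨(c.SK.ge hx).1, mem_sup_left (c.sylD.le hx)⟩) c.sylD.le)
    intro x hx
    refine ⟨?_, hP hx⟩
    rcases hX x (hP hx) with h | h
    · exact (c.SK.ge (h3.le ⟨hx, h⟩)).1
    · simpa using mul_mem (c.SK.ge (h3.le ⟨P.mul_mem hx (P.inv_mem (hle ⟨hu, huX⟩)), h⟩)).1 hu
  have wc : ∀ k ∈ c.K, k * u * k⁻¹ ∈ c.S → k * u * k⁻¹ = u := by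
    intro k hk h
    obtain ⟨m, hm⟩ := c.ex (x := u⁻¹ * (k * u * k⁻¹)) (mul_mem (inv_mem hu) h) (by
      have := mul_mem (this.conj_mem _ hk u⁻¹) (inv_mem hk)
      convert this using 1
      group)
    have e : k * u * k⁻¹ = u * c.ι m := by rw [hm]; group
    have h3 : m * m = 1 := c.inj (by
      rw [map_mul, map_one, ← one_mul (_ * _), ← h2, ← (c.commD hC m).symm.mul_mul_mul_comm, ← e,
        conj_mul, h2]
      group)
    rcases invol m h3 with rfl | rfl | ⟨d, rfl⟩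
    · rw [e, map_one, mul_one]
    · exact absurd e (c.nconj hC hk)
    · refine absurd ?_ (c.nconj hC (mul_mem (inv_mem (mul_mem (c.ιK d) hr)) hk))
      calc (c.ι d * r)⁻¹ * k * u * ((c.ι d * r)⁻¹ * k)⁻¹ =
            r⁻¹ * ((c.ι d)⁻¹ * (k * u * k⁻¹) * c.ι d) * r := by group
        _ = r⁻¹ * (u * c.ι A) * r := by
          rw [e, map_mul, map_mul, map_inv, ← mul_assoc u, ← mul_assoc u, (c.commD hC d).eq]
          group
        _ = _ := by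
          rw [← r1]
          conv_lhs => rw [← r2]
          group
  have hz := H81.zstar_of_wc hS.toSylow (x := ⟨u, huX⟩) ⟨hu, huX⟩ fun g hg => Subtype.ext (by
    rcases hX g g.2 with h | h
    · exact wc _ h hg.1
    · have e : (g : X) * u * (g : X)⁻¹ = g * u⁻¹ * u * (g * u⁻¹)⁻¹ := by group
      have hg' : (g : X) * u * (g : X)⁻¹ ∈ c.S := hg.1
      exact e.trans (wc _ h (e ▸ hg')))
  have hO : ∀ x ∈ pPrimeCore 2 X1, (x : X) ∈ c.K → x = 1 := fun x hx hk => by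
    have h3 := H3.comap_pPrimeCore_le (p := 2) (inclusion (le_sup_left : c.K ≤ X1))
      (H3.coprime_card_ker_of_injective (inclusion_injective _) 2) (x := ⟨x, hk⟩) hx
    rw [show pPrimeCore 2 c.K = ⊥ from c.oK, mem_bot] at h3
    exact Subtype.ext (congrArg (fun y : c.K => (y : X)) h3)
  refine c.cK u fun k hk => ?_
  have h3 := mem_center_iff.1 hz (QuotientGroup.mk' _ ⟨k, mem_sup_left hk⟩)
  rw [← map_mul, ← map_mul, QuotientGroup.mk'_apply, QuotientGroup.mk'_apply,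
    QuotientGroup.eq] at h3
  have h4 := congrArg Subtype.val (hO _ h3 (by
    have := mul_mem (this.conj_mem _ (inv_mem hk) u⁻¹) hk
    convert this using 1
    simp [mul_assoc]))
  exact (inv_mul_eq_one.1 h4).symm

theorem zs {u : X} (hu : u ∈ c.S) (hC : u ∈ c.C Y A) (h2 : u * u = 1) : u ∈ c.ι.range := by
  obtain ⟨r, hr, r1, r2, h3⟩ := c.rho
  obtain ⟨v, hv, e⟩ := h3 u hu (c.mem_C.2 ⟨c.commD hC _, c.commD hC _⟩)
  rcases hv with rfl | rfl | rfl | rfl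
  · rw [c.zs_main hu hC h2 hr r1 (by rw [e, map_one, mul_one])]
    exact one_mem _
  · exact absurd e (c.nconj hC hr)
  · refine absurd ?_ (c.nconj hC (mul_mem hr hr))
    calc r * r * u * (r * r)⁻¹ = r * (r * u * r⁻¹) * r⁻¹ := by group
      _ = r * u * r⁻¹ * (r * c.ι A * r⁻¹) := by rw [conj_mul, e]
      _ = _ := by rw [e, r2, mul_assoc, ← map_mul, show A * (A * Z) = Z by decide +kernel]
  · have hz : ∀ m, Commute (c.ι Z) (c.ι m) := fun m => c.comm_ι.2 (by revert m; decide +kernel)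
    have := c.zs_main (u := u * c.ι Z) (mul_mem hu (c.ιS _))
      (mul_mem hC (c.mem_C.2 ⟨hz _, hz _⟩))
      (by rw [(c.commD hC Z).symm.mul_mul_mul_comm, h2, ← map_mul,
        show Z * Z = 1 by decide +kernel, map_one, mul_one]) hr r1
      (by rw [← conj_mul, e, r1, mul_assoc, ← map_mul, show A * Z * A = Z by decide +kernel])
    rw [eq_inv_of_mul_eq_one_left this]
    exact inv_mem ⟨Z, rfl⟩

theorem cSD {u : X} (hu : u ∈ c.S) (hC : u ∈ c.C Y A) : u ∈ c.ι.range := by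
  obtain ⟨k, hk⟩ := isPGroup_iff.1 c.syl.isPGroup u hu
  induction k generalizing u with
  | zero => rw [pow_zero, pow_one] at hk; exact hk ▸ one_mem _
  | succ k ih =>
    obtain ⟨m, hm⟩ := ih (mul_mem hu hu) (mul_mem hC hC)
      (by rw [← pow_two, ← pow_mul, ← pow_succ', hk])
    have h1 := c.mem_C.1 (hm ▸ mul_mem hC hC)
    rcases cD m (c.comm_ι.1 h1.1) (c.comm_ι.1 h1.2) with rfl | rfl
    · exact c.zs hu hC (by rw [← hm, map_one])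
    · exact absurd hm.symm (c.not_sq hu (c.mem_C.2 ⟨c.commD hC _, c.commD hC _⟩))

theorem step2 {s : X} (hs : s ∈ c.S) : s ∈ c.ι.range ∨ ∃ d, (c.ι d)⁻¹ * s * c.ι Y *
    ((c.ι d)⁻¹ * s)⁻¹ = c.ι (φ Y) ∧ (c.ι d)⁻¹ * s * c.ι A * ((c.ι d)⁻¹ * s)⁻¹ = c.ι A := by
  have h : ∀ m, ∃ n, c.ι n = s * c.ι m * s⁻¹ := fun m =>
    c.ex (mul_mem (mul_mem hs (c.ιS m)) (inv_mem hs)) (c.Kn.conj_mem _ (c.ιK m) s)
  obtain ⟨m, hm⟩ := h Y
  obtain ⟨n, hn⟩ := h A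
  obtain ⟨d, h1, h2⟩ := autY m n (c.sim hm.symm hn.symm)
  have key : ∀ a a' b, c.ι b = s * c.ι a * s⁻¹ → d * a' * d⁻¹ = b →
      (c.ι d)⁻¹ * s * c.ι a * ((c.ι d)⁻¹ * s)⁻¹ = c.ι a' := by
    rintro a a' _ e rfl
    rw [map_mul, map_mul, map_inv] at e
    calc _ = (c.ι d)⁻¹ * (s * c.ι a * s⁻¹) * c.ι d := by group
      _ = _ := by rw [← e]; group
  rcases h2 with h2 | h2
  · left
    have := c.cSD (mul_mem (inv_mem (c.ιS d)) hs) (c.mem_C.2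
      ⟨mul_inv_eq_iff_eq_mul.1 (key _ _ _ hm h2), mul_inv_eq_iff_eq_mul.1 (key _ _ _ hn h1)⟩)
    simpa using mul_mem (⟨d, rfl⟩ : c.ι d ∈ c.ι.range) this
  · exact Or.inr ⟨d, key _ _ _ hm h2, key _ _ _ hn h1⟩

section G

variable {g : X} (hg : g ∈ c.S) (h1 : g * c.ι Y * g⁻¹ = c.ι (φ Y)) (h2 : g * c.ι A * g⁻¹ = c.ι A)
include hg h1 h2

theorem cover {s : X} (hs : s ∈ c.S) : s ∈ c.ι.range ∨ s * g⁻¹ ∈ c.ι.range := by
  refine (c.step2 hs).imp_right fun ⟨d, h3, h4⟩ => ?_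
  have key : ∀ a a', g * c.ι a * g⁻¹ = c.ι a' →
      (c.ι d)⁻¹ * s * c.ι a * ((c.ι d)⁻¹ * s)⁻¹ = c.ι a' →
      Commute (g⁻¹ * ((c.ι d)⁻¹ * s)) (c.ι a) := fun a a' e e' => by
    rw [commute_iff_eq, ← mul_inv_eq_iff_eq_mul]
    calc _ = g⁻¹ * ((c.ι d)⁻¹ * s * c.ι a * ((c.ι d)⁻¹ * s)⁻¹) * g := by group
      _ = _ := by rw [e', ← e]; group
  obtain ⟨m, hm⟩ := c.cSD (mul_mem (inv_mem hg) (mul_mem (inv_mem (c.ιS d)) hs))
    (c.mem_C.2 ⟨key _ _ h1 h3, key _ _ h2 h4⟩)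
  refine ⟨d * φ m, ?_⟩
  rw [map_mul, ← c.actφ h1 h2, hm]; group

omit [Finite X] hg in
theorem comm_g {m : SD} (h : φ m = m) : Commute g (c.ι m) :=
  mul_inv_eq_iff_eq_mul.1 (by rw [c.actφ h1 h2, h])

theorem g_sq : g * g = 1 := by
  have key : ∀ a, φ (φ a) = a → Commute (g * g) (c.ι a) := fun a h => by
    rw [commute_iff_eq, ← mul_inv_eq_iff_eq_mul]
    calc _ = g * (g * c.ι a * g⁻¹) * g⁻¹ := by group
      _ = _ := by rw [c.actφ h1 h2, c.actφ h1 h2, h]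
  have hC : g * g ∈ c.C Y A := c.mem_C.2 ⟨key _ (by decide +kernel), key _ (by decide +kernel)⟩
  obtain ⟨m, hm⟩ := c.cSD (mul_mem hg hg) hC
  have h3 := c.mem_C.1 (hm ▸ hC)
  rcases cD m (c.comm_ι.1 h3.1) (c.comm_ι.1 h3.2) with rfl | rfl
  · rw [← hm, map_one]
  · exact absurd hm.symm (c.not_sq hg
      (c.mem_C.2 ⟨c.comm_g h1 h2 (by decide +kernel), c.comm_g h1 h2 (by decide +kernel)⟩))

omit [Finite X] hg in
theorem cl {d d' : SD} (h : IsConj g (c.ι d * g)) (e : ∃ e, d' = e * d * (φ e)⁻¹) :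
    IsConj g (c.ι d' * g) := by
  obtain ⟨e, rfl⟩ := e
  refine h.trans (isConj_iff.2 ⟨c.ι e, ?_⟩)
  rw [map_mul, map_mul, map_inv, ← c.actφ h1 h2]; group

theorem clA : IsConj g (c.ι A * g) := by
  obtain ⟨r, -, r1, -, h3⟩ := c.rho
  obtain ⟨v, hv, e⟩ := h3 g hg
    (c.mem_C.2 ⟨c.comm_g h1 h2 (by decide +kernel), c.comm_g h1 h2 (by decide +kernel)⟩)
  rw [(c.comm_g h1 h2 (m := v) (by clear e; revert v; decide +kernel)).eq] at e
  have c1 : IsConj g (c.ι v * g) := isConj_iff.2 ⟨r, e⟩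
  have c2 : IsConj g (c.ι (A * v) * g) :=
    (c.cl h1 h2 (d := 1) (d' := Z) (by rw [map_one, one_mul]) (by decide +kernel)).trans
      (isConj_iff.2 ⟨r, by rw [← conj_mul, r1, e, map_mul, mul_assoc]⟩)
  rcases hv with rfl | rfl | rfl | rfl
  · exact c.cl h1 h2 c2 (by decide +kernel)
  · exact c.cl h1 h2 c2 (by decide +kernel)
  · exact c1
  · exact c.cl h1 h2 c1 (by decide +kernel)

theorem clQ : IsConj g (c.ι Q * g) := by
  obtain ⟨k, z, hz, k1, h3⟩ := c.kap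
  have key : ∀ a, φ (W⁻¹ * a * W) = a → Commute (g * c.ι W⁻¹) (c.ι a) := fun a h => by
    rw [commute_iff_eq, ← mul_inv_eq_iff_eq_mul]
    conv_rhs => rw [← h, ← c.actφ h1 h2]
    simp [mul_assoc]
  obtain ⟨v, hv, e⟩ := h3 _ (mul_mem hg (c.ιS W⁻¹))
    (c.mem_C.2 ⟨key _ (by decide +kernel), key _ (by decide +kernel)⟩)
  refine c.cl h1 h2 (d := φ (W⁻¹ * v * (Q * z))) (isConj_iff.2 ⟨k, ?_⟩)
    (by clear e k1; revert v; revert z; decide +kernel)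
  rw [← c.actφ h1 h2, inv_mul_cancel_right, map_mul, map_mul, ← mul_assoc, ← mul_assoc, ← e, ← k1,
    conj_mul]
  simp

theorem cl_all {v : X} (hv : v ∈ c.S) (h3 : v * v = 1) (h4 : v ∉ c.ι.range) : IsConj g v := by
  obtain ⟨d, hd⟩ := (c.cover hg h1 h2 hv).resolve_left h4
  obtain rfl : v = c.ι d * g := by rw [hd]; group
  have h5 : d * φ d = 1 := c.inj (by
    rw [map_mul, map_one, ← c.actφ h1 h2, ← h3, inv_eq_of_mul_eq_one_right (c.g_sq hg h1 h2)]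
    group)
  obtain ⟨e, h | h | h⟩ := invφ d h5
  · exact c.cl h1 h2 (d := 1) (by rw [map_one, one_mul]) ⟨e, h⟩
  · exact c.cl h1 h2 (c.clA hg h1 h2) ⟨e, h⟩
  · exact c.cl h1 h2 (c.clQ hg h1 h2) ⟨e, h⟩

end G

end Cx

theorem out : H40.L3.OutS.{u} := by
  intro X _ _ K S hK y a ρ κ hc hO hS hy ha hay hSK hρ hκ r1 r2 k1 k2
  obtain ⟨ι, hι, rfl, rfl⟩ := exists_hom hy ha hay
  have hD : closure {ι Y, ι A} = ι.range := by
    refine le_antisymm ((closure_le _).2 ?_) ?_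
    · rintro _ (rfl | rfl) <;> exact ⟨_, rfl⟩
    · rintro _ ⟨m, rfl⟩
      obtain ⟨i, j, e, -⟩ := nf m
      rw [e, map_mul, map_pow, map_pow]
      exact mul_mem (pow_mem (Subgroup.subset_closure (by simp)) _)
        (pow_mem (Subgroup.subset_closure (by simp)) _)
  have e4 : ι Y ^ 4 = ι Z := by rw [← map_pow]; exact congrArg ι (by decide +kernel)
  have e2 : ι Y ^ 2 = ι W := by rw [← map_pow]; exact congrArg ι (by decide +kernel)
  have e5 : ι Y ^ 5 = ι (φ Y) := by rw [← map_pow]; exact congrArg ι (by decide +kernel)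
  have e1 : ι Y * ι A = ι Q := by rw [← map_mul]; exact congrArg ι (by decide +kernel)
  rw [hD] at hSK ⊢
  rw [e5]
  simp only [e4, e2, e1, ← map_mul] at r1 r2 k1 k2
  let c : Cx X := ⟨K, S, ι, hι, hK, hS, hSK, hc, hO, ρ, κ, hρ, hκ, r1, r2, k1, k2⟩
  by_cases h : ∃ g ∈ S, g * ι Y * g⁻¹ = ι (φ Y) ∧ g * ι A * g⁻¹ = ι A
  · obtain ⟨g, hg, h1, h2⟩ := h
    refine ⟨g, hg, fun x hx => c.cover hg h1 h2 hx, Or.inr ⟨?_, h1, mul_inv_eq_iff_eq_mul.1 h2,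
      c.g_sq hg h1 h2, fun v hv h3 h4 => ?_⟩⟩
    · rintro ⟨d, rfl⟩
      exact not_inner d (hι (by rw [map_mul, map_mul, map_inv, h1]))
    · obtain ⟨b, hb⟩ := isConj_iff.1 (c.cl_all hg h1 h2 hv h3 h4).symm
      exact ⟨b, Or.inl hb⟩
  · refine ⟨1, one_mem _, fun x hx => Or.inl ((c.step2 hx).resolve_right ?_), Or.inl rfl⟩
    rintro ⟨d, h1, h2⟩
    exact h ⟨_, mul_mem (inv_mem (c.ιS d)) hx, h1, h2⟩

end Cfsg.Agent.H71.L3Out
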