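import Mathlib
import Cfsg.Agent.H50.L81Defs
import Cfsg.Agent.H65.E82Red
import Cfsg.Agent.H28.OmegaIso

/-! A generalized Fitting subgroup `L₂(81)` gives a normal image of `SL₂(81)` with trivial
centralizer. -/

set_option autoImplicit false

namespace Cfsg.Agent.H71.L81Red

open Cfsg.Agent.H50.L81 H82 Subgroup H50.E83
open scoped MatrixGroups

universe u

theorem red : RedStmt.{u} := by
  intro E _ _ hE H ⟨e⟩
  have f : E ≃+* F := FiniteField.ringEquivOfCardEq (hE.trans card_F.symm)
  haveI : Finite G0 := inferInstance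
  obtain ⟨φ, h1, h2, h3, h4⟩ := H65.E82Red.gen (H28.center_PSL2_eq_bot F) H
    (e.trans (H28.pslEquiv f (Fin 2)))
  refine ⟨φ.comp (QuotientGroup.mk' (center SL)), fun s => ?_, fun s => h2 _, fun h hh s => ?_,
    fun h hh hc => h4 h hh fun s => ?_⟩
  · rw [MonoidHom.comp_apply, map_eq_one_iff φ h1, ← mem_center_SL2_iff]
    exact QuotientGroup.eq_one_iff s
  · obtain ⟨s', hs'⟩ := h3 h hh (QuotientGroup.mk' (center SL) s)
    obtain ⟨t, rfl⟩ := QuotientGroup.mk'_surjective (center SL) s'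
    exact ⟨t, hs'⟩
  · obtain ⟨t, rfl⟩ := QuotientGroup.mk'_surjective (center SL) s
    exact hc t

end Cfsg.Agent.H71.L81Red
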