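import Cfsg.Agent.H54.O84Defs
import Cfsg.Agent.H40.RecogSC

/-! The root elements of the standard `D₄` in `E₈` generate a cover of `D₄(F)`. -/

set_option autoImplicit false
set_option maxRecDepth 100000

namespace Cfsg.Agent.H71.O84E5

open Cfsg.Agent.H54.O84 Cfsg.Lie H37 H40 H34 H29

universe u

def eD : List ℕ := [87, 91, 92, 96, 97, 98, 102, 103, 108, 109, 104, 113, 126, 135, 130, 131, 136,
  137, 141, 142, 143, 147, 148, 152]
def e (r : ℕ) : ℕ := eD.getD r 87

def red (f : ℕ → ℕ) (l : List (ℕ × ℤ × ℕ × ℕ)) : List (ℕ × ℤ × ℕ × ℕ) :=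
  l.map fun c => (f c.1, c.2.1 % 2, c.2.2)

def ok (r s : ℕ) : Bool := decide (e s ≠ e r) && decide (e s ≠ 239 - e r) &&
  (red id (chevE8.commTerms (e r) (e s)) == red e (chevD4.commTerms r s))

theorem tab : ∀ r < 24, ∀ s < 24, s ≠ r → s ≠ chevD4.neg r → ok r s = true := by decide +kernel

theorem e_mem (r : ℕ) : e r ∈ d0L := by
  have h : ∀ r < 24, e r ∈ d0L := by decide +kernel
  by_cases hr : r < 24
  · exact h r hr
  · rw [e, List.getD_eq_default _ _ (by simpa [eD] using hr)]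
    decide +kernel

theorem e_lt (r : ℕ) : e r < chevE8.nroots := by
  have h : ∀ r ∈ d0L, r < chevE8.nroots := by decide +kernel
  exact h _ (e_mem r)

theorem e_surj : ∀ r ∈ d0L, ∃ s < 24, e s = r := by decide +kernel

theorem cast_mod (c : ℤ) : ((c % 2 : ℤ) : K) = c := by
  have h : (2 : K) = 0 := CharTwo.two_eq_zero
  rw [Int.emod_def]
  push_cast
  rw [h, zero_mul, sub_zero]

theorem e5 : E5Stmt.{u} := by
  intro F _ ι
  let f : ℕ → F → D4g ι := fun r t =>
    ⟨C8.xg K (e r) (ι t), Subgroup.subset_closure ⟨⟨_, e_lt r⟩, mem_Δ0.2 (e_mem r), t, rfl⟩⟩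
  have : Nontrivial (D4g ι) := ⟨⟨f 0 1, 1, fun h => by
    have h1 := (Cert.xg_eq_one_iff (C := C8) (e_lt 0)).1 (congrArg Subtype.val h)
    rw [map_one] at h1
    exact one_ne_zero h1⟩⟩
  refine equiv_centerQuot_of_rel (by simp) (fun h => ?_) f (fun r _ t u => Subtype.ext ?_)
    (fun r hr s hs h1 h2 t u => Subtype.ext ?_) fun H hH => ?_
  · exfalso
    simp only [List.mem_cons, List.not_mem_nil, or_false] at h
    rcases h with h | h <;> exact absurd (congrArg ChevalleyDatum.rank h) (by decide)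
  · change C8.xg K (e r) (ι (t + u)) = C8.xg K (e r) (ι t) * C8.xg K (e r) (ι u)
    rw [map_add, Cert.xg_add]
  · have h3 := tab r hr s hs h1 h2
    simp only [ok, Bool.and_eq_true, decide_eq_true_eq, beq_iff_eq] at h3
    obtain ⟨⟨h4, h5⟩, h6⟩ := h3
    have h7 : chevE8.neg (e r) = 239 - e r :=
      (C8.neg_val ⟨_, e_lt r⟩).symm.trans (neg_val ⟨_, e_lt r⟩)
    have h8 := congrArg (List.map fun c : ℕ × ℤ × ℕ × ℕ =>
      C8.xg K c.1 ((c.2.1 : K) * (-ι t) ^ c.2.2.1 * ι u ^ c.2.2.2)) h6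
    simp only [red, List.map_map, Function.comp_def, cast_mod, id] at h8
    change C8.xg K (e s) (ι u) * C8.xg K (e r) (ι t) = C8.xg K (e r) (ι t) * C8.xg K (e s) (ι u) *
      (D4g ι).subtype (H35.wd f _)
    rw [Cert.xg_comm (e_lt r) (e_lt s) h4 (h7 ▸ h5), H35.map_wd, H35.wd,
      ChevalleyDatum.commWord, ChevalleyDatum.commWord, List.map_map, List.map_map]
    simp only [Function.comp_def]
    rw [h8]
    simp [f]
  · rw [eq_top_iff]
    rintro ⟨g, hg⟩ -
    induction hg using Subgroup.closure_induction with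
    | mem x hx =>
      obtain ⟨r, hr, t, rfl⟩ := hx
      obtain ⟨s, hs, h⟩ := e_surj r (mem_Δ0.1 hr)
      have := hH s hs t
      simp only [f, h] at this
      exact this
    | one => exact one_mem H
    | mul x y h1 h2 hx hy => exact H.mul_mem (x := ⟨x, h1⟩) (y := ⟨y, h2⟩) hx hy
    | inv x h1 hx => exact H.inv_mem (x := ⟨x, h1⟩) hx

end Cfsg.Agent.H71.O84E5
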