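import Cfsg.Agent.H71.P3Defs
import Cfsg.Agent.H28.Transport

/-! Rank three actions of the symplectic groups: reduction to the isometry group. -/

set_option autoImplicit false

namespace Cfsg.Agent.H71.P3

open Cfsg Module Cfsg.Agent.H27 MulAction

theorem red {Γ G X : Type*} [Group Γ] [Group G] [MulAction G X] (π : Γ →* G)
    (hπ : Function.Surjective π) (hprim : IsPreprimitive G X) (x : X)
    (h3 : Nat.card (orbitRel.Quotient (stabilizer G x) X) = 3) :
    IsCoatom ((stabilizer G x).comap π) ∧ ((stabilizer G x).comap π).index = Nat.card X ∧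
      Nat.card (orbitRel.Quotient ((stabilizer G x).comap π) (Γ ⧸ (stabilizer G x).comap π)) = 3 := by
  have nt : Nontrivial X := by
    by_contra h
    have := not_nontrivial_iff_subsingleton.1 h
    have h1 : Subsingleton (orbitRel.Quotient (stabilizer G x) X) :=
      ⟨fun a b => Quotient.inductionOn₂ a b fun a b => by rw [Subsingleton.elim a b]⟩
    have h2 := Nat.card_le_card_of_injective
      (fun _ : orbitRel.Quotient (stabilizer G x) X => ()) fun a b _ => Subsingleton.elim a b
    simp [h3] at h2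
  refine ⟨Subgroup.isCoatom_comap_of_surjective hπ
    ((isCoatom_stabilizer_iff_preprimitive G x).2 hprim), ?_, ?_⟩
  · rw [Subgroup.index_comap_of_surjective _ hπ, index_stabilizer_of_transitive]
  set K := (stabilizer G x).comap π with hK
  let f : Γ ⧸ K → X := Quotient.lift (fun g => π g • x) fun a b h => by
    have h1 : π (a⁻¹ * b) • x = x := QuotientGroup.leftRel_apply.1 h
    rw [map_mul, map_inv, mul_smul, inv_smul_eq_iff] at h1
    exact h1.symm
  have f1 : ∀ g : Γ, f g = π g • x := fun _ => rfl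
  have fb : Function.Bijective f := ⟨fun a b h => by
      obtain ⟨a, rfl⟩ := QuotientGroup.mk_surjective a
      obtain ⟨b, rfl⟩ := QuotientGroup.mk_surjective b
      rw [f1, f1] at h
      refine QuotientGroup.eq.2 (show π (a⁻¹ * b) • x = x from ?_)
      rw [map_mul, map_inv, mul_smul, inv_smul_eq_iff, h],
    fun y => by
      obtain ⟨g, rfl⟩ := exists_smul_eq G x y
      obtain ⟨g, rfl⟩ := hπ g
      exact ⟨g, rfl⟩⟩
  have f2 : ∀ (g : Γ) (a : Γ ⧸ K), f (g • a) = π g • f a := fun g a => by
    obtain ⟨a, rfl⟩ := QuotientGroup.mk_surjective a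
    exact (f1 (g * a)).trans (by rw [map_mul, mul_smul, f1])
  rw [← h3]
  refine Nat.card_congr (Quotient.congr (Equiv.ofBijective f fb) fun a b => ?_)
  rw [orbitRel_apply, orbitRel_apply]
  constructor
  · rintro ⟨k, rfl⟩
    exact ⟨⟨π k, k.2⟩, (f2 k b).symm⟩
  · rintro ⟨⟨k, hk⟩, e⟩
    obtain ⟨k, rfl⟩ := hπ k
    exact ⟨⟨k, hk⟩, fb.1 ((f2 k b).trans e)⟩

theorem fin (main : MainStmt) (how : HowStmt) {G X : Type*} [Group G] [MulAction G X] [Fintype X]
    {F : Type*} [Field F] [Fintype F] (k : ℕ) (hk : 3 ≤ k) (hq : Odd (Fintype.card F))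
    (e : G ≃* Cfsg.PSp k F) (hprim : IsPreprimitive G X) (x : X)
    (h3 : Nat.card (orbitRel.Quotient (stabilizer G x) X) = 3) :
    Fintype.card X * (Fintype.card F - 1) = Fintype.card F ^ (2 * k) - 1 := by
  have hF : IsField (Shrink.{0} F) :=
    MulEquiv.isField (Field.toIsField F) (Shrink.ringEquiv.{0} F).toMulEquiv
  let _ : Field (Shrink.{0} F) := hF.toField
  let φ : Shrink.{0} F ≃+* F := Shrink.ringEquiv.{0} F
  have : Finite (Shrink.{0} F) := Finite.of_equiv _ φ.symm.toEquiv
  have hc : Nat.card (Shrink.{0} F) = Fintype.card F := by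
    rw [Nat.card_congr φ.toEquiv, Nat.card_eq_fintype_card]
  have odd : Odd (Nat.card (Shrink.{0} F)) := hc ▸ hq
  let S := std k (Shrink.{0} F) hk odd
  let π : S.G →* G := (e.symm.toMonoidHom.comp (H28.pspEquiv φ k).toMonoidHom).comp
    ((QuotientGroup.mk' _).comp (spEquiv (Fin k) (Shrink.{0} F)).symm.toMonoidHom)
  have hπ : Function.Surjective π := (e.symm.surjective.comp (H28.pspEquiv φ k).surjective).comp
    ((QuotientGroup.mk'_surjective _).comp (spEquiv (Fin k) (Shrink.{0} F)).symm.surjective)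
  obtain ⟨h1, h2, h4⟩ := red π hπ hprim x h3
  have eK : (((stabilizer G x).comap π).map S.G.subtype).subgroupOf S.G = (stabilizer G x).comap π :=
    Subgroup.comap_map_eq_self_of_injective S.G.subtype_injective _
  have := main S (((stabilizer G x).comap π).map S.G.subtype) (Subgroup.map_subtype_le _)
    (how k _ hk odd) (eK.symm ▸ h1) (eK.symm ▸ h4)
  rw [Subgroup.relIndex, eK, h2, hc, Nat.card_eq_fintype_card] at this
  exact this

end Cfsg.Agent.H71.P3
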