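import Cfsg.Agent.H42.PcDefs

/-! Passing the local configuration to the quotient by the odd part of the centraliser. -/

set_option autoImplicit false

namespace Cfsg.Agent.H71.PcQo

open Subgroup Cfsg.Agent.H42.Pc

universe u

section
variable {G : Type u} [Group G]

theorem two_of_mem {T : Subgroup G} (pT : IsPGroup 2 T) {w : G} (hw : w ∈ T) :
    ∃ k : ℕ, w ^ 2 ^ k = 1 := by
  obtain ⟨k, hk⟩ := pT ⟨w, hw⟩
  exact ⟨k, by simpa using congrArg Subtype.val hk⟩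

theorem eq_one_of_mem {T O : Subgroup G} (pT : IsPGroup 2 T)
    (hO : ∀ g, g ∈ O ↔ g ∈ centralizer (T : Set G) ∧ Odd (orderOf g)) {x : G} (hxT : x ∈ T)
    (hxO : x ∈ O) : x = 1 := by
  obtain ⟨k, hk⟩ := two_of_mem pT hxT
  have h1 : orderOf x ∣ 2 ^ k := orderOf_dvd_of_pow_eq_one hk
  have h2 : Nat.Coprime (orderOf x) (2 ^ k) :=
    Nat.Coprime.pow_right k ((hO x).1 hxO).2.coprime_two_right
  exact orderOf_eq_one_iff.1 (Nat.Coprime.eq_one_of_dvd h2 h1)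

theorem lift {T O : Subgroup G} [O.Normal] (pT : IsPGroup 2 T)
    (hO : ∀ g, g ∈ O ↔ g ∈ centralizer (T : Set G) ∧ Odd (orderOf g)) (y : G ⧸ O)
    (hy : y * y ∈ T.map (QuotientGroup.mk' O)) :
    ∃ y1 : G, QuotientGroup.mk' O y1 = y ∧ y1 * y1 ∈ T := by
  obtain ⟨y0, rfl⟩ := QuotientGroup.mk'_surjective O y
  obtain ⟨w, hw, hwy⟩ := hy
  have hwT : w ∈ T := hw
  have ho : w⁻¹ * (y0 * y0) ∈ O := by
    rw [← QuotientGroup.eq]
    rw [← map_mul] at hwy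
    exact hwy
  obtain ⟨hc, hodd⟩ := (hO _).1 ho
  obtain ⟨k, hk⟩ := two_of_mem pT hwT
  have hco : Nat.Coprime (orderOf (w⁻¹ * (y0 * y0))) (2 ^ (k + 1)) :=
    Nat.Coprime.pow_right _ hodd.coprime_two_right
  obtain ⟨n, hn0, hn1⟩ := Nat.chineseRemainder hco 0 1
  have hcomm : Commute w (w⁻¹ * (y0 * y0)) := (mem_centralizer_iff.1 hc) w hwT
  refine ⟨y0 ^ n, ?_, ?_⟩
  · rw [map_pow]
    have h1 : (QuotientGroup.mk' O y0) ^ 2 ^ (k + 1) = 1 := by
      rw [pow_succ', pow_mul, pow_two, ← hwy, ← map_pow, hk, map_one]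
    have h2 : orderOf (QuotientGroup.mk' O y0) ∣ 2 ^ (k + 1) := orderOf_dvd_of_pow_eq_one h1
    have h3 := pow_eq_pow_iff_modEq.2 (hn1.of_dvd h2)
    simpa using h3
  · have h1 : y0 ^ n * y0 ^ n = (w * (w⁻¹ * (y0 * y0))) ^ n := by
      rw [mul_inv_cancel_left, (Commute.refl y0).mul_pow]
    have h2 : (w⁻¹ * (y0 * y0)) ^ n = 1 :=
      orderOf_dvd_iff_pow_eq_one.1 (Nat.modEq_zero_iff_dvd.1 hn0)
    rw [h1, hcomm.mul_pow, h2, mul_one]
    exact T.pow_mem hwT n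

theorem dr_map {H : Type u} [Group H] (f : G →* H) (T : Subgroup G) (y : G) :
    Dr (T.map f) (f y) = (Dr T y).map f := by
  unfold Dr H42.Pc.Ext
  rw [map_commutator, Subgroup.map_sup, MonoidHom.map_zpowers]

end

theorem qo : QoStmt.{u} := by
  intro G _ _ T O _ hT hO
  have nT := hT.nT
  refine ⟨⟨nT.map _ (QuotientGroup.mk'_surjective O), hT.pT.map _, ?_, ?_, ?_⟩, ?_⟩
  · intro y y' hy hy' hyy hyy'
    obtain ⟨y1, rfl, h1⟩ := lift hT.pT hO y hyy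
    obtain ⟨y2, rfl, h2⟩ := lift hT.pT hO y' hyy'
    obtain ⟨g, hg⟩ := hT.cc y1 y2 (fun h => hy (mem_map_of_mem _ h))
      (fun h => hy' (mem_map_of_mem _ h)) h1 h2
    refine ⟨QuotientGroup.mk' O g, ?_⟩
    rw [← map_inv, ← map_mul, ← map_mul, ← MonoidHom.map_zpowers, ← MonoidHom.map_zpowers, hg]
  · intro y hy
    obtain ⟨y1, rfl, h1⟩ := lift hT.pT hO y (by rw [hy]; exact one_mem _)
    have h2 : y1 * y1 ∈ O := by
      rw [← QuotientGroup.eq_one_iff]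
      rw [← map_mul] at hy
      exact hy
    exact mem_map_of_mem _ (hT.ni y1 (eq_one_of_mem hT.pT hO h1 h2))
  · intro y hy hyy
    obtain ⟨y1, rfl, h1⟩ := lift hT.pT hO y hyy
    obtain ⟨w, hw, hw2⟩ := hT.tr y1 (fun h => hy (mem_map_of_mem _ h)) h1
    refine ⟨QuotientGroup.mk' O w, mem_map_of_mem _ hw, ?_⟩
    rw [dr_map, ← map_mul, ← map_mul]
    exact mem_map_of_mem _ hw2
  · intro g hg
    obtain ⟨g, rfl⟩ := QuotientGroup.mk'_surjective O g
    have hc : g ∈ centralizer (T : Set G) := by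
      rw [mem_centralizer_iff]
      intro w hw
      have hwT : w ∈ T := hw
      have h1 := (mem_centralizer_iff.1 hg) (QuotientGroup.mk' O w) (mem_map_of_mem _ hwT)
      have h2 : (w * g)⁻¹ * (g * w) ∈ O := by
        rw [← QuotientGroup.eq]
        rw [← map_mul, ← map_mul] at h1
        exact h1
      have h3 : (w * g)⁻¹ * (g * w) ∈ T := by
        have h4 : (w * g)⁻¹ * (g * w) = (g⁻¹ * w⁻¹ * g⁻¹⁻¹) * w := by group
        rw [h4]
        exact T.mul_mem (nT.conj_mem _ (T.inv_mem hwT) _) hwT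
      exact inv_mul_eq_one.1 (eq_one_of_mem hT.pT hO h3 h2)
    obtain ⟨k, m, hm, hkm⟩ := Nat.exists_eq_two_pow_mul_odd (orderOf_pos g).ne'
    refine ⟨k, ?_⟩
    rw [← map_pow]
    have h5 : g ^ 2 ^ k ∈ O := by
      refine (hO _).2 ⟨pow_mem hc _, hm.of_dvd_nat (orderOf_dvd_of_pow_eq_one ?_)⟩
      rw [← pow_mul, ← hkm, pow_orderOf_eq_one]
    exact (QuotientGroup.eq_one_iff _).2 h5

end Cfsg.Agent.H71.PcQo
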