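import Cfsg.Agent.H10.PcNf
import Cfsg.Agent.H12.PcE1
import Cfsg.Agent.H65.PcCnt
import Cfsg.Agent.H59.PcOrb
import Cfsg.Agent.H19.PcA0
import Cfsg.Agent.H20.PcU
import Cfsg.Agent.H21.PcE2
import Cfsg.Agent.H23.PcCv2
import Cfsg.Agent.H29.PcMain
import Cfsg.Agent.H33.PcFix
import Cfsg.Agent.H37.PcQ2
import Cfsg.Agent.H38.PcLoc
import Cfsg.Agent.H39.PcTrans
import Cfsg.Agent.H41.PcKey
import Cfsg.Agent.H44.PcFin
import Cfsg.Agent.H47.PcSoc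
import Cfsg.Agent.H48.PcBb
import Cfsg.Agent.H49.PcOrd
import Cfsg.Agent.H51.PcA
import Cfsg.Agent.H52.PcFin0
import Cfsg.Agent.H54.PcB
import Cfsg.Agent.H6.PcPick
import Cfsg.Agent.H60.PcCv1
import Cfsg.Agent.H62.PcTop
import Cfsg.Agent.H66.PcN1
import Cfsg.Agent.H68.PcC2
import Cfsg.Agent.H7.PcCent
import Cfsg.Agent.H71.PcQo
import Cfsg.Agent.H76.PcSyl
import Cfsg.Agent.H79.PcQuot
import Cfsg.Agent.H80.PcUni
import Cfsg.Agent.H83.PcW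
import Cfsg.Agent.H88.PcGl
import Cfsg.Agent.H89.PcTr
import Cfsg.Agent.H9.PcNc

/-! Assembly of the pieces. -/

set_option autoImplicit false

namespace Cfsg.Agent.H71.PcAll

open Cfsg.Agent.H42.Pc

universe u

theorem ab : AbStmt.{u} := H68.PcC2.ab
theorem trans : TransStmt.{u} := H39.PcTrans.trans ab
theorem cent : CentStmt.{u} :=
  H7.PcCent.cent ab H6.PcPick.pick (H33.PcFix.fix ab) (H60.PcCv1.cv1 ab trans) (H23.PcCv2.cv2 ab trans)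
theorem endd : EndStmt.{u} := H21.PcE2.endd cent (H12.PcE1.e1 ab)
theorem aa : AStmt.{u} := H51.PcA.a H19.PcA0.a0
theorem c2 : C2Stmt.{u} := H68.PcC2.c2 aa H54.PcB.b (H66.PcN1.n1 aa H48.PcBb.bb) H20.PcU.uu
theorem fin : FinStmt.{u} := H44.PcFin.fin ab c2 H6.PcPick.pick H83.PcW.ww H37.PcQ2.q2 endd
theorem nf : NfStmt.{u} :=
  H10.PcNf.nf H65.PcCnt.cnt H80.PcUni.odd H80.PcUni.uni H59.PcOrb.orb H76.PcSyl.syl
theorem loc : LocStmt.{u} :=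
  H38.PcLoc.loc (H49.PcOrd.ord H41.PcKey.key) (H9.PcNc.nc H76.PcSyl.syl nf) H89.PcTr.tr
theorem main : MainStmt.{u} := H29.PcMain.main H88.PcGl.gl loc (H52.PcFin0.fin0 PcQo.qo fin)
theorem top : TopStmt.{u} := H62.PcTop.top (H79.PcQuot.quot H41.PcKey.key) H47.PcSoc.soc main

end Cfsg.Agent.H71.PcAll
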