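import Cfsg.Agent.H79.RbDefs

/-! Project RB, piece Class: conjugacy in the double covers of the symmetric groups. -/

set_option autoImplicit false

namespace Cfsg.Agent.H71.RbClass

open Cfsg Equiv Subgroup Cfsg.Agent.H79.RB Cfsg.Agent.H19

variable (F : SpinFam) {n : ℕ}

theorem π_z : F.π n (F.z n) = 1 := (F.ker n _).2 (.inr rfl)

theorem z_comm (g : F.G n) : g * F.z n = F.z n * g := by
  rcases (F.ker n (g * F.z n * g⁻¹)).1 (by simp [π_z]) with h | h
  · exact absurd (conj_eq_one_iff.1 h) (F.z_ne n)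
  · exact mul_inv_eq_iff_eq_mul.1 h

theorem z_sq : F.z n * F.z n = 1 :=
  ((F.ker n _).1 (by simp [π_z])).resolve_right fun h => F.z_ne n (mul_eq_left.1 h)

theorem eq_or {a b : F.G n} (h : F.π n a = F.π n b) : a = b ∨ a = F.z n * b :=
  ((F.ker n (a * b⁻¹)).1 (by simp [h])).imp mul_inv_eq_one.1 mul_inv_eq_iff_eq_mul.1

theorem eq_of_pow {a b : F.G n} (h : F.π n a = F.π n b) {m : ℕ} (hm : Odd m) (e : a ^ m = b ^ m) :
    a = b := (eq_or F h).resolve_right fun h1 => by
  obtain ⟨k, rfl⟩ := hm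
  rw [h1, Commute.mul_pow (z_comm F b).symm, mul_eq_right, pow_succ, pow_mul, pow_two, z_sq,
    one_pow, one_mul] at e
  exact F.z_ne n e

theorem odd_order {σ : Perm (Fin n)} (h : OddT σ) : Odd (orderOf σ) := by
  rw [← Nat.not_even_iff_odd, even_iff_two_dvd, ← Perm.lcm_cycleType]
  intro h2
  obtain ⟨r, hr, h3⟩ := Nat.prime_two.prime.exists_mem_multiset_dvd
    (h2.trans (Multiset.lcm_dvd.2 fun b hb => Multiset.dvd_prod hb))
  exact Nat.not_even_iff_odd.2 (h r (by rw [typ_eq]; exact Multiset.mem_add.2 (.inl hr)))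
    (even_iff_two_dvd.2 h3)

theorem sign_of_odd {σ : Perm (Fin n)} (h : Odd (orderOf σ)) : Perm.sign σ = 1 := by
  have := congrArg Perm.sign (pow_orderOf_eq_one σ)
  rw [map_pow, map_one] at this
  rcases Int.units_eq_one_or (Perm.sign σ) with e | e
  · exact e
  · rw [e, h.neg_one_pow] at this
    exact absurd this (by decide)

theorem card_ker : Nat.card (F.π n).ker = 2 := by
  have : (F.π n).ker = zpowers (F.z n) := le_antisymm (fun g hg => by
    rcases (F.ker n g).1 hg with h | h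
    · exact h ▸ one_mem _
    · exact h ▸ mem_zpowers _) (zpowers_le.2 (π_z F))
  rw [this, Nat.card_zpowers]
  exact orderOf_eq_prime (by rw [pow_two, z_sq]) (F.z_ne n)

theorem classStmt : ClassStmt := by
  intro F n
  refine ⟨mem_center_iff.2 (z_comm F), z_sq F, ?_, fun x => ?_⟩
  · rw [← (F.π n).ker.card_mul_index, card_ker, index_ker, MonoidHom.range_eq_top.2 (F.surj n),
      card_top, Nat.card_perm, Nat.card_fin]
  have key : OddT (F.π n x) → ∀ h : F.G n, (h * x * h⁻¹) ^ orderOf (F.π n x) =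
      x ^ orderOf (F.π n x) ∧ x⁻¹ ^ orderOf (F.π n x) = x ^ orderOf (F.π n x) := fun _ h => by
    rw [conj_pow, inv_pow]
    rcases (F.ker n (x ^ orderOf (F.π n x))).1 (by rw [map_pow, pow_orderOf_eq_one]) with e | e
    · rw [e]; simp
    · rw [e, z_comm, mul_inv_cancel_right]
      exact ⟨rfl, inv_eq_of_mul_eq_one_right (z_sq F)⟩
  refine ⟨fun h => sign_of_odd (odd_order h), fun h1 h2 => ?_, fun h => ?_, fun h g hg => ?_⟩
  · simp only [OddT, not_forall] at h2
    obtain ⟨r, hr, h3⟩ := h2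
    rw [typ_eq, Multiset.mem_add] at hr
    have h4 := hr.resolve_right fun h => h3 (by rw [Multiset.eq_of_mem_replicate h]; decide)
    rw [Perm.cycleType_def, Multiset.mem_map] at h4
    obtain ⟨c, hc, rfl⟩ := h4
    have h5 : Perm.sign c = -1 := by
      rw [(Perm.mem_cycleFactorsFinset_iff.1 hc).1.sign]
      exact congrArg _ (Nat.not_odd_iff_even.1 h3).neg_one_pow
    obtain ⟨h, rfl⟩ := F.surj n c
    have h6 := F.sc n (x * h⁻¹) h (by
      rw [map_mul, map_inv]; exact Perm.disjoint_mul_inv_of_mem_cycleFactorsFinset (Finset.mem_val.mp hc))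
    rw [if_pos ⟨by rw [map_mul, map_inv, map_mul, map_inv, h1, h5]; rfl, h5⟩,
      inv_mul_cancel_right] at h6
    refine ⟨h, ?_⟩
    conv_rhs => rw [h6, ← mul_assoc, z_sq, one_mul, ← mul_assoc]
  · obtain ⟨c, hc⟩ := isConj_iff.1 (Perm.isConj_iff_cycleType_eq.2 (Perm.cycleType_inv (F.π n x)).symm)
    obtain ⟨g, rfl⟩ := F.surj n c
    exact ⟨g, eq_of_pow F (by simpa using hc) (odd_order h) ((key h g).1.trans (key h g).2.symm)⟩
  · exact mul_inv_eq_iff_eq_mul.1 (eq_of_pow F (by
      rw [map_mul, map_mul, hg, map_inv, mul_inv_cancel_right]) (odd_order h) (key h g).1)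

end Cfsg.Agent.H71.RbClass
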