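import Cfsg.Agent.H79.RbDefs
import Cfsg.Agent.H19.SymDegP
import Cfsg.Agent.H17.Center
import Cfsg.Agent.S0955
import Cfsg.Agent.S0927

/-! Project RB, piece Loc: the local structure of a defect group. -/

set_option autoImplicit false

namespace Cfsg.Agent.H71.RbLoc

open Cfsg Equiv Subgroup Cfsg.Agent.H79.RB Cfsg.Agent.H19

section
variable {Ω : Type*} [Fintype Ω] [DecidableEq Ω] {p : ℕ} [hp : Fact p.Prime]

theorem exists_z {K : Subgroup (Perm Ω)} (hK : IsPGroup p K) {y : Ω} {d : Perm Ω} (hd : d ∈ K)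
    (hy : d y ≠ y) : ∃ z : Perm Ω, z ^ p = 1 ∧ z ∈ orbitwise K ∧ (∀ k ∈ K, z * k = k * z) ∧
      z y ≠ y ∧ (∃ k ∈ K, z y = k y) ∧ ∀ x, z x ≠ x → ∃ k ∈ K, x = k y := by
  classical
  let ρ : K →* Perm Ω := (Perm.ofSubtype (p := (· ∈ MulAction.orbit K y))).comp
    (MulAction.toPermHom K (MulAction.orbit K y))
  have r1 : ∀ (k : K) (x : Ω), x ∈ MulAction.orbit K y → ρ k x = k.1 x := fun k x hx =>
    Perm.ofSubtype_apply_of_mem _ hx
  have r2 : ∀ (k : K) (x : Ω), x ∉ MulAction.orbit K y → ρ k x = x := fun k x hx =>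
    Perm.ofSubtype_apply_of_not_mem _ hx
  have r3 : ∀ (k : K) (x : Ω), k.1 x ∈ MulAction.orbit K y ↔ x ∈ MulAction.orbit K y :=
    fun k x => ⟨fun h => by
      have := MulAction.mem_orbit_of_mem_orbit k⁻¹ h
      rwa [show k⁻¹ • k.1 x = x from inv_smul_smul k x] at this,
    fun h => MulAction.mem_orbit_of_mem_orbit k h⟩
  have y0 := MulAction.mem_orbit_self (M := K) y
  have hR : IsPGroup p ρ.range := hK.of_surjective _ ρ.rangeRestrict_surjective
  have : Nontrivial ρ.range := ⟨⟨⟨_, ⟨d, hd⟩, rfl⟩, 1, fun e => hy (by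
    have := congrArg (fun σ : ρ.range => σ.1 y) e
    rwa [r1 _ _ y0] at this)⟩⟩
  obtain ⟨m, hm, e⟩ := (IsPGroup.nontrivial_iff_card (hR.to_subgroup (center ρ.range))).1
    ((center ρ.range).nontrivial_iff_ne_bot.2 hR.bot_lt_center.ne')
  obtain ⟨w, hw⟩ := exists_prime_orderOf_dvd_card' (G := center ρ.range) p
    (e ▸ dvd_pow_self p hm.ne')
  obtain ⟨⟨⟨z, k, rfl⟩, hz⟩, rfl⟩ : ∃ w' : center ρ.range, w' = w := ⟨w, rfl⟩
  have c : ∀ l : K, ρ l * ρ k = ρ k * ρ l := fun l =>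
    congrArg Subtype.val (mem_center_iff.1 hz ⟨_, l, rfl⟩)
  have c' : ∀ l ∈ K, ρ k * l = l * ρ k := fun l hl => Equiv.ext fun x => by
    by_cases hx : x ∈ MulAction.orbit K y
    · have := congrArg (fun σ : Perm Ω => σ x) (c ⟨l, hl⟩)
      simp only [Perm.mul_apply] at this ⊢
      rw [r1 ⟨l, hl⟩ x hx, r1 ⟨l, hl⟩ _ (by rw [r1 k x hx]; exact (r3 k x).2 hx)] at this
      exact this.symm
    · rw [Perm.mul_apply, Perm.mul_apply, r2 k x hx, r2 k _ (mt (r3 ⟨l, hl⟩ x).1 hx)]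
  refine ⟨ρ k, ?_, fun x => ?_, c', fun h => ?_, ⟨k, k.2, r1 k y y0⟩, fun x hx => ?_⟩
  · have := pow_orderOf_eq_one (⟨⟨ρ k, k, rfl⟩, hz⟩ : center ρ.range)
    rw [hw] at this
    exact congrArg (fun σ : center ρ.range => σ.1.1) this
  · by_cases hx : x ∈ MulAction.orbit K y
    · exact ⟨k, k.2, fun l hl => r1 k _ ((r3 ⟨l, hl⟩ x).2 hx)⟩
    · exact ⟨1, one_mem _, fun l hl => r2 k _ (mt (r3 ⟨l, hl⟩ x).1 hx)⟩
  · have h1 : ρ k = 1 := Equiv.ext fun x => by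
      by_cases hx : x ∈ MulAction.orbit K y
      · obtain ⟨l, rfl⟩ := hx
        change (ρ k * l.1) y = l.1 y
        rw [c' l l.2, Perm.mul_apply, h]
      · exact r2 k x hx
    have h2 : (⟨⟨ρ k, k, rfl⟩, hz⟩ : center ρ.range) = 1 := Subtype.ext (Subtype.ext h1)
    rw [h2, orderOf_one] at hw
    exact hp.out.one_lt.ne hw
  · obtain ⟨l, hl⟩ : x ∈ MulAction.orbit K y := by_contra fun h => hx (r2 k x h)
    exact ⟨l, l.2, hl.symm⟩

omit hp in
theorem ow_comm {K : Subgroup (Perm Ω)} {σ τ : Perm Ω} (hσ : σ ∈ orbitwise K)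
    (hτ : τ ∈ orbitwise K) (h : ∀ k ∈ K, τ * k = k * τ) : σ * τ = τ * σ := Equiv.ext fun y => by
  obtain ⟨k, hk, h1⟩ := hσ y
  obtain ⟨l, hl, h2⟩ := hτ y
  have h3 : τ y = l y := h2 1 (one_mem _)
  have h4 : σ y = k y := h1 1 (one_mem _)
  rw [Perm.mul_apply, Perm.mul_apply, h4, ← Perm.mul_apply τ, h k hk, Perm.mul_apply, h3, h1 l hl]

omit hp in
theorem ow_conj {K : Subgroup (Perm Ω)} {σ q : Perm Ω} (hσ : σ ∈ orbitwise K)
    (h1 : ∀ k ∈ K, q * k * q⁻¹ ∈ K) (h2 : ∀ k ∈ K, q⁻¹ * k * q⁻¹⁻¹ ∈ K) :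
    q * σ * q⁻¹ ∈ orbitwise K := fun y => by
  obtain ⟨k, hk, h⟩ := hσ (q⁻¹ y)
  refine ⟨q * k * q⁻¹, h1 k hk, fun l hl => ?_⟩
  simpa using h (q⁻¹ * l * q⁻¹⁻¹) (h2 l hl)

variable {G : Type*} [Group G] [Finite G] {π : G →* Perm Ω}

theorem comm_of (hZ : π.ker ≤ center G) (hn : ¬ p ∣ Nat.card π.ker) {x y : G} (hx : x ^ p = 1)
    (h : π x * π y = π y * π x) : x * y = y * x := by
  have h1 : x⁻¹ * (y * x * y⁻¹) ∈ π.ker := by
    rw [MonoidHom.mem_ker, map_mul, map_mul, map_mul, ← h, map_inv, map_inv]; group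
  obtain ⟨c, hc⟩ : ∃ c, c = x⁻¹ * (y * x * y⁻¹) := ⟨_, rfl⟩
  rw [← hc] at h1
  have h2 : y * x * y⁻¹ = x * c := by rw [hc]; group
  have h3 : c ^ p = 1 := by
    have := congrArg (· ^ p) h2
    simp only [conj_pow, hx] at this
    rw [Commute.mul_pow (mem_center_iff.1 (hZ h1) x), hx] at this
    simpa using this.symm
  have h4 : c = 1 := by
    by_contra c1
    exact hn (orderOf_eq_prime h3 c1 ▸ (π.ker).orderOf_dvd_natCard h1)
  rw [h4, mul_one] at h2
  rw [← mul_inv_eq_iff_eq_mul.1 h2]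

theorem exists_lift (h2 : p ≠ 2) (hn : ¬ p ∣ Nat.card π.ker) (hA : alternatingGroup Ω ≤ π.range)
    {σ : Perm Ω} (hσ : σ ^ p = 1) : ∃ x : G, x ^ p = 1 ∧ π x = σ := by
  have h1 : σ ∈ alternatingGroup Ω := by
    have := congrArg Perm.sign hσ
    rw [map_pow, map_one] at this
    rcases Int.units_eq_one_or (Perm.sign σ) with e | e
    · exact e
    · rw [e, (hp.out.odd_of_ne_two h2).neg_one_pow] at this
      exact absurd this (by decide)
  obtain ⟨x, rfl⟩ := hA h1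
  obtain ⟨t, -, ht⟩ := Nat.exists_mul_mod_eq_one_of_coprime
    ((Nat.Prime.coprime_iff_not_dvd hp.out).2 hn).symm hp.out.one_lt
  refine ⟨x ^ (Nat.card π.ker * t), ?_, ?_⟩
  · have h3 : x ^ p ∈ π.ker := by rw [MonoidHom.mem_ker, map_pow, hσ]
    have h4 : (x ^ p) ^ Nat.card π.ker = 1 :=
      congrArg Subtype.val (pow_card_eq_one' (x := (⟨_, h3⟩ : π.ker)))
    rw [← pow_mul, mul_comm, pow_mul, pow_mul, h4, one_pow]
  · rw [map_pow, ← Nat.mod_add_div (Nat.card π.ker * t) p, ht, pow_add, pow_mul, hσ, one_pow,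
      mul_one, pow_one]

/-- the elements of order `p` over the centre of the orbitwise closure -/
def E (hZ : π.ker ≤ center G) (hn : ¬ p ∣ Nat.card π.ker) (K : Subgroup (Perm Ω)) : Subgroup G where
  carrier := {x | x ^ p = 1 ∧ π x ∈ orbitwise K ∧ ∀ k ∈ K, π x * k = k * π x}
  one_mem' := ⟨one_pow _, by rw [map_one]; exact one_mem _, fun k _ => by simp⟩
  mul_mem' := fun {x y} hx hy => ⟨by
      rw [Commute.mul_pow (comm_of hZ hn hx.1 (ow_comm hx.2.1 hy.2.1 hy.2.2)), hx.1, hy.1, one_mul],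
    by rw [map_mul]; exact mul_mem hx.2.1 hy.2.1, fun k hk => by
      rw [map_mul, mul_assoc, hy.2.2 k hk, ← mul_assoc, hx.2.2 k hk, mul_assoc]⟩
  inv_mem' := fun {x} hx => ⟨by rw [inv_pow, hx.1, inv_one],
    by rw [map_inv]; exact inv_mem hx.2.1, fun k hk => by
      rw [map_inv]; exact (Commute.inv_left (hx.2.2 k hk)).eq⟩

theorem E_le (hZ : π.ker ≤ center G) (hn : ¬ p ∣ Nat.card π.ker) {D : Subgroup G}
    (hD : (pCore p (normalizer (D : Set G))).map (normalizer (D : Set G)).subtype = D) :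
    E hZ hn (D.map π) ≤ D := fun x hx => by
  have cj : ∀ q ∈ normalizer (D : Set G), ∀ k ∈ D.map π, π q * k * (π q)⁻¹ ∈ D.map π := by
    rintro q hq _ ⟨d, hd, rfl⟩
    exact ⟨_, (mem_normalizer_iff.1 hq d).1 hd, by simp⟩
  have h1 : x ∈ normalizer (D : Set G) := centralizer_le_normalizer _ (mem_centralizer_iff.2
    fun d hd => (comm_of hZ hn hx.1 (hx.2.2 _ ⟨d, hd, rfl⟩)).symm)
  have h2 : ((E hZ hn (D.map π)).subgroupOf (normalizer (D : Set G))).Normal := ⟨fun y hy q => by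
    have a1 := cj q q.2
    have a2 := cj q⁻¹ (inv_mem q.2)
    simp only [map_inv] at a2
    refine ⟨?_, ?_, fun k hk => ?_⟩
    · change ((q : G) * y * (q : G)⁻¹) ^ p = 1
      rw [conj_pow, show (y : G) ^ p = 1 from hy.1]; group
    · change π ((q : G) * y * (q : G)⁻¹) ∈ _
      rw [map_mul, map_mul, map_inv]
      exact ow_conj hy.2.1 a1 a2
    · change π ((q : G) * y * (q : G)⁻¹) * k = k * π ((q : G) * y * (q : G)⁻¹)
      have : π y * _ = _ * π y := hy.2.2 _ (a2 k hk)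
      rw [map_mul, map_mul, map_inv]
      calc _ = π q * (π y * ((π q)⁻¹ * k * (π q)⁻¹⁻¹)) * (π q)⁻¹ := by group
        _ = _ := by rw [this]; group⟩
  have h3 : IsPGroup p ((E hZ hn (D.map π)).subgroupOf (normalizer (D : Set G))) := fun y =>
    ⟨1, Subtype.ext (Subtype.ext (by rw [pow_one]; exact y.2.1))⟩
  have h4 : (E hZ hn (D.map π)).subgroupOf (normalizer (D : Set G)) ≤ pCore p _ := le_sSup ⟨h2, h3⟩
  rw [← hD]
  exact ⟨⟨x, h1⟩, h4 hx, rfl⟩

end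

theorem locStmt : LocStmt := by
  intro G _ _ n π p hp h2 hZ hn hA M hM B hB D hD
  have hE := E_le hZ hn (S0955.result p M hM B hB D hD)
  obtain ⟨g, hg, P, hP⟩ := hD
  have hDp : IsPGroup p D := hP ▸ P.isPGroup'.map _
  have hK : IsPGroup p (D.map π) := hDp.map π
  have hgc : ∀ k ∈ D.map π, k * π g = π g * k := by
    rintro _ ⟨d, hd, rfl⟩
    obtain ⟨d', -, rfl⟩ := hP ▸ hd
    rw [← map_mul, ← map_mul]
    exact congrArg π (mem_centralizer_singleton_iff.1 d'.2)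
  obtain ⟨u, hu, hmax⟩ := Set.exists_max_image (E hZ hn (D.map π) : Set G)
    (fun x => (π x).support.card) (Set.toFinite _) ⟨1, one_mem _⟩
  refine ⟨(π u).cycleType.card, u, g, hE hu, hu.1,
    Perm.cycleType_of_pow_prime_eq_one (by rw [← map_pow, hu.1, map_one]),
    fun d hd y hy => ?_, fun y => or_iff_not_imp_left.2 fun hy => ?_, fun χ hχ h0 => ?_⟩
  · obtain ⟨z, z1, z2, z3, z4, ⟨k, hk, z5⟩, z6⟩ :=
      exists_z hK ⟨d, hd, rfl⟩ (Perm.mem_support.1 hy)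
    obtain ⟨x, x1, rfl⟩ := exists_lift h2 hn hA z1
    by_contra hy'
    have f1 : ∀ l ∈ D.map π, π u (l y) = l y := fun l hl => by
      rw [← Perm.mul_apply, hu.2.2 l hl, Perm.mul_apply, Perm.notMem_support.1 hy']
    refine absurd (hmax _ (mul_mem hu (show x ∈ E hZ hn (D.map π) from ⟨x1, z2, z3⟩)))
      (not_le.2 (Finset.card_lt_card ⟨fun w hw => ?_, fun h => hy' (h ?_)⟩))
    · rw [Perm.mem_support] at hw ⊢
      have : π x w = w := by_contra fun h => by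
        obtain ⟨l, hl, rfl⟩ := z6 w h
        exact hw (f1 l hl)
      rwa [map_mul, Perm.mul_apply, this]
    · rw [Perm.mem_support, map_mul, Perm.mul_apply, z5, f1 k hk, ← z5]
      exact z4
  · obtain ⟨z, z1, z2, z3, z4, -, z6⟩ := exists_z hK ⟨u, hE hu, rfl⟩ hy
    obtain ⟨x, x1, rfl⟩ := exists_lift h2 hn hA z1
    have hx : x ∈ D := hE ⟨x1, z2, z3⟩
    obtain ⟨l, hl, e⟩ := z6 (π g y) (by
      rw [← Perm.mul_apply, hgc _ ⟨x, hx, rfl⟩, Perm.mul_apply]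
      exact fun h => z4 ((π g).injective h))
    have h3 : ∀ m : ℕ, (π g ^ m) y = (l ^ m) y := fun m => by
      induction m with
      | zero => rfl
      | succ m ih =>
        rw [pow_succ', Perm.mul_apply, ih, ← Perm.mul_apply, ← hgc _ (pow_mem hl m), Perm.mul_apply,
          e, pow_succ, Perm.mul_apply]
    obtain ⟨a, ha⟩ := hK ⟨l, hl⟩
    have h4 : (π g ^ p ^ a) y = y := by
      rw [h3, show l ^ p ^ a = 1 from congrArg Subtype.val ha]; rfl
    have h5 : (π g ^ orderOf g) y = y := by rw [← map_pow, pow_orderOf_eq_one, map_one]; rfl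
    have h6 := Function.IsPeriodicPt.gcd (f := π g) (x := y) (m := p ^ a) (n := orderOf g)
      (by rwa [Function.IsPeriodicPt, Function.IsFixedPt, ← Perm.coe_pow])
      (by rwa [Function.IsPeriodicPt, Function.IsFixedPt, ← Perm.coe_pow])
    rwa [(((Nat.Prime.coprime_iff_not_dvd hp.out).2
      (H17.isDefectClass_not_dvd hM hB hg)).pow_left a).gcd_eq_one] at h6
  · obtain ⟨u', hu', rfl⟩ := hP ▸ hE hu
    refine (S0927.result p M hM B hB g hg P u' hu').2 (fun w hw => Subtype.ext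
      (comm_of hZ hn hu.1 (hu.2.2 _ ⟨w, hP ▸ ⟨w, hw, rfl⟩, rfl⟩))) χ hχ ⟨0, 1, zero_mem _,
        fun h => hM.2.1.ne_top ((Ideal.eq_top_iff_one _).2 h), ?_⟩
    rw [centralChar, show (χ : G → ℂ) (u' * g) = 0 from h0]
    simp

end Cfsg.Agent.H71.RbLoc
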