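import Cfsg.Agent.H71.RbLoc
import Cfsg.Agent.H71.RbClass
import Cfsg.Agent.H77.CharAux
import Cfsg.Agent.H21.Feit
import Cfsg.Agent.H11.Kernel

/-! Project RB, pieces AltOdd and SpinOdd: the height bound for odd primes. -/

set_option autoImplicit false

namespace Cfsg.Agent.H71.RbOdd

open Cfsg Equiv Subgroup Cfsg.Agent.H79.RB Cfsg.Agent.H19

theorem core (hC : CritStmt) (hA : AbStmt) (hL : LocStmt) (hI : Ix1Stmt) (hS : SwapStmt)
    {Γ : Type} [Group Γ] [Finite Γ] {n p : ℕ} (hn : 2 ≤ n) (hp : p.Prime) (h2 : p ≠ 2)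
    (ρ : Γ →* Perm (Fin n)) (hρ : Function.Surjective ρ) (hZ : ρ.ker ≤ center Γ)
    (hk : ¬ p ∣ Nat.card ρ.ker) (N : Subgroup Γ) (hN : N = (alternatingGroup (Fin n)).comap ρ)
    (hsc : ∀ s g, (ρ s).Disjoint (ρ g) → Perm.sign (ρ g) = 1 → s * g = g * s)
    (hd : ∀ (θ : IrrCharacter Γ) (x : Γ) (k : ℕ), Perm.sign (ρ x) = 1 → (θ : Γ → ℂ) x ≠ 0 →
      k ≤ (typ (ρ x)).count p → nu p θ + k ≤ n.factorial.factorization p) : RCAll N p := by
  intro M hM B hB D hD χ hχ
  have := Fact.mk hp
  have : Nontrivial (Fin n) := Fin.nontrivial_iff_two_le.2 hn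
  have mN : ∀ x, x ∈ N ↔ Perm.sign (ρ x) = 1 := fun x => by rw [hN]; rfl
  have iN : N.index = 2 := by
    rw [hN, index_comap_of_surjective _ hρ, alternatingGroup.index_eq_two]
  have p2 : ¬ p ∣ 2 := fun h => h2 ((Nat.prime_dvd_prime_iff_eq hp Nat.prime_two).1 h)
  have cN : (Nat.card N).factorization p = n.factorial.factorization p := by
    have a1 := N.card_mul_index
    rw [← ρ.ker.card_mul_index, index_ker, MonoidHom.range_eq_top.2 hρ, card_top, Nat.card_perm,
      Nat.card_fin, iN] at a1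
    have a2 := congrArg (fun m => Nat.factorization m p) a1
    simp only [Nat.factorization_mul Nat.card_pos.ne' two_ne_zero,
      Nat.factorization_mul Nat.card_pos.ne' n.factorial_ne_zero, Finsupp.add_apply,
      Nat.factorization_eq_zero_of_not_dvd p2, Nat.factorization_eq_zero_of_not_dvd hk] at a2
    omega
  let π : N →* Perm (Fin n) := ρ.comp N.subtype
  have k1 : π.ker ≤ center N := fun x hx => mem_center_iff.2 fun y =>
    Subtype.ext (mem_center_iff.1 (hZ hx) y)
  have k2 : ¬ p ∣ Nat.card π.ker := fun h => hk (h.trans (by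
    rw [← card_map_of_injective N.subtype_injective]
    exact card_dvd_of_le (by rintro _ ⟨x, hx, rfl⟩; exact hx)))
  obtain ⟨k, u, g, u1, u2, u3, u4, u5, u6⟩ := hL N n π p h2 k1 k2 (fun σ hσ => by
    obtain ⟨x, rfl⟩ := hρ σ
    exact ⟨⟨x, (mN x).2 hσ⟩, rfl⟩) M hM B hB D hD
  have hDp : IsPGroup p D := by
    obtain ⟨_, -, P, rfl⟩ := hD
    exact P.isPGroup'.map _
  obtain ⟨-, -, -, c4, -, c6⟩ := hC N p M hM B hB D hD χ hχ
  refine c4 k ?_ fun A hAD hAc => ?_
  · rcases (by omega : k = 0 ∨ k = 1 ∨ 2 ≤ k) with rfl | rfl | hk2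
    · exact (Nat.factorization_le_iff_dvd (H21.deg_pos χ).ne' Nat.card_pos.ne').2
        (H21.deg_dvd_card χ) p
    · refine c6 fun e => ?_
      rw [e, mem_bot] at u1
      rw [u1, map_one, Perm.cycleType_one] at u3
      exact absurd (congrArg Multiset.card u3) (by simp)
    · obtain ⟨⟨s, s1, s2, s3⟩, s4⟩ := hS n p k (hp.odd_of_ne_two h2) hk2 _ u3
      obtain ⟨s, rfl⟩ := hρ s
      have a1 : (u : Γ) * s = s * u :=
        RbLoc.comm_of hZ hk (congrArg Subtype.val u2) s2.symm
      have a2 := hsc s g (Perm.disjoint_iff_disjoint_support.2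
        ((Perm.disjoint_iff_disjoint_support.1 u5).mono_left s3)) ((mN _).1 g.2)
      obtain ⟨θ, t1, t2⟩ := hI Γ N iN χ (u * g) s (fun h => by
        rw [mN, s1] at h; exact absurd h (by decide)) (by
          rw [coe_mul, ← mul_assoc, ← a1, mul_assoc, a2, mul_assoc]) (u6 χ hχ)
      have a3 := hd θ _ k ((mN _).1 (u * g).2) t1 (by
        rw [coe_mul, map_mul]; exact s4 _ u5)
      have a4 : nu p θ = nu p χ := by
        rcases t2 with t2 | t2
        · rw [nu, t2, nu]
        · rw [nu, t2, nu, Nat.factorization_mul two_ne_zero (H21.deg_pos χ).ne', Finsupp.add_apply,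
            Nat.factorization_eq_zero_of_not_dvd p2, zero_add]
      omega
  · have hAp : IsPGroup p A := hDp.to_le hAD
    have b1 : Function.Injective (π.comp A.subtype) := (injective_iff_map_eq_one _).2 fun a ha => by
      obtain ⟨m, hm⟩ := (IsPGroup.iff_orderOf.1 hAp) a
      have b2 : orderOf a ∣ Nat.card π.ker := by
        rw [← orderOf_submonoid]
        exact π.ker.orderOf_dvd_natCard ha
      rcases m with _ | m
      · exact orderOf_eq_one_iff.1 hm
      · exact absurd ((dvd_pow_self p m.succ_ne_zero).trans (hm ▸ b2)) k2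
    rw [Nat.card_congr (MonoidHom.ofInjective b1).toEquiv]
    refine hA n p k hp _ (hAp.of_surjective _ (π.comp A.subtype).rangeRestrict_surjective)
      ⟨⟨?_⟩⟩ (π u).support ?_ ?_
    · rintro ⟨_, x, rfl⟩ ⟨_, y, rfl⟩
      exact Subtype.ext (by
        change _ * _ = _ * _
        rw [← map_mul, ← map_mul, hAc.is_comm.comm])
    · rintro _ ⟨x, rfl⟩
      exact u4 _ (hAD x.2)
    · rw [← Perm.sum_cycleType, u3, Multiset.sum_replicate, smul_eq_mul, mul_comm]

theorem altOddStmt (hC : CritStmt) (hA : AbStmt) (hL : LocStmt) (hI : Ix1Stmt) (hD : SymDegStmt)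
    (hS : SwapStmt) : AltOddStmt := fun n p hn hp h2 => by
  have e : (MonoidHom.id (Perm (Fin n))).ker = ⊥ := MonoidHom.ker_id
  exact core hC hA hL hI hS hn hp h2 (MonoidHom.id _) Function.surjective_id (e ▸ bot_le)
    (by rw [e, card_bot]; exact hp.not_dvd_one) _ (comap_id _).symm
    (fun s g h _ => h.commute.eq) fun θ x k _ h1 h3 => hD n p k hp θ x h1 h3

theorem spinOddStmt (hC : CritStmt) (hA : AbStmt) (hL : LocStmt) (hI : Ix1Stmt) (hD : SymDegStmt)
    (hS : SwapStmt) (hP : SpinDegStmt) : SpinOddStmt := fun F n p hn hp h2 => by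
  refine core hC hA hL hI hS hn hp h2 (F.π n) (F.surj n) (fun x hx => ?_)
    (by rw [RbClass.card_ker]
        exact fun h => h2 ((Nat.prime_dvd_prime_iff_eq hp Nat.prime_two).1 h)) _ rfl
    (fun s g h h1 => ?_) fun θ x k h0 h1 h3 => ?_
  · rcases (F.ker n x).1 hx with rfl | rfl
    · exact one_mem _
    · exact mem_center_iff.2 (RbClass.z_comm F)
  · rw [F.sc n s g h, if_neg fun e => absurd (h1.symm.trans e.2) (by decide), one_mul]
  · have a1 := H77.irr_center_mul θ.2 (mem_center_iff.2 (RbClass.z_comm (n := n) F))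
    have a0 := H11.irr_apply_one_ne_zero θ.2
    have a2 := a1 (F.z n)
    rw [RbClass.z_sq] at a2
    rcases mul_self_eq_mul_self_iff.1 a2 with e | e
    · obtain ⟨ψ, b1, b2⟩ := H11.exists_irr_lift_of_surjective θ.2 (F.π n) (F.surj n) fun y hy => by
        rcases (F.ker n y).1 hy with rfl | rfl
        · exact one_mem _
        · exact (H11.mem_charKer_irr_iff θ.2).2 e.symm
      have b3 := hD n p k hp ⟨ψ, b1⟩ (F.π n x) (by rwa [← b2] at h1) h3
      have b4 : nu p θ = nu p (⟨ψ, b1⟩ : IrrCharacter _) := by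
        have := b2 1
        rw [map_one] at this
        simp only [nu, charDegree, this]
      omega
    · refine hP F n p k hp h2 θ x ⟨H11.isClassFunction_of_irr θ.2, fun g => ?_⟩ h0 h1 h3
      refine mul_right_cancel₀ a0 ?_
      rw [a1, show (θ : F.G n → ℂ) (F.z n) = -(θ : F.G n → ℂ) 1 by rw [e, neg_neg]]
      ring

end Cfsg.Agent.H71.RbOdd
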