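import Cfsg.Agent.H71.RbClass

/-! Project RB, piece SpCen: the centre of a defect group in the double cover. -/

set_option autoImplicit false

namespace Cfsg.Agent.H71.RbSpCen

open Cfsg Equiv Subgroup Cfsg.Agent.H79.RB

variable {v : ℕ}

/-- the transposition of the `i`-th pair -/
def τ (i : Fin (v + 2)) : Perm (Fin (v + 2) × Bool) := swap (i, false) (i, true)

/-- the exchange of the first two pairs -/
def yy (v : ℕ) : Perm (Fin (v + 2) × Bool) := swap (0, false) (1, false) * swap (0, true) (1, true)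

theorem τ_self (i : Fin (v + 2)) (b : Bool) : τ i (i, b) = (i, !b) := by
  cases b <;> simp [τ]

theorem τ_ne {i k : Fin (v + 2)} (h : k ≠ i) (b : Bool) : τ i (k, b) = (k, b) :=
  swap_apply_of_ne_of_ne (by simp [h]) (by simp [h])

theorem yy_ne {k : Fin (v + 2)} (h0 : k ≠ 0) (h1 : k ≠ 1) (b : Bool) : yy v (k, b) = (k, b) := by
  rw [yy, Perm.mul_apply, swap_apply_of_ne_of_ne (x := (k, b)) (by simp [h0]) (by simp [h1]),
    swap_apply_of_ne_of_ne (by simp [h0]) (by simp [h1])]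

theorem sign_τ (i : Fin (v + 2)) : Perm.sign (τ i) = -1 := Perm.sign_swap (by simp)

theorem sign_yy : Perm.sign (yy v) = 1 := by
  rw [yy, map_mul, Perm.sign_swap (by simp), Perm.sign_swap (by simp)]; rfl

theorem yy_sq : yy v * yy v = 1 := by
  have : Commute (swap ((0 : Fin (v + 2)), false) (1, false)) (swap (0, true) (1, true)) :=
    (Perm.disjoint_swap_swap (by simp)).commute
  rw [yy, ← pow_two, this.mul_pow, pow_two, pow_two, swap_mul_self, swap_mul_self, one_mul]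

theorem yy_τ : yy v * τ 0 * (yy v)⁻¹ = τ 1 := by
  have a : yy v (0, false) = (1, false) := by
    rw [yy, Perm.mul_apply, swap_apply_of_ne_of_ne (x := (0, false)) (by simp) (by simp),
      swap_apply_left]
  have b : yy v (0, true) = (1, true) := by
    rw [yy, Perm.mul_apply, swap_apply_left, swap_apply_of_ne_of_ne (by simp) (by simp)]
  rw [τ, ← swap_apply_apply, τ, a, b]

theorem τ_disj {i k : Fin (v + 2)} (h : i ≠ k) : (τ i).Disjoint (τ k) := fun ⟨m, b⟩ => by
  by_cases e : m = i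
  · exact .inr (τ_ne (e ▸ h) b)
  · exact .inl (τ_ne e b)

theorem cases_σ (σ : Perm (Fin (v + 2) × Bool)) (h1 : Perm.sign σ = 1)
    (h2 : ∀ i k, σ * (τ i * τ k) = τ i * τ k * σ) (h3 : σ * yy v = yy v * σ) :
    σ = 1 ∨ (∃ i k, (τ i).Disjoint ((τ i)⁻¹ * σ) ∧ (τ k).Disjoint σ) ∨
      (yy v).Disjoint ((τ 0 * τ 1)⁻¹ * σ) ∨ yy v * σ = 1 ∨ yy v * σ = τ 0 * τ 1 := by
  rcases v with _ | v
  · have := (by decide +kernel : ∀ σ : Perm (Fin (0 + 2) × Bool), Perm.sign σ = 1 →
      σ * (τ 0 * τ 1) = τ 0 * τ 1 * σ → σ * yy 0 = yy 0 * σ →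
      σ = 1 ∨ σ = τ 0 * τ 1 ∨ yy 0 * σ = 1 ∨ yy 0 * σ = τ 0 * τ 1) σ h1 (h2 0 1) h3
    refine this.imp_right fun h => .inr (h.imp_left fun e => ?_)
    rw [e, inv_mul_cancel]
    exact Perm.disjoint_one_right _
  have a1 : ∀ i k b, k ≠ i → (σ (i, b)).1 = i ∨ (σ (i, b)).1 = k := fun i k b hk => by
    by_contra hc
    push Not at hc
    have := congrArg (fun f : Perm _ => f (i, b)) (h2 i k)
    simp only [Perm.mul_apply] at this
    rw [τ_ne hk.symm, τ_self, ← Prod.mk.eta (p := σ (i, b)), τ_ne hc.2, τ_ne hc.1,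
      Prod.mk.eta] at this
    simpa using σ.injective this
  have a2 : ∀ i b, (σ (i, b)).1 = i := fun i b => by
    obtain ⟨k, l, hk, hl, hkl⟩ := Finset.one_lt_card_iff.1
      (show 1 < (Finset.univ.erase i).card by simp)
    exact (a1 i k b (Finset.ne_of_mem_erase hk)).resolve_right fun e =>
      (a1 i l b (Finset.ne_of_mem_erase hl)).elim (fun e' => Finset.ne_of_mem_erase hk (e ▸ e'))
        fun e' => hkl (e.symm.trans e')
  have a3 : ∀ i, (∀ b, σ (i, b) = (i, b)) ∨ ∀ b, σ (i, b) = (i, !b) := fun i => by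
    have e0 : σ (i, false) = (i, (σ (i, false)).2) := Prod.ext (a2 i _) rfl
    have e1 : σ (i, true) = (i, (σ (i, true)).2) := Prod.ext (a2 i _) rfl
    have e2 : σ (i, false) ≠ σ (i, true) := fun e => by simpa using σ.injective e
    rw [e0, e1] at e2
    simp only [Bool.forall_bool]
    generalize (σ (i, false)).2 = c0 at e0 e2
    generalize (σ (i, true)).2 = c1 at e1 e2
    rw [e0, e1]
    cases c0 <;> cases c1 <;> simp at e2 ⊢
  have inv : ∀ i : Fin (v + 1 + 2), (τ i)⁻¹ = τ i := fun i => swap_inv _ _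
  by_cases b1 : ∃ i, ∀ b, σ (i, b) = (i, !b)
  · obtain ⟨i, hi⟩ := b1
    by_cases b2 : ∃ k, ∀ b, σ (k, b) = (k, b)
    · obtain ⟨k, hk⟩ := b2
      refine .inr (.inl ⟨i, k, fun ⟨m, b⟩ => ?_, fun ⟨m, b⟩ => ?_⟩)
      · by_cases e : m = i
        · right; rw [e, inv, Perm.mul_apply, hi, τ_self, Bool.not_not]
        · exact .inl (τ_ne e b)
      · by_cases e : m = k
        · exact .inr (e ▸ hk b)
        · exact .inl (τ_ne e b)
    · have b3 : ∀ k b, σ (k, b) = (k, !b) := fun k => (a3 k).resolve_left fun h => b2 ⟨k, h⟩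
      refine .inr (.inr (.inl fun ⟨m, b⟩ => ?_))
      rw [mul_inv_rev, inv, inv, Perm.mul_apply, Perm.mul_apply, b3]
      by_cases e : m = 0
      · right; rw [e, τ_self, τ_ne Fin.zero_ne_one, Bool.not_not]
      by_cases e' : m = 1
      · right; rw [e', τ_ne Fin.zero_ne_one.symm, τ_self, Bool.not_not]
      · exact .inl (yy_ne e e' b)
  · exact .inl (Equiv.ext fun ⟨m, b⟩ => (a3 m).resolve_right (fun h => b1 ⟨m, h⟩) b)

theorem spCenStmt (hS : SylpStmt) : SpCenStmt := by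
  classical
  intro F n v j Q D hz hD
  obtain ⟨e, e1, e2⟩ := hS v Q
  let ι : Perm (Fin (v + 2) × Bool) →* Perm (Fin n) :=
    (Perm.viaEmbeddingHom j).comp (MulAut.conj e).toMonoidHom
  have i1 : Function.Injective ι :=
    (Perm.viaEmbeddingHom_injective j).comp (MulAut.conj e).injective
  have i2 : ∀ σ, Perm.sign (ι σ) = Perm.sign σ := fun σ => by
    change Perm.sign ((e * σ * e⁻¹).viaEmbedding j) = _
    rw [Perm.viaEmbedding, Perm.sign_extendDomain]
    simp [mul_right_comm]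
  have sc : ∀ (x y : F.G n) σ ρ, F.π n x = ι σ → F.π n y = ι ρ → σ.Disjoint ρ → x * y =
      (if Perm.sign σ = -1 ∧ Perm.sign ρ = -1 then F.z n else 1) * (y * x) :=
    fun x y σ ρ hx hy h => by
      rw [← i2, ← i2 ρ, ← hx, ← hy]
      refine F.sc n x y ?_
      rw [hx, hy]
      exact @Perm.Disjoint.extendDomain _ _ _ (Classical.decPred _) _ _ _ (h.conj e)
  have mem : ∀ x σ, F.π n x = ι σ → e * σ * e⁻¹ ∈ (Q : Subgroup (Perm (Fin (v + 2) × Bool))) →
      Perm.sign σ = 1 → x ∈ D := fun x σ hx h1 h2 => by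
    obtain ⟨d, hd, h3⟩ : ι σ ∈ D.map (F.π n) := hD ▸ ⟨_, ⟨h1, by
      change Perm.sign (e * σ * e⁻¹) = 1
      simp [mul_right_comm, h2]⟩, rfl⟩
    rcases RbClass.eq_or F (hx.trans h3.symm) with rfl | rfl
    · exact hd
    · exact mul_mem hz hd
  choose t ht using fun i : Fin (v + 2) => F.surj n (ι (τ i))
  obtain ⟨s, hs⟩ := F.surj n (ι (yy v))
  have tt : ∀ i k, F.π n (t i * t k) = ι (τ i * τ k) := fun i k => by rw [map_mul, map_mul, ht, ht]
  have m1 : ∀ i k, t i * t k ∈ D := fun i k => mem _ _ (tt i k) (by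
    have := mul_mem (e1 i) (e1 k)
    rwa [swap_apply_apply, swap_apply_apply, conj_mul] at this) (by
      rw [map_mul, sign_τ, sign_τ]; rfl)
  have m2 : s ∈ D := mem _ _ hs (by
    rwa [swap_apply_apply, swap_apply_apply, conj_mul] at e2) sign_yy
  have zc := RbClass.z_comm F (n := n)
  have zz := RbClass.z_sq F (n := n)
  have anti : ∀ a b : F.G n, a * b = F.z n * (b * a) → a * b ≠ b * a := fun a b h h' =>
    F.z_ne n (mul_eq_right.1 (h.symm.trans h'))
  have st : s * (t 0 * t 1) = F.z n * (t 0 * t 1 * s) := by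
    have a1 : F.π n (s * t 0 * s⁻¹) = ι (τ 1) := by
      rw [← yy_τ]; simp only [map_mul, map_inv, hs, ht]
    have a2 : s * (s * t 0 * s⁻¹) * s⁻¹ = t 0 := by
      have : s * s * t 0 = t 0 * (s * s) := by
        rcases (F.ker n (s * s)).1 (by rw [map_mul, hs, ← map_mul, yy_sq, map_one]) with h | h
        · rw [h, one_mul, mul_one]
        · rw [h, zc]
      calc _ = s * s * t 0 * (s * s)⁻¹ := by group
        _ = _ := by rw [this]; group
    have a3 := sc _ _ _ _ a1 (ht 0) (τ_disj Fin.zero_ne_one.symm)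
    rw [if_pos ⟨sign_τ _, sign_τ _⟩] at a3
    have a4 : s * (t 0 * (s * t 0 * s⁻¹)) = F.z n * (t 0 * (s * t 0 * s⁻¹) * s) := by
      rw [← mul_assoc (F.z n), ← a3]
      calc _ = s * t 0 * s⁻¹ * (s * (s * t 0 * s⁻¹) * s⁻¹) * s := by group
        _ = _ := by rw [a2]
    rcases RbClass.eq_or F ((ht 1).trans a1.symm) with h | h
    · rwa [h]
    · rw [h, ← mul_assoc (t 0), zc, mul_assoc (F.z n), ← mul_assoc s, zc, mul_assoc, a4]
      simp only [mul_assoc]
  refine ⟨fun h => anti _ _ st (congrArg Subtype.val (h.is_comm.comm ⟨_, m2⟩ ⟨_, m1 0 1⟩)), ?_⟩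
  rw [← RbClass.card_ker F (n := n), ← card_map_of_injective D.subtype_injective]
  refine card_le_of_le ?_
  rintro _ ⟨⟨x, hx⟩, hc, rfl⟩
  have c : ∀ d ∈ D, d * x = x * d := fun d hd => congrArg Subtype.val (mem_center_iff.1 hc ⟨d, hd⟩)
  obtain ⟨r, hr, h1⟩ : F.π n x ∈ _ := hD ▸ mem_map_of_mem _ hx
  obtain ⟨σ, rfl⟩ := (MulAut.conj e).surjective r
  replace h1 : F.π n x = ι σ := h1.symm
  have h2 : Perm.sign σ = 1 := by
    have : Perm.sign (e * σ * e⁻¹) = 1 := hr.2
    simpa [mul_right_comm] using this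
  have fin : s * x * (t 0 * t 1) = t 0 * t 1 * (s * x) → s * (t 0 * t 1) = t 0 * t 1 * s :=
    fun a1 => mul_right_cancel (b := x) (by
      rw [mul_assoc, c _ (m1 0 1), ← mul_assoc, a1, mul_assoc (t 0 * t 1)])
  rcases cases_σ σ h2 (fun i k => i1 (by
      rw [map_mul, map_mul ι _ σ, ← tt, ← h1, ← map_mul, ← map_mul, c _ (m1 i k)]))
    (i1 (by rw [map_mul, map_mul, ← hs, ← h1, ← map_mul, ← map_mul, c _ m2])) with
      h | ⟨i, k, h, h'⟩ | h | h | h
  · change F.π n x = 1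
    rw [h1, h, map_one]
  · have a1 := sc _ ((t i)⁻¹ * x) _ _ (ht i) (by rw [map_mul, map_inv, ht, h1, map_mul, map_inv]) h
    have a2 := sc _ _ _ _ (ht k) h1 h'
    rw [if_pos ⟨sign_τ _, by rw [map_mul, map_inv, sign_τ, h2]; rfl⟩] at a1
    rw [if_neg fun e => absurd (h2.symm.trans e.2) (by decide), one_mul] at a2
    refine absurd (c _ (m1 i k)) (anti _ _ ?_)
    calc t i * t k * x = t i * (t i * ((t i)⁻¹ * x)) * t k := by
          rw [mul_assoc, a2]; group
      _ = _ := by rw [a1, ← mul_assoc (t i), zc]; group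
  · have a1 := sc s ((t 0 * t 1)⁻¹ * x) _ _ hs
      (by rw [map_mul, map_inv, tt, h1, map_mul ι _ σ, map_inv]) h
    rw [if_neg fun e => absurd (sign_yy.symm.trans e.1) (by decide), one_mul] at a1
    refine absurd (c _ m2) (anti _ _ ?_)
    calc s * x = s * (t 0 * t 1) * ((t 0 * t 1)⁻¹ * x) := by group
      _ = F.z n * (t 0 * t 1 * (s * ((t 0 * t 1)⁻¹ * x))) := by rw [st]; group
      _ = _ := by rw [a1]; group
  · refine absurd (fin ?_) (anti _ _ st)
    rcases (F.ker n (s * x)).1 (by rw [map_mul, hs, h1, ← map_mul, h, map_one]) with a | a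
    · rw [a, one_mul, mul_one]
    · rw [a, zc]
  · refine absurd (fin ?_) (anti _ _ st)
    rcases RbClass.eq_or F (show F.π n (s * x) = F.π n (t 0 * t 1) by
      rw [map_mul, hs, h1, ← map_mul, h, tt]) with a | a
    · rw [a]
    · rw [a, ← mul_assoc (t 0 * t 1), zc]

end Cfsg.Agent.H71.RbSpCen
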