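import Cfsg.Agent.H71.RbClass
import Cfsg.Agent.H22.Transport
import Cfsg.Agent.S4434
import Cfsg.Agent.S0912

/-! Project RB, pieces Alt2 and Spin2: the height bound for the prime `2`. -/

set_option autoImplicit false

namespace Cfsg.Agent.H71.RbTwo

open Cfsg Equiv Subgroup Cfsg.Agent.H79.RB

theorem comm_of_equiv {A B : Type*} [Group A] [Group B] (e : A ≃* B) (h : IsMulCommutative A) :
    IsMulCommutative B :=
  ⟨⟨fun x y => e.symm.injective (by rw [map_mul, map_mul, h.is_comm.comm])⟩⟩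

theorem alt2Stmt (hC : CritStmt) (hA : AltBlkStmt) (hZ : Cen2Stmt) : Alt2Stmt := by
  intro n hn M hM B hB D hD χ hχ
  have : Fact (Nat.Prime 2) := ⟨Nat.prime_two⟩
  have : Nontrivial (Fin n) := Fin.nontrivial_iff_two_le.2 hn
  obtain ⟨w, j, Q, h1, h2⟩ := hA n hn M hM B hB D hD
  obtain ⟨z1, z2, z3⟩ := hZ w Q _ rfl
  let e := (D.equivMapOfInjective _ (subtype_injective _)).trans ((MulEquiv.subgroupCongr h1).trans
    (equivMapOfInjective _ _ (Perm.viaEmbeddingHom_injective j)).symm)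
  obtain ⟨c1, -, -, -, c5, -⟩ := hC _ 2 M hM B hB D hD χ hχ
  rcases (by omega : w ≤ 1 ∨ w = 2 ∨ 3 ≤ w) with hw | hw | hw
  · exact c1 (by rw [Nat.card_congr e.toEquiv, z1 hw, card_bot]; decide)
  · exact c1 (by rw [Nat.card_congr e.toEquiv, z2 hw]; decide)
  · refine c5 (w - 1) ?_ (fun h => (z3 hw).1 (comm_of_equiv e h))
      (by rw [Nat.card_congr (centerCongr e).toEquiv]; exact (z3 hw).2)
    have a1 := two_mul_nat_card_alternatingGroup (α := Fin n)
    rw [Nat.card_perm, Nat.card_fin] at a1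
    have a2 := h2 χ hχ
    rw [← a1, Nat.factorization_mul two_ne_zero Nat.card_pos.ne', Finsupp.add_apply,
      Nat.Prime.factorization_self Nat.prime_two] at a2
    omega

theorem spin2Stmt (hC : CritStmt) (hA : AltBlkStmt) (hZ : Cen2Stmt) (hS : SpCenStmt) :
    Spin2Stmt := by
  intro F n hn M hM B hB D hD χ hχ
  have : Fact (Nat.Prime 2) := ⟨Nat.prime_two⟩
  let φ : F.Alt n →* alternatingGroup (Fin n) := (F.π n).subgroupComap (alternatingGroup (Fin n))
  have hφ : Function.Surjective φ :=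
    MonoidHom.subgroupComap_surjective_of_surjective _ _ (F.surj n)
  have k1 : ∀ x : F.Alt n, x ∈ φ.ker ↔ F.π n x = 1 := fun x => Subtype.ext_iff
  have k2 : Nat.card φ.ker ≤ 2 := by
    rw [← RbClass.card_ker F (n := n), ← card_map_of_injective (F.Alt n).subtype_injective]
    exact card_le_of_le (by rintro _ ⟨x, hx, rfl⟩; exact (k1 x).1 hx)
  have k3 : IsPGroup 2 φ.ker := fun x => ⟨1, Subtype.ext (Subtype.ext (by
    change (x : F.G n) ^ 2 ^ 1 = 1
    rcases (F.ker n _).1 ((k1 x).1 x.2) with h | h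
    · rw [h, one_pow]
    · rw [h, pow_one, pow_two, RbClass.z_sq]))⟩
  have k4 : φ.ker ≤ D := (le_sSup ⟨inferInstance, k3⟩ : φ.ker ≤ pCore 2 _).trans
    (S0912.result 2 M hM B hB D hD)
  obtain ⟨Bb, b1, -, b3⟩ := S4434.result 2 M hM φ.ker k3 B hB
  let e := QuotientGroup.quotientKerEquivOfSurjective φ hφ
  obtain ⟨w, j, Q, h1, -⟩ := hA n hn M hM _ (H22.isPBlock_image e b1) _
    (H22.isDefectGroup_image e ((b3 _).2 ⟨D, hD, rfl⟩))
  have h2 : (D.map (F.Alt n).subtype).map (F.π n) =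
      ((Q : Subgroup (Perm (Fin w × Bool))) ⊓ alternatingGroup (Fin w × Bool)).map
        (Perm.viaEmbeddingHom j) := by
    rw [← h1, map_map, map_map, map_map]
    rfl
  obtain ⟨c1, -, c3, -⟩ := hC _ 2 M hM B hB D hD χ hχ
  rcases (by omega : w ≤ 1 ∨ 2 ≤ w) with hw | hw
  · rw [(hZ w Q _ rfl).1 hw, Subgroup.map_bot] at h2
    have : D ≤ φ.ker := fun x hx => (k1 x).2 (mem_bot.1 (h2 ▸ ⟨x, ⟨x, hx, rfl⟩, rfl⟩))
    exact c1 ((card_le_of_le this).trans (k2.trans (by decide)))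
  · obtain ⟨v, rfl⟩ : ∃ v, w = v + 2 := ⟨w - 2, by omega⟩
    have hz : F.z n ∈ F.Alt n := by
      change F.π n (F.z n) ∈ alternatingGroup (Fin n)
      rw [RbClass.π_z]; exact one_mem _
    obtain ⟨s1, s2⟩ := hS F n v j Q (D.map (F.Alt n).subtype)
      ⟨⟨_, hz⟩, k4 ((k1 _).2 (RbClass.π_z F)), rfl⟩ h2
    let e' := D.equivMapOfInjective _ (F.Alt n).subtype_injective
    exact c3 (fun h => s1 (comm_of_equiv e' h))
      (by rw [Nat.card_congr (centerCongr e').toEquiv]; exact s2)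

end Cfsg.Agent.H71.RbTwo
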