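import Cfsg.Agent.H56.SpDefs
import Cfsg.Agent.H60.OddInv

/-! Project CY, chapter SP, piece BW: the Brauer-Wielandt count. -/

set_option autoImplicit false
set_option linter.unusedVariables false

namespace Cfsg.Agent.H71.SpBw

open Subgroup MulAction Cfsg.Agent.H11.Cy Cfsg.Agent.H56.Sp
open Cfsg.Agent.H45.Iv (Fx)

variable {G : Type} [Group G] {Ω : Type} [MulAction G Ω]

theorem cnt (X : Subgroup G) {x y : Ω} {S : Set Ω} [Finite Ω] (hx : x ∈ S)
    (h : ∀ w, (∃ c ∈ X, c • y = w) ↔ w ∈ S ∧ w ≠ x) :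
    Nat.card X = (S.ncard - 1) * Nat.card ↥(X ⊓ stabilizer G y) := by
  have h0 : orbit X y = S \ {x} := by
    ext w
    rw [Set.mem_diff, Set.mem_singleton_iff, ← ne_eq, ← h]
    exact ⟨fun ⟨c, e⟩ => ⟨c, c.2, e⟩, fun ⟨c, hc, e⟩ => ⟨⟨c, hc⟩, e⟩⟩
  have h1 := index_stabilizer X y
  have h2 := (stabilizer X y).index_mul_card
  have h3 : Nat.card (stabilizer X y) = Nat.card ↥(X ⊓ stabilizer G y) := by
    have : stabilizer X y = (X ⊓ stabilizer G y).subgroupOf X := by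
      ext g
      simp [mem_subgroupOf, Subgroup.smul_def]
    rw [this]
    exact Nat.card_congr (subgroupOfEquivOfLe inf_le_left).toEquiv
  rw [← h2, h1, h3, h0, Set.ncard_diff_singleton_of_mem hx]

theorem adj {O : Subgroup G} (hO : Odd (Nat.card O)) {v : G} (hv : v * v = 1)
    (hn : ∀ o ∈ O, v * o * v ∈ O) {y w : Ω} (hy : v • y = y) (hw : v • w = w) {o : G} (ho : o ∈ O)
    (e : o • y = w) : ∃ c ∈ O ⊓ centralizer {v}, c • y = w := by
  obtain ⟨k, hk, e2⟩ := H60.exists_conj_of_odd (H := O ⊓ stabilizer G y)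
    (H60.odd_card_of_le hO inf_le_left) hv (t' := o⁻¹ * v * o)
    (by rw [show o⁻¹ * v * o * (o⁻¹ * v * o) = o⁻¹ * (v * v) * o by group, hv]; group)
    ⟨by simpa [mul_assoc] using mul_mem (inv_mem ho) (hn o ho), by
      show (o⁻¹ * v * o * v) • y = y
      rw [mul_smul, mul_smul, mul_smul, hy, e, hw, ← e, inv_smul_smul]⟩
  refine ⟨o * k, ⟨mul_mem ho hk.1, mem_centralizer_singleton_iff.mpr ?_⟩, ?_⟩
  · calc o * k * v = o * (k * v * k⁻¹) * k := by group
      _ = v * (o * k) := by rw [e2]; group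
  · rw [mul_smul, mem_stabilizer_iff.mp hk.2, e]

theorem bw : BwStmt := by
  intro G _ _ Ω _ _ p A st hy ot x y xy z hz t ht tt t1 tz
  obtain ⟨O, oO, Ox, nO, tr⟩ := ot x
  have lf := hy.lf x y xy
  have zK := lf.cen z hz
  have kf : ∀ k ∈ Kl A x y, ∀ w ∈ Ln A x y, k • w = w := fun k hk =>
    (hy.mc.ep.kfix x y xy k).mp hk
  have zt : z * t = t * z := mem_centralizer_iff.mp ht z hz.1
  have zz := hz.2.2
  have s2 : t * z * (t * z) = 1 := by
    rw [mul_assoc, ← mul_assoc z, zt, mul_assoc, zz, mul_one, tt]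
  have nv : ∀ v ∈ Kl A x y, v * v = 1 → ∀ o ∈ O, v * o * v ∈ O := fun v hv vv o ho => by
    have := (mem_normalizer_iff.mp (nO (kf v hv x lf.mem.1)) o).mp ho
    rwa [inv_eq_of_mul_eq_one_right vv] at this
  have nv' : ∀ v ∈ Kl A x y, v * v = 1 → ∀ o ∈ O ⊓ stabilizer G y,
      v * o * v ∈ O ⊓ stabilizer G y := fun v hv vv o ho =>
    ⟨nv v hv vv o ho.1, mul_mem (mul_mem (kf v hv y lf.mem.2) ho.2) (kf v hv y lf.mem.2)⟩
  have nx : ∀ c ∈ O, c • y ≠ x := fun c hc e =>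
    xy (by rw [← mem_stabilizer_iff.mp (Ox hc)] at e; exact (MulAction.injective c e).symm)
  have orb : ∀ v ∈ Kl A x y, v * v = 1 → ∀ w,
      (∃ c ∈ O ⊓ centralizer {v}, c • y = w) ↔ w ∈ Fx Ω v ∧ w ≠ x := fun v hv vv w => by
    constructor
    · rintro ⟨c, hc, rfl⟩
      refine ⟨?_, nx c hc.1⟩
      show v • c • y = c • y
      rw [← mul_smul, ← mem_centralizer_singleton_iff.mp hc.2, mul_smul, kf v hv y lf.mem.2]
    · rintro ⟨h1, h2⟩
      obtain ⟨o, ho, e⟩ := tr y w xy.symm h2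
      exact adj oO vv (nv v hv vv) (kf v hv y lf.mem.2) h1 ho e
  have c0 := cnt O (x := x) (y := y) (S := Set.univ) trivial fun w =>
    ⟨fun ⟨c, hc, e⟩ => ⟨trivial, e ▸ nx c hc⟩, fun h => tr y w xy.symm h.2⟩
  have c1 := cnt _ (S := Fx Ω t) (kf t ht x lf.mem.1) (orb t ht tt)
  have c2 := cnt _ (S := Fx Ω z) (kf z zK x lf.mem.1) (orb z zK zz)
  have c3 := cnt _ (S := Fx Ω (t * z)) (kf _ (mul_mem ht zK) x lf.mem.1) (orb _ (mul_mem ht zK) s2)
  have ez := hy.fz x y xy z hz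
  have c4 := cnt (O ⊓ centralizer {t, z}) (x := x) (y := y) (S := Fx Ω z) (kf z zK x lf.mem.1)
    fun w => by
      constructor
      · rintro ⟨c, hc, e⟩
        exact (orb z zK zz w).mp ⟨c, ⟨hc.1, centralizer_le (by simp) hc.2⟩, e⟩
      · intro h
        obtain ⟨o, ho, e⟩ := (orb z zK zz w).mpr h
        obtain ⟨c, hc, e'⟩ := adj (H60.odd_card_of_le oO inf_le_left) tt (fun o ho =>
          ⟨nv t ht tt o ho.1, mul_mem (mul_mem (mem_centralizer_singleton_iff.mpr zt.symm) ho.2)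
            (mem_centralizer_singleton_iff.mpr zt.symm)⟩) (kf t ht y lf.mem.2)
          (kf t ht w (ez ▸ h.1)) ho e
        refine ⟨c, ⟨hc.1.1, mem_centralizer_iff.mpr ?_⟩, e'⟩
        rintro g (rfl | rfl)
        · exact (mem_centralizer_singleton_iff.mp hc.2).symm
        · exact (mem_centralizer_singleton_iff.mp hc.1.2).symm
  have b1 := H60.brauer_wielandt oO tt zz zt.symm (nv t ht tt) (nv z zK zz)
  have b2 := H60.brauer_wielandt (H60.odd_card_of_le oO (inf_le_left (b := stabilizer G y))) tt zz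
    zt.symm (nv' t ht tt) (nv' z zK zz)
  rw [inf_right_comm] at c1 c2 c3 c4
  rw [ez, lf.ln, Nat.add_sub_cancel] at c2 c4
  rw [Set.ncard_univ] at c0
  rw [c0, c1, c2, c3, c4] at b1
  have p0 := st.pp.pos
  have q1 : 0 < Nat.card ↥(O ⊓ stabilizer G y) *
    Nat.card ↥(O ⊓ stabilizer G y ⊓ centralizer {t, z}) ^ 2 :=
      Nat.mul_pos Nat.card_pos (pow_pos Nat.card_pos 2)
  refine Nat.eq_of_mul_eq_mul_left (Nat.mul_pos p0 q1) ?_
  calc _ = (Nat.card Ω - 1) * Nat.card ↥(O ⊓ stabilizer G y) *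
        (p * Nat.card ↥(O ⊓ stabilizer G y ⊓ centralizer {t, z})) ^ 2 := by ring
    _ = _ := by rw [b1, b2]; ring

end Cfsg.Agent.H71.SpBw
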