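import Cfsg.Agent.H42.VpDefs
import Cfsg.Agent.H3.Cores

/-! The centre is the largest normal `p`-subgroup. -/

set_option autoImplicit false

namespace Cfsg.Agent.H71.VpF1

open Subgroup Cfsg Cfsg.Agent.H42.Vp

universe u

theorem triv {G : Type u} [Group G] [Finite G] {p : ℕ} {K : Subgroup G}
    (hc : (Nat.card K).Coprime p) {y : G} (hy : y ∈ K) {m : ℕ} (hm : y ^ p ^ m = 1) : y = 1 := by
  have h1 : orderOf y ∣ Nat.card K := K.orderOf_dvd_natCard hy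
  have h2 : orderOf y ∣ p ^ m := orderOf_dvd_of_pow_eq_one hm
  exact orderOf_eq_one_iff.1 (Nat.eq_one_of_dvd_coprimes (hc.pow_right m) h1 h2)

theorem f1 : F1Stmt.{u} := by
  intro G _ _ p hp K hK hc ⟨k, hk⟩ hne hl ⟨x, hx, hxz⟩
  have hZ : IsPGroup p (center G) := by
    intro ⟨z, hz⟩
    have h1 : z ^ p ^ k ∈ K := hk ▸ K.pow_index_mem z
    refine ⟨k, Subtype.ext ?_⟩
    change z ^ p ^ k = 1
    by_contra h
    exact hxz (hl x hx _ h1 h (mem_center_iff.1 (pow_mem hz _) x))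
  refine ⟨hZ, le_antisymm (le_sSup ⟨inferInstance, hZ⟩) fun y hy => ?_⟩
  obtain ⟨⟨w, hw⟩, hw1⟩ := (ne_bot_iff_exists_ne_one).1 hne
  have hw1' : w ≠ 1 := fun h => hw1 (Subtype.ext h)
  have hP := H3.pCore_isPGroup p G
  have hN : (pCore p G).Normal := inferInstance
  obtain ⟨m, hm⟩ := hP ⟨y, hy⟩
  refine hl y ⟨m, congrArg Subtype.val hm⟩ w hw hw1' ?_
  have h2 : y * w * y⁻¹ * w⁻¹ ∈ K := K.mul_mem (hK.conj_mem w hw y) (K.inv_mem hw)
  have h3 : y * w * y⁻¹ * w⁻¹ ∈ pCore p G := by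
    have := (pCore p G).mul_mem hy (hN.conj_mem _ ((pCore p G).inv_mem hy) w)
    simpa [mul_assoc] using this
  obtain ⟨j, hj⟩ := hP ⟨_, h3⟩
  have h4 := triv hc h2 (congrArg Subtype.val hj)
  rw [mul_inv_eq_one, mul_inv_eq_iff_eq_mul] at h4
  exact h4

end Cfsg.Agent.H71.VpF1
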